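/- Integer vectors of small norm: the lattice part of the tower for the principal `3`-block with
extraspecial defect group of order `27` (blueprint `X3.md`). -/
import Cfsg.Agent.Base

namespace H34.X3

open Finset Matrix

universe u

section defs
variable {ι κ : Type*} [Fintype ι] {n : ℕ}

/-- An orthonormal family. -/
def On (u : κ → ι → ℤ) : Prop := (∀ i, u i ⬝ᵥ u i = 1) ∧ ∀ i j, i ≠ j → u i ⬝ᵥ u j = 0

/-- The columns of the non-central subsections; `d` is the degree vector, `o` the trivial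
character. -/
structure W0 (e : ℤ) (w : Fin n → ι → ℤ) (d : ι → ℤ) (o : ι) : Prop where
  self : ∀ O, w O ⬝ᵥ w O = e + 1
  gram : ∀ O O', O ≠ O' → w O ⬝ᵥ w O' = e
  at_o : ∀ O, w O o = -1
  deg : ∀ O, w O ⬝ᵥ d = 0
  one : d o = 1
  ne : ∀ i, d i ≠ 0

/-- A family with norm `c + m`, mutual products `c`, and product `g O` with `w O`. -/
structure Fm (c m : ℤ) (g : Fin n → ℤ) (w : Fin n → ι → ℤ) (a : κ → ι → ℤ) : Prop where
  self : ∀ j, a j ⬝ᵥ a j = c + m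
  gram : ∀ j k, j ≠ k → a j ⬝ᵥ a k = c
  prod : ∀ j O, a j ⬝ᵥ w O = g O

/-- Two families of norm three in pairs. -/
structure PP (c : ℤ) (p q : κ → ι → ℤ) (d : ι → ℤ) : Prop where
  self : ∀ j, p j ⬝ᵥ q j = c + 1
  gram : ∀ j k, j ≠ k → p j ⬝ᵥ q k = c
  dp : ∀ j, p j ⬝ᵥ d = 0
  dq : ∀ j, q j ⬝ᵥ d = 0

end defs

/-- The number of Brauer characters downstairs. -/
def JobL (n : ℕ) (e c : ℤ) (g : Fin n → ℤ) (l : ℕ) : Prop :=
  ∀ (ι : Type u) (κ : Type) [Fintype ι] [Fintype κ] (w : Fin n → ι → ℤ) (d : ι → ℤ) (o : ι)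
    (a : κ → ι → ℤ), W0 e w d o → (∀ i, ∃ O, w O i ≠ 0) → Fm c 1 g w a →
    Fintype.card ι = n + Fintype.card κ → Fintype.card κ = l

/-- The number of characters upstairs. -/
def JobG (n : ℕ) (e c : ℤ) (g : Fin n → ℤ) (l k k₀ : ℕ) : Prop :=
  ∀ (ι : Type u) (κ : Type) [Fintype ι] [Fintype κ] (w : Fin n → ι → ℤ) (d : ι → ℤ) (o : ι)
    (p q : κ → ι → ℤ), W0 e w d o → Fintype.card κ = l → Fm c 2 g w p → Fm c 2 g w q →
    PP c p q d → (∀ i, (∀ O, w O i = 0) → 3 ∣ d i ∧ ∃ j, p j i ≠ 0 ∨ q j i ≠ 0) →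
    Fintype.card ι = k ∧ Nat.card {i // ¬ 3 ∣ d i} = k₀

def g1 : Fin 8 → ℤ := ![-1, -1, -1, 0, 0, 0, 0, 0]
def g2 : Fin 4 → ℤ := ![0, 1, 1, 1]
def g4 : Fin 2 → ℤ := ![-2, -1]
def g8 : Fin 1 → ℤ := ![3]

/-- At least four vectors of norm two with mutual product one form a star. -/
def JobSt : Prop :=
  ∀ (ι : Type u) (κ : Type) [Fintype ι] [Fintype κ] (a : κ → ι → ℤ), 4 ≤ Fintype.card κ →
    (∀ j, a j ⬝ᵥ a j = 2) → (∀ j k, j ≠ k → a j ⬝ᵥ a k = 1) →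
    ∃ (y : ι → ℤ) (x : κ → ι → ℤ), y ⬝ᵥ y = 1 ∧ On x ∧ (∀ j, x j ⬝ᵥ y = 0) ∧ ∀ j, a j = x j + y

/-- At least four pairs of vectors of norm three. -/
def JobPr' : Prop :=
  ∀ (ι : Type u) (κ : Type) [Fintype ι] [Fintype κ] (p q : κ → ι → ℤ) (d : ι → ℤ), 4 ≤ Fintype.card κ →
    (∀ i, d i ≠ 0) → (∀ j, p j ⬝ᵥ p j = 3) → (∀ j, q j ⬝ᵥ q j = 3) →
    (∀ j k, j ≠ k → p j ⬝ᵥ p k = 1) → (∀ j k, j ≠ k → q j ⬝ᵥ q k = 1) → PP 1 p q d →
    ∃ (y : ι → ℤ) (u : κ ⊕ κ ⊕ κ → ι → ℤ), y ⬝ᵥ y = 1 ∧ On u ∧ (∀ j, u j ⬝ᵥ y = 0) ∧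
      ∀ j, p j = u (.inl j) + y + u (.inr (.inl j)) ∧ q j = u (.inl j) + y + u (.inr (.inr j))

def JobPr : Prop := JobSt.{u} → JobPr'.{u}

/-- Normalisation modulo the columns `w`. -/
def JobN : Prop :=
  ∀ (ι : Type u) [Fintype ι] (n : ℕ) (e : ℤ) (w : Fin n → ι → ℤ) (g : Fin n → ℤ) (a : ι → ℤ),
    n * e = 8 → (∀ O, w O ⬝ᵥ w O = e + 1) → (∀ O O', O ≠ O' → w O ⬝ᵥ w O' = e) →
    (∀ i, ∃ O, w O i ≠ 0) → 3 ∣ ∑ O, g O → ¬ 9 ∣ ∑ O, g O →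
    9 * (a ⬝ᵥ a) - 9 * ∑ O, (a ⬝ᵥ w O) ^ 2 + e * (∑ O, a ⬝ᵥ w O) ^ 2 = 9 →
    ∃ (ε : ℤ) (s : Fin n → ℤ), (ε = 1 ∨ ε = -1) ∧ ∀ O, (ε • a + ∑ O', s O' • w O') ⬝ᵥ w O = g O

def JobE1 : Prop := JobL.{u} 8 1 2 g1 1 ∧ JobG.{u} 8 1 2 g1 1 11 9
def JobE2 : Prop := JobSt.{u} → JobL.{u} 4 2 1 g2 2 ∧ JobG.{u} 4 2 1 g2 2 10 6
def JobL4 : Prop := JobL.{u} 2 4 1 g4 4
def JobG4 : Prop := JobPr'.{u} → JobG.{u} 2 4 1 g4 4 14 6
def JobL8 : Prop := JobSt.{u} → JobL.{u} 1 8 1 g8 5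
def JobG8 : Prop := JobPr'.{u} → JobG.{u} 1 8 1 g8 5 16 6

section kit
variable {ι κ κ' : Type*} [Fintype ι] {a b u v y d : ι → ℤ}

theorem dnn (v : ι → ℤ) : 0 ≤ v ⬝ᵥ v := sum_nonneg fun i _ => mul_self_nonneg (v i)

theorem dz (h : v ⬝ᵥ v = 0) : v = 0 := dotProduct_self_eq_zero.1 h

theorem sq_le (v : ι → ℤ) (i : ι) : v i * v i ≤ v ⬝ᵥ v :=
  single_le_sum (fun j _ => mul_self_nonneg (v j)) (mem_univ i)

/-- The unit vector of a coordinate. -/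
noncomputable def ee (i : ι) : ι → ℤ := by classical exact Pi.single i 1

theorem dot_ee (v : ι → ℤ) (i : ι) : v ⬝ᵥ ee i = v i := by
  classical
  unfold ee
  convert dotProduct_single_one v i

theorem ee_dot (v : ι → ℤ) (i : ι) : ee i ⬝ᵥ v = v i := by rw [dotProduct_comm, dot_ee]

theorem ee_self (i : ι) : ee i ⬝ᵥ ee i = 1 := by simp [ee]

theorem exists_unit (h : v ≠ 0) : ∃ u : ι → ℤ, u ⬝ᵥ u = 1 ∧ 0 < v ⬝ᵥ u := by
  obtain ⟨i, hi⟩ := Function.ne_iff.1 h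
  rcases lt_or_gt_of_ne (show v i ≠ 0 from hi) with h | h
  · exact ⟨-ee i, by simp [ee_self], by simpa [dot_ee] using h⟩
  · exact ⟨ee i, ee_self i, by rwa [dot_ee]⟩

/-- Removing the component along a unit vector. -/
theorem rest1 (hu : u ⬝ᵥ u = 1) (v : ι → ℤ) : ∃ r : ι → ℤ, v = (v ⬝ᵥ u) • u + r ∧ r ⬝ᵥ u = 0 ∧
    r ⬝ᵥ r = v ⬝ᵥ v - (v ⬝ᵥ u) ^ 2 := by
  refine ⟨v - (v ⬝ᵥ u) • u, by abel,
    by rw [sub_dotProduct, smul_dotProduct, hu, smul_eq_mul, mul_one, sub_self], ?_⟩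
  simp only [sub_dotProduct, dotProduct_sub, smul_dotProduct, dotProduct_smul, hu, smul_eq_mul,
    dotProduct_comm u v]
  ring

theorem sq_le' (hu : u ⬝ᵥ u = 1) (v : ι → ℤ) : (v ⬝ᵥ u) ^ 2 ≤ v ⬝ᵥ v := by
  obtain ⟨r, -, -, h⟩ := rest1 hu v
  linarith [dnn r]

theorem unit_cases (hu : u ⬝ᵥ u = 1) (hv : v ⬝ᵥ v = 1) : u ⬝ᵥ v = 0 ∨ v = u ∨ v = -u := by
  obtain ⟨r, h1, -, h2⟩ := rest1 hu v
  have h3 := dnn r
  rw [dotProduct_comm]
  have : v ⬝ᵥ u = 0 ∨ v ⬝ᵥ u = 1 ∨ v ⬝ᵥ u = -1 := by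
    have : v ⬝ᵥ u ≤ 1 := by nlinarith
    have : -1 ≤ v ⬝ᵥ u := by nlinarith
    omega
  rcases this with h | h | h
  · exact .inl h
  all_goals
    rw [h, hv] at h2
    rw [h, dz (v := r) (by rw [h2]; norm_num)] at h1
    simp [h1]

theorem unit_eq (hu : u ⬝ᵥ u = 1) : ∃ i, u = ee i ∨ u = -ee i := by
  obtain ⟨i, hi⟩ := Function.ne_iff.1 (show u ≠ 0 by rintro rfl; simp at hu)
  exact ⟨i, (unit_cases (ee_self i) hu).resolve_left (by rwa [ee_dot])⟩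

theorem unit_dot_ne (hu : u ⬝ᵥ u = 1) (hd : ∀ i, d i ≠ 0) : u ⬝ᵥ d ≠ 0 := by
  obtain ⟨i, rfl | rfl⟩ := unit_eq hu <;> simp [ee_dot, hd]

/-- A property of the coordinates off the support passes to unit vectors. -/
theorem dvd_of_off {w : κ → ι → ℤ} (hu : u ⬝ᵥ u = 1) (h : ∀ i, (∀ O, w O i = 0) → 3 ∣ d i)
    (h0 : ∀ O, w O ⬝ᵥ u = 0) : 3 ∣ u ⬝ᵥ d := by
  obtain ⟨i, rfl | rfl⟩ := unit_eq hu
  · simpa [ee_dot] using h i fun O => by simpa [dot_ee] using h0 O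
  · simpa [ee_dot] using h i fun O => by simpa [dot_ee] using h0 O

theorem split2 (h : v ⬝ᵥ v = 2) :
    ∃ a b : ι → ℤ, a ⬝ᵥ a = 1 ∧ b ⬝ᵥ b = 1 ∧ b ⬝ᵥ a = 0 ∧ v = a + b := by
  obtain ⟨a, ha, h1⟩ := exists_unit (v := v) (by rintro rfl; simp at h)
  obtain ⟨r, h2, h3, h4⟩ := rest1 ha v
  have h5 : v ⬝ᵥ a = 1 := by nlinarith [dnn r]
  rw [h5, h] at h4
  exact ⟨a, r, ha, by rw [h4]; norm_num, h3, by rwa [h5, one_smul] at h2⟩

theorem split3 (h : v ⬝ᵥ v = 3) : ∃ a b c : ι → ℤ, a ⬝ᵥ a = 1 ∧ b ⬝ᵥ b = 1 ∧ c ⬝ᵥ c = 1 ∧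
    b ⬝ᵥ a = 0 ∧ c ⬝ᵥ a = 0 ∧ c ⬝ᵥ b = 0 ∧ v = a + b + c := by
  obtain ⟨a, ha, h1⟩ := exists_unit (v := v) (by rintro rfl; simp at h)
  obtain ⟨r, h2, h3, h4⟩ := rest1 ha v
  have h5 : v ⬝ᵥ a = 1 := by nlinarith [dnn r]
  rw [h5, h] at h4
  obtain ⟨b, c, hb, hc, h6, rfl⟩ := split2 (v := r) (by rw [h4]; norm_num)
  rw [h5, one_smul] at h2
  rw [add_dotProduct] at h3
  have h7 : b ⬝ᵥ a = 0 := by
    rcases unit_cases hb ha with k | rfl | rfl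
    · exact k
    · omega
    · simp [hb, h6] at h3
  exact ⟨a, b, c, ha, hb, hc, h7, by omega, h6, by rw [h2, add_assoc]⟩

theorem On.elim {u : κ → ι → ℤ} {v : κ' → ι → ℤ} (hu : On u) (hv : On v)
    (h : ∀ i j, u i ⬝ᵥ v j = 0) : On (Sum.elim u v) :=
  ⟨fun i => by cases i; exacts [hu.1 _, hv.1 _], fun i j hij => by
    cases i <;> cases j
    exacts [hu.2 _ _ fun e => hij (e ▸ rfl), h _ _, (dotProduct_comm _ _).trans (h _ _),
      hv.2 _ _ fun e => hij (e ▸ rfl)]⟩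

theorem on_unit (hy : y ⬝ᵥ y = 1) : On fun _ : Unit => y := ⟨fun _ => hy, fun _ _ h => absurd rfl h⟩

theorem On.cons {m : ℕ} {u : Fin m → ι → ℤ} (hu : On u) (hy : y ⬝ᵥ y = 1)
    (h : ∀ i, u i ⬝ᵥ y = 0) : On (Matrix.vecCons y u) :=
  ⟨fun i => by cases i using Fin.cases; exacts [hy, hu.1 _], fun i j hij => by
    cases i using Fin.cases <;> cases j using Fin.cases
    exacts [absurd rfl hij, (dotProduct_comm _ _).trans (h _), h _,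
      hu.2 _ _ fun e => hij (congrArg Fin.succ e)]⟩

variable [Fintype κ] {x : κ → ι → ℤ}

theorem On.sum_dot (hx : On x) (s : κ → ℤ) (j : κ) : (∑ i, s i • x i) ⬝ᵥ x j = s j := by
  rw [sum_dotProduct, sum_eq_single j (fun i _ h => by rw [smul_dotProduct, hx.2 i j h, smul_zero])
    (by simp), smul_dotProduct, hx.1, smul_eq_mul, mul_one]

/-- Bessel's inequality with remainder. -/
theorem On.rest (hx : On x) (v : ι → ℤ) : ∃ r : ι → ℤ, v = ∑ i, (v ⬝ᵥ x i) • x i + r ∧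
    (∀ i, r ⬝ᵥ x i = 0) ∧ r ⬝ᵥ r = v ⬝ᵥ v - ∑ i, (v ⬝ᵥ x i) ^ 2 := by
  have h : ∀ j, (v - ∑ i, (v ⬝ᵥ x i) • x i) ⬝ᵥ x j = 0 := fun j => by
    rw [sub_dotProduct, hx.sum_dot, sub_self]
  refine ⟨v - ∑ i, (v ⬝ᵥ x i) • x i, by abel, h, ?_⟩
  generalize hr : v - ∑ i, (v ⬝ᵥ x i) • x i = r at h
  nth_rw 2 [← hr]
  rw [dotProduct_sub, dotProduct_sum, sum_eq_zero fun i _ => by rw [dotProduct_smul, h, smul_zero],
    sub_zero, ← hr, sub_dotProduct, sum_dotProduct]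
  simp only [smul_dotProduct, smul_eq_mul, dotProduct_comm (x _) v, sq]

theorem On.bessel (hx : On x) (v : ι → ℤ) : ∑ i, (v ⬝ᵥ x i) ^ 2 ≤ v ⬝ᵥ v := by
  obtain ⟨r, -, -, h⟩ := hx.rest v
  linarith [dnn r]

/-- An orthonormal family meeting every coordinate is a signed basis. -/
theorem On.count (hx : On x) (h : ∀ i, ∃ j, x j i ≠ 0) (d : ι → ℤ) :
    Fintype.card ι = Fintype.card κ ∧
      Nat.card {i // ¬ 3 ∣ d i} = Nat.card {j // ¬ 3 ∣ x j ⬝ᵥ d} := by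
  choose f hf using fun j => unit_eq (hx.1 j)
  have h1 : ∀ j v, x j ⬝ᵥ v = v (f j) ∨ x j ⬝ᵥ v = -v (f j) := fun j v => by
    rcases hf j with e | e <;> rw [e] <;> simp [ee_dot]
  have h2 : ∀ j i, x j i ≠ 0 ↔ f j = i := fun j i => by
    classical
    rcases hf j with e | e <;> rw [e] <;> simp [ee, Pi.single_apply, eq_comm]
  have hb : Function.Bijective f := ⟨fun j k e => by
    by_contra hn
    have := (h2 k _).2 e.symm
    have := hx.2 j k hn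
    rcases h1 j (x k) with k | k <;> omega, fun i => (h i).imp fun j => (h2 j i).1⟩
  refine ⟨(Fintype.card_of_bijective hb).symm, (Nat.card_congr
    ((Equiv.ofBijective f hb).subtypeEquiv fun j => ?_)).symm⟩
  rcases h1 j d with k | k <;> simp [k]

/-- An orthonormal family has at most as many members as there are coordinates. -/
theorem On.card_le (hx : On x) : Fintype.card κ ≤ Fintype.card ι := by
  choose f hf using fun j => unit_eq (hx.1 j)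
  refine Fintype.card_le_of_injective f fun j k e => ?_
  by_contra hn
  have := hx.2 j k hn
  rcases hf j with h | h <;> rcases hf k with h' | h' <;> rw [h, h', e] at this <;>
    simp [ee_self] at this

/-- Nothing is orthogonal to a full orthonormal family. -/
theorem On.eq_zero (hx : On x) (hc : Fintype.card ι ≤ Fintype.card κ) (h : ∀ j, v ⬝ᵥ x j = 0) :
    v = 0 := by
  by_contra h0
  obtain ⟨u, hu, h1⟩ := exists_unit h0
  have := (hx.elim (on_unit hu) fun j _ => by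
    rcases unit_cases (hx.1 j) hu with k | rfl | rfl
    exacts [k, absurd (h j) h1.ne', by simp [h j] at h1]).card_le
  simp at this
  omega

/-- A unit vector whose product with at least two orthonormal vectors is constant. -/
theorem On.const (hx : On x) (hc : 2 ≤ Fintype.card κ) (hu : u ⬝ᵥ u = 1) {t : ℤ}
    (h : ∀ j, u ⬝ᵥ x j = t) : t = 0 := by
  have h1 := hx.bessel u
  simp only [h, sum_const, card_univ, hu, nsmul_eq_mul] at h1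
  have : (2 : ℤ) ≤ Fintype.card κ := by exact_mod_cast hc
  by_contra h0
  nlinarith [sq_pos_of_ne_zero h0]

theorem exists_odd (h : ¬ 4 ∣ v ⬝ᵥ v) : ∃ i, Odd (v i) := by
  by_contra! hn
  refine h (dvd_sum fun i _ => ?_)
  obtain ⟨k, hk⟩ := Int.not_odd_iff_even.1 (hn i)
  exact ⟨k * k, by rw [hk]; ring⟩

/-- Splitting off a coordinate `± 1`. -/
theorem peel (h : v ⬝ᵥ v ≤ 8) (ho : ∃ i, Odd (v i)) :
    ∃ u r : ι → ℤ, u ⬝ᵥ u = 1 ∧ r ⬝ᵥ u = 0 ∧ v = u + r ∧ r ⬝ᵥ r = v ⬝ᵥ v - 1 := by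
  obtain ⟨i, k, hk⟩ := ho
  obtain ⟨r, h1, h2, h3⟩ := rest1 (ee_self i) v
  rw [dot_ee] at h1 h3
  have h4 := sq_le v i
  have : v i = 1 ∨ v i = -1 := by
    have : v i < 3 := by nlinarith
    have : -3 < v i := by nlinarith
    omega
  rcases this with k | k <;> rw [k] at h1 h3
  · exact ⟨ee i, r, ee_self i, h2, by simpa using h1, by simpa using h3⟩
  · exact ⟨-ee i, r, by simp [ee_self], by simp [h2], by simpa using h1, by simpa using h3⟩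

/-- A unit vector with non-zero product with `v` is orthogonal to the unit vectors that are
orthogonal to `v`. -/
theorem orth_of (hu : u ⬝ᵥ u = 1) (ha : a ⬝ᵥ a = 1) (h : v ⬝ᵥ u ≠ 0) (h' : v ⬝ᵥ a = 0) :
    a ⬝ᵥ u = 0 := by
  rcases unit_cases ha hu with k | rfl | rfl
  exacts [k, absurd h' h, by simp [h'] at h]

end kit

end H34.X3
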