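/- The principal `3`-block with extraspecial defect group of order `27`: definitions, the list of
steps and a small kit (blueprint `X3.md`). -/
import Cfsg.Agent.H34.X3Lat
import Cfsg.Agent.H34.CenCol
import Cfsg.Agent.H36.FrobPrin
import Cfsg.Agent.H41.CenQuot
import Cfsg.Agent.H87.PairA
import Cfsg.Agent.H19.Loc2B
import Cfsg.Agent.H29.Cover1
import Cfsg.Agent.H29.GalChar

namespace H34.X3

open Subgroup Cfsg H28 H35 H36 H41 Module
open scoped ComplexConjugate

universe u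

section defs
variable {G H Q : Type*} [Group G] [Group H] [Group Q]

/-- `P` is extraspecial of order `27` and exponent `3` with centre `⟨z⟩` centralised by `N(P)`. -/
structure X (P : Sylow 3 G) (z : G) : Prop where
  card : Nat.card (P : Subgroup G) = 27
  exp : ∀ x ∈ (P : Subgroup G), x ^ 3 = 1
  mem : z ∈ (P : Subgroup G)
  ne : z ≠ 1
  cen : ∀ x ∈ (P : Subgroup G), x ∈ zpowers z ↔ ∀ y ∈ (P : Subgroup G), x * y = y * x
  com : ∀ a ∈ (P : Subgroup G), ∀ b ∈ (P : Subgroup G), a * b * a⁻¹ * b⁻¹ ∈ zpowers z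
  nc : ∀ g ∈ normalizer ((P : Subgroup G) : Set G), g * z = z * g

/-- `z` is weakly closed in `P`. -/
def WC (P : Sylow 3 G) (z : G) : Prop := ∀ g, g * z * g⁻¹ ∈ (P : Subgroup G) → g * z = z * g

/-- `C(z)` controls fusion in `P`, and the other centralisers are `3`-nilpotent. -/
structure Y (P : Sylow 3 G) (z : G) : Prop where
  fus : ∀ x ∈ (P : Subgroup G), ∀ y ∈ (P : Subgroup G), IsConj x y →
    ∃ c, c * z = z * c ∧ c * x * c⁻¹ = y
  npc : ∀ u ∈ (P : Subgroup G), u ∉ zpowers z → HasNormalPComplement 3 (centralizer {u}) ∧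
    (Nat.card (centralizer {u})).factorization 3 = 2

/-- A central extension with kernel `⟨z⟩` of order three. -/
structure CE (π : H →* Q) (z : H) : Prop where
  surj : Function.Surjective π
  ker : π.ker = zpowers z
  cen : z ∈ center H
  ord : orderOf z = 3

/-- The inertial index. -/
noncomputable def ei (P : Sylow 3 G) : ℕ :=
  ((P : Subgroup G) ⊔ centralizer ((P : Subgroup G) : Set G)).relIndex
    (normalizer ((P : Subgroup G) : Set G))

/-- `z` as an element of its centraliser. -/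
def zc (z : G) : centralizer ({z} : Set G) := ⟨z, mem_centralizer_singleton_iff.2 rfl⟩

/-- The functions in the span of `B` that vanish on the `p`-regular elements. -/
noncomputable def Vb (p : ℕ) [Fintype G] (B : Set (IrrCharacter G)) : Submodule ℂ (G → ℂ) :=
  spanB B ⊓ LinearMap.ker (pRegL p G)

/-- The block kernels of `B` and `b` agree on singular elements. -/
structure KS (p : ℕ) (C : Subgroup G) (B : Set (IrrCharacter G)) (b : Set (IrrCharacter C)) :
    Prop where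
  ker : ∀ x y : C, p ∣ orderOf y → bker B (x : G) y = bker b x y
  sec : ∀ y : G, p ∣ orderOf y → ∃ y' : C, p ∣ orderOf y' ∧ ∀ χ ∈ B, χ.1 y = χ.1 y'

/-- The columns of the quotient group. -/
structure QD [Fintype Q] (M : Ideal AlgInt) (e : ℕ) {n : ℕ} (w : Fin n → Q → ℂ) : Prop where
  ne : n * e = 8
  gen : ∀ O, IsGeneralizedCharacter Q (w O)
  vb : ∀ O, w O ∈ Vb 3 (principalBlock M Q)
  self : ∀ O, classInner (w O) (w O) = e + 1
  gram : ∀ O O', O ≠ O' → classInner (w O) (w O') = e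
  one : ∀ O, classInner (w O) (fun _ => 1) = -1
  span : ∀ f ∈ Vb 3 (principalBlock M Q), ∃ s : Fin n → ℂ, f = ∑ O, s O • w O
  supp : ∀ χ ∈ principalBlock M Q, ∃ O, classInner (w O) χ.1 ≠ 0

/-- `f` is an eigenfunction of the translation by `z`. -/
def Ev (z : H) (ζ : ℂ) (f : H → ℂ) : Prop := ∀ x, f (z * x) = ζ * f x

/-- The characters of the principal block on which `z` acts by `ζ`. -/
def Iz (M : Ideal AlgInt) (z : H) (ζ : ℂ) : Set (IrrCharacter H) :=
  {ψ | ψ ∈ principalBlock M H ∧ Ev z ζ ψ.1}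

/-- Off the preimage of the regular elements the principal block does not see `z`. -/
def HV (M : Ideal AlgInt) (π : H →* Q) (z : H) : Prop :=
  ∀ x, 3 ∣ orderOf (π x) → ∀ ψ ∈ principalBlock M H, ψ.1 (z * x) = ψ.1 x

end defs

def JobF0 : Prop :=
  (∀ (G : Type u) [Group G] [Finite G] (P : Sylow 3 G), IsExtraspecial 3 (P : Subgroup G) →
    Nat.card (P : Subgroup G) = 27 → (∀ x ∈ (P : Subgroup G), x ^ 3 = 1) →
    (∀ g ∈ normalizer ((P : Subgroup G) : Set G), ∀ z ∈ (P : Subgroup G),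
      (∀ y ∈ (P : Subgroup G), z * y = y * z) → g * z = z * g) → ∃ z, X P z) ∧
  ∀ (G : Type u) [Group G] [Finite G] (P : Sylow 3 G) (z : G), X P z →
    ∀ h : (P : Subgroup G) ≤ centralizer {z}, X (P.subtype h) (zc z) ∧ ei (P.subtype h) = ei P

def JobF1 : Prop :=
  ∀ (G : Type u) [Group G] [Finite G] (P : Sylow 3 G) (z : G), X P z → WC P z

def JobF2 : Prop :=
  ∀ (G : Type u) [Group G] [Finite G] (P : Sylow 3 G) (z : G), X P z → WC P z → Y P z

def JobF3 : Prop :=
  ∀ (H Q : Type u) [Group H] [Finite H] [Group Q] (P : Sylow 3 H) (z : H) (π : H →* Q)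
    (h : CE π z), X P z → FreeAb (P.mapSurjective h.surj) ∧
      Nat.card (P.mapSurjective h.surj : Subgroup Q) = 9

def JobF4 : Prop :=
  ∀ (H Q : Type u) [Group H] [Finite H] [Group Q] (P : Sylow 3 H) (z : H) (π : H →* Q)
    (h : CE π z), X P z →
      Nat.card (P.mapSurjective h.surj : Subgroup Q).normalizerMonoidHom.range = ei P

def JobB : Prop :=
  ∀ (G : Type u) [Group G] [Finite G] (P : Sylow 3 G) (z : G) (M : Ideal AlgInt) [M.IsMaximal]
    (h : (P : Subgroup G) ≤ centralizer {z}), IsPModular 3 M → X P z → Y P z →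
    Y (P.subtype h) (zc z) →
      KS 3 (centralizer {z}) (principalBlock M G) (principalBlock M (centralizer {z}))

def JobV : Prop :=
  ∀ (H Q : Type u) [Group H] [Finite H] [Group Q] (P : Sylow 3 H) (z : H) (π : H →* Q)
    (M : Ideal AlgInt) [M.IsMaximal], IsPModular 3 M → CE π z → X P z → Y P z → HV M π z

def JobQ : Prop :=
  ∀ (Q : Type u) [Group Q] [Fintype Q] (A : Sylow 3 Q) (M : Ideal AlgInt) [M.IsMaximal],
    IsPModular 3 M → FreeAb A → Nat.card (A : Subgroup Q) = 9 → ∃ (n : ℕ) (w : Fin n → Q → ℂ),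
      QD M (Nat.card (A : Subgroup Q).normalizerMonoidHom.range) w

def JobCa : Prop :=
  ∀ (H Q : Type u) [Group H] [Fintype H] [Group Q] [Fintype Q] (z : H) (π : H →* Q)
    (M : Ideal AlgInt) [M.IsMaximal] (e n : ℕ) (w : Fin n → Q → ℂ) (ψ : H → ℂ), IsPModular 3 M →
    CE π z → QD M e w → IsGeneralizedCharacter H ψ → InB (principalBlock M H) ψ →
    ∃ A : Q → ℂ, IsGeneralizedCharacter Q A ∧ InB (principalBlock M Q) A ∧
      ∀ y, ¬ 3 ∣ orderOf y → ψ y = A (π y)

def JobCb : Prop :=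
  (∀ (H Q : Type u) [Group H] [Fintype H] [Group Q] [Fintype Q] (z : H) (π : H →* Q) (ζ : ℂ)
    (ψ ψ' : H → ℂ) (A A' : Q → ℂ), CE π z → ζ * conj ζ = 1 → Ev z ζ ψ → Ev z ζ ψ' →
    (∀ x, 3 ∣ orderOf (π x) → ψ x = 0) → (∀ y, ¬ 3 ∣ orderOf y → ψ y = A (π y)) →
    (∀ y, ¬ 3 ∣ orderOf y → ψ' y = A' (π y)) →
    classInner ψ ψ' = classInner (pRegularPart 3 A) A') ∧
  ∀ (Q : Type u) [Group Q] [Fintype Q] (M : Ideal AlgInt) [M.IsMaximal] (e n : ℕ)
    (w : Fin n → Q → ℂ) (A A' : Q → ℂ), IsPModular 3 M → QD M e w → InB (principalBlock M Q) A →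
    9 * classInner (pRegularPart 3 A) A' = 9 * classInner A A' -
      9 * ∑ O, classInner A (w O) * classInner (w O) A' +
      e * ((∑ O, classInner A (w O)) * ∑ O, classInner (w O) A')

def JobCc : Prop :=
  ∀ (H Q : Type u) [Group H] [Fintype H] [Group Q] (z : H) (π : H →* Q) (M : Ideal AlgInt)
    [M.IsMaximal] (ω : ℂ), IsPModular 3 M → CE π z → HV M π z → ω ^ 2 + ω + 1 = 0 →
    blockRank 3 (principalBlock M H) = Nat.card (Iz M z ω)

def JobCd : Prop :=
  ∀ (H Q : Type u) [Group H] [Fintype H] [Group Q] [Fintype Q] (z : H) (π : H →* Q)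
    (M : Ideal AlgInt) [M.IsMaximal] (ω : ℂ), IsPModular 3 M → CE π z → ω ^ 2 + ω + 1 = 0 →
    (∃ σ : Iz M z ω ≃ Iz M z (ω ^ 2), ∀ j y, ¬ 3 ∣ orderOf y → (σ j).1.1 y = j.1.1 y) ∧
    Nat.card (principalBlock M H) =
      Nat.card (principalBlock M Q) + Nat.card (Iz M z ω) + Nat.card (Iz M z (ω ^ 2))

section kit
variable {G H Q : Type*} [Group G] [Group H] [Group Q] {P : Sylow 3 G} {z u x : G}

theorem mem_zp (h : z ^ 3 = 1) : x ∈ zpowers z ↔ x = 1 ∨ x = z ∨ x = z * z := by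
  refine ⟨fun ⟨k, hk⟩ => ?_, by rintro (rfl | rfl | rfl) <;> simp [mul_mem]⟩
  have h1 : x = z ^ (k % 3) := by
    rw [← hk]
    exact zpow_eq_zpow_emod' k h
  have : k % 3 = 0 ∨ k % 3 = 1 ∨ k % 3 = 2 := by omega
  rcases this with e | e | e <;> rw [e] at h1 <;> simp [h1, zpow_ofNat, sq]

theorem X.cube (h : X P z) : z ^ 3 = 1 := h.exp z h.mem

theorem X.ord (h : X P z) (hu : u ∈ (P : Subgroup G)) (h1 : u ≠ 1) : orderOf u = 3 :=
  orderOf_eq_prime (h.exp u hu) h1

theorem X.comm (h : X P z) (hx : x ∈ (P : Subgroup G)) : z * x = x * z :=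
  (h.cen z h.mem).1 (mem_zpowers z) x hx

theorem X.le (h : X P z) : (P : Subgroup G) ≤ centralizer {z} := fun _ hx =>
  mem_centralizer_singleton_iff.2 (h.comm hx).symm

/-- A non-central element is conjugate in `P` to its product with `z`. -/
theorem X.shift (h : X P z) (hu : u ∈ (P : Subgroup G)) (hn : u ∉ zpowers z) :
    ∃ a ∈ (P : Subgroup G), a * u * a⁻¹ = z * u := by
  obtain ⟨a, ha, h1⟩ : ∃ a ∈ (P : Subgroup G), u * a ≠ a * u := by
    simpa using mt (h.cen u hu).2 hn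
  rcases (mem_zp h.cube).1 (h.com a ha u hu) with k | k | k
  · exact absurd (by rw [mul_inv_eq_one, mul_inv_eq_iff_eq_mul] at k; exact k.symm) h1
  · exact ⟨a, ha, by rw [← k]; group⟩
  · refine ⟨a * a, mul_mem ha ha, ?_⟩
    have k1 : a * u * a⁻¹ = z * z * u := by rw [← k]; group
    have k2 : a * z * a⁻¹ = z := by rw [← h.comm ha]; group
    calc a * a * u * (a * a)⁻¹ = a * (a * u * a⁻¹) * a⁻¹ := by group
      _ = (a * z * a⁻¹) * (a * z * a⁻¹) * (a * u * a⁻¹) := by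
        nth_rw 1 [k1]; simp only [mul_assoc, inv_mul_cancel_left]
      _ = z ^ 3 * (z * u) := by rw [k1, k2]; simp only [pow_succ, pow_zero, one_mul, mul_assoc]
      _ = z * u := by rw [h.cube, one_mul]

variable {π : H →* Q} {t y : H}

theorem CE.cube (h : CE π t) : t ^ 3 = 1 := h.ord ▸ pow_orderOf_eq_one t

theorem CE.comm (h : CE π t) (y : H) : t * y = y * t := (mem_center_iff.1 h.cen y).symm

theorem CE.map (h : CE π t) : π t = 1 := by
  rw [← MonoidHom.mem_ker, h.ker]; exact mem_zpowers t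

theorem CE.card (h : CE π t) : Nat.card π.ker = 3 := by rw [h.ker, Nat.card_zpowers, h.ord]

theorem CE.pg (h : CE π t) : IsPGroup 3 π.ker := IsPGroup.of_card (n := 1) h.card

theorem CE.le (h : CE π t) : π.ker ≤ center H := h.ker ▸ zpowers_le.2 h.cen

theorem CE.pcq [Finite H] (h : CE π t) : PCQ 3 π :=
  ⟨h.surj, h.pg, fun g _ _ hu => (mem_center_iff.1 (h.le hu) g).symm⟩

theorem not_dvd_map (hy : ¬ 3 ∣ orderOf y) : ¬ 3 ∣ orderOf (π y) :=
  fun k => hy (k.trans (orderOf_map_dvd π y))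

/-- The preimage of the regular elements. -/
theorem CE.cases [Finite H] (h : CE π t) (hy : ¬ 3 ∣ orderOf (π y)) :
    ∃ r, ¬ 3 ∣ orderOf r ∧ π r = π y ∧ (y = r ∨ y = t * r ∨ y = t * (t * r)) := by
  obtain ⟨r, h1, h2⟩ := exists_pReg_lift Nat.prime_three h.surj hy
  have : y * r⁻¹ ∈ zpowers t := by rw [← h.ker]; simp [h2]
  refine ⟨r, h1, h2, ?_⟩
  simpa only [mul_inv_eq_iff_eq_mul, one_mul, mul_assoc] using (mem_zp h.cube).1 this

/-- The product of `t` or `t²` with a regular element is singular. -/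
theorem CE.sing (h : CE π t) (hy : ¬ 3 ∣ orderOf y) :
    3 ∣ orderOf (t * y) ∧ 3 ∣ orderOf (t * (t * y)) := by
  have hc : Commute t y := h.comm y
  have k : (orderOf y).Coprime 3 := ((Nat.Prime.coprime_iff_not_dvd Nat.prime_three).2 hy).symm
  have h2 : orderOf (t * t) = 3 := by
    rw [← sq, (by rw [h.ord]; norm_num : (orderOf t).Coprime 2).orderOf_pow, h.ord]
  rw [← mul_assoc, hc.orderOf_mul_eq_mul_orderOf_of_coprime (h.ord ▸ k.symm),
    (hc.mul_left hc).orderOf_mul_eq_mul_orderOf_of_coprime (h2 ▸ k.symm), h.ord, h2]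
  simp

variable {M : Ideal AlgInt} {ω ζ ξ : ℂ} {f g : H → ℂ}

theorem om_norm (h : ω ^ 2 + ω + 1 = 0) : ω ≠ 1 ∧ ω ^ 3 = 1 ∧ conj ω = ω ^ 2 := by
  have h3 : ω ^ 3 = 1 := by linear_combination (ω - 1) * h
  have h4 : ‖ω‖ = 1 := Complex.norm_eq_one_of_pow_eq_one h3 (by norm_num)
  refine ⟨by rintro rfl; norm_num at h, h3, ?_⟩
  have h5 := Complex.mul_conj' ω
  rw [h4, Complex.ofReal_one] at h5
  linear_combination ω ^ 2 * h5 - conj ω * h3

theorem HV.zero (h : HV M π t) (h1 : ζ ≠ 1) {ψ : IrrCharacter H} (hψ : ψ ∈ Iz M t ζ)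
    (hy : 3 ∣ orderOf (π y)) : ψ.1 y = 0 := by
  have := (h y hy ψ hψ.1).symm.trans (hψ.2 y)
  exact (mul_eq_zero.1 (by linear_combination -this : (ζ - 1) * ψ.1 y = 0)).resolve_left
    (sub_ne_zero.2 h1)

theorem Ev.orth [Fintype H] (hf : Ev t ζ f) (hg : Ev t ξ g) (h : ζ * conj ξ ≠ 1) :
    classInner f g = 0 := by
  have : classInner f g = ζ * conj ξ * classInner f g := by
    simp only [classInner_def]
    nth_rw 1 [← Equiv.sum_comp (Equiv.mulLeft t)]
    rw [mul_left_comm, Finset.mul_sum (a := ζ * conj ξ)]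
    congr 1
    refine Finset.sum_congr rfl fun x _ => ?_
    rw [Equiv.coe_mulLeft, hf, hg, map_mul]
    ring
  exact (mul_eq_zero.1 (by linear_combination -this : (ζ * conj ξ - 1) * classInner f g = 0))
    |>.resolve_left (sub_ne_zero.2 h)

/-- The three types of characters. -/
theorem CE.tri [Finite H] [Finite Q] [M.IsMaximal] (h : CE π t) (hM : IsPModular 3 M)
    (hω : ω ^ 2 + ω + 1 = 0) {ψ : IrrCharacter H} (hψ : ψ ∈ principalBlock M H) :
    (∃ χ ∈ principalBlock M Q, infl h.surj χ = ψ) ∨ ψ ∈ Iz M t ω ∨ ψ ∈ Iz M t (ω ^ 2) := by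
  obtain ⟨lam, hl⟩ := ψ.2.exists_central_hom (Z := zpowers t) (zpowers_le.2 h.cen)
  have h1 : Ev t (lam ⟨t, mem_zpowers t⟩) ψ.1 := hl ⟨t, mem_zpowers t⟩
  have h2 : ((lam ⟨t, mem_zpowers t⟩ : ℂˣ) : ℂ) ^ 3 = 1 := by
    rw [← Units.val_pow_eq_pow_val, ← map_pow,
      show (⟨t, mem_zpowers t⟩ : zpowers t) ^ 3 = 1 from Subtype.ext h.cube]
    simp
  generalize ((lam ⟨t, mem_zpowers t⟩ : ℂˣ) : ℂ) = c at h1 h2
  have h3 : (c - 1) * ((c - ω) * (c - ω ^ 2)) = 0 := by
    linear_combination h2 + (c - 1) * (ω - 1 - c) * hω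
  rcases mul_eq_zero.1 h3 with k | k
  · obtain ⟨χ, rfl⟩ := exists_infl_eq h.surj (χ := ψ) fun x hx => by
      have k1 := h1 1
      have k2 := h1 t
      rw [sub_eq_zero.1 k, one_mul] at k1 k2
      rw [mul_one] at k1
      rcases (mem_zp h.cube).1 (h.ker ▸ hx) with rfl | rfl | rfl
      exacts [one_mem _, ψ.2.mem_charKer.2 k1, ψ.2.mem_charKer.2 (k2.trans k1)]
    exact .inl ⟨χ, by rw [← h.pcq.qb_principalBlock hM]; exact hψ, rfl⟩
  · rcases mul_eq_zero.1 k with k | k <;> rw [sub_eq_zero.1 k] at h1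
    exacts [.inr (.inl ⟨hψ, h1⟩), .inr (.inr ⟨hψ, h1⟩)]

variable [Fintype G] {p : ℕ} {B : Set (IrrCharacter G)} {α : G → ℂ}

theorem mem_Vb : α ∈ Vb p B ↔ InB B α ∧ ∀ x, ¬ p ∣ orderOf x → α x = 0 := by
  refine and_congr mem_spanB ⟨fun h x hx => ?_, fun h => funext fun x => ?_⟩
  · simpa [pReg_apply, hx] using congrFun (show pRegularPart p α = 0 from h) x
  · change pRegularPart p α x = 0
    rw [pReg_apply]
    split_ifs with k
    exacts [rfl, h x k]

theorem finrank_Vb : finrank ℂ (Vb p B) + blockRank p B = Nat.card B := by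
  rw [blockRank_eq_finrank_map, ← finrank_spanB, add_comm,
    ← ((pRegL p G).domRestrict (spanB B)).finrank_range_add_finrank_ker, LinearMap.range_domRestrict,
    LinearMap.ker_domRestrict, ← Submodule.finrank_map_subtype_eq, Submodule.map_comap_subtype]
  rfl

theorem bker_fun (B : Set (IrrCharacter G)) (x : G) :
    (fun y => bker B y x) = ∑ χ ∈ bF B, conj (χ.1 x) • χ.1 := by
  funext y
  simp [bker, finsum_mem_eq_bF, mul_comm]

/-- The block kernel at a singular element. -/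
theorem bker_mem [M.IsMaximal] (hM : IsPModular p M) (hB : IsPBlock M B) (hx : p ∣ orderOf x) :
    (fun y => bker B y x) ∈ Vb p B := by
  obtain ⟨v, hv⟩ := exists_isPPart hM.1 x
  refine mem_Vb.2 ⟨bker_fun B x ▸ inB_sum_bF _, fun y hy => bker_eq_zero_of_coeff_mem hM
    (intC_fC hB) (isPPart_one_of_not_dvd hy) hv fun k => ?_⟩
  exact not_dvd_of_isPPart_one (isConj_one_right.1 k ▸ hv) hx

end kit

end H34.X3
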