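/- A character triple whose quotient has a nontrivial cyclic Sylow subgroup of odd order has at
least three irreducible characters. -/
import Cfsg.Agent.H32.McC
import Cfsg.Agent.H32.LinExt
import Cfsg.Agent.H38.CoverB
import Cfsg.Agent.S4607

set_option autoImplicit false

namespace H34.K3

open Cfsg H28 H32 H38 Subgroup

variable {G Q : Type*} [Group G] [Finite G] [Group Q] {r : ℕ}

theorem three_le_of_coprime {Z : Subgroup G} [Fintype Z] (hZ : Z ≤ center G) (hr : r.Prime)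
    (h2 : r ≠ 2) (hrZ : ¬ r ∣ Nat.card Z) (hrG : r ∣ Nat.card G) {ψ : Z → ℂ}
    (hψ : IsIrrCharacter Z ψ) :
    3 ≤ Nat.card {χ : IrrCharacter G // classInner (fun n : Z => χ.1 n) ψ ≠ 0} := by
  have := Fact.mk hr
  have := Fintype.ofFinite G
  have := normal_of_le_center hZ
  obtain ⟨M, hM⟩ := H35.exists_isPModular r hr
  have := hM.2.1
  obtain ⟨g, hg⟩ := exists_prime_orderOf_dvd_card' r hrG
  obtain ⟨χ, hχ, h1, h3⟩ := exists_over_apply_ne_zero hZ hψ (g := g) fun x hx => by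
    have h4 : x⁻¹ * g⁻¹ * x = x⁻¹ * g⁻¹ * x * g * g⁻¹ := by group
    have h5 : (x⁻¹ * g⁻¹ * x) ^ r = 1 := by
      simpa [← hg] using conj_pow (a := x⁻¹) (b := g⁻¹) (i := r)
    rw [h4, (show Commute _ _ from (mem_center_iff.1 (hZ hx) g⁻¹).symm).mul_pow, inv_pow, ← hg,
      pow_orderOf_eq_one, inv_one, mul_one, hg] at h5
    have h6 := orderOf_eq_one_iff.1 (Nat.eq_one_of_dvd_coprimes (hr.coprime_iff_not_dvd.2 hrZ)
      (orderOf_dvd_of_pow_eq_one h5) (Z.orderOf_dvd_natCard hx))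
    calc x * g = g * x * (x⁻¹ * g⁻¹ * x * g) := by group
      _ = g * x := by rw [h6, mul_one]
  have hB : IsPBlock M (blockOf M χ) := ⟨⟨χ, hχ⟩, rfl⟩
  have h4 : (⟨χ, hχ⟩ : IrrCharacter G) ∈ blockOf M χ := H34.self_mem_blockOf ⟨χ, hχ⟩
  have h5 : blockOf M χ ⊆ (NEmb.ofNormal Z).above {⟨ψ, hψ⟩} :=
    (NEmb.covers_iff_subset hB (bcl_of_not_dvd hM hrZ _)).1 ⟨_, h4, _, rfl, h1⟩
  obtain ⟨D, hD⟩ := H34.exists_isDefectGroup r hB
  have h6 : Nat.card (blockOf M χ) ≠ 2 := fun h => by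
    have h7 := (Cfsg.Agent.S4607.result r M hM _ hB D hD).1 h
    rw [H35.card_defectGroup hM hB hD] at h7
    exact h2 (Nat.Prime.pow_eq_iff Nat.prime_two |>.1 h7).1
  have h7 : Nat.card (blockOf M χ) ≠ 1 := fun h => by
    have h8 := H35.block_eq_singleton_of_defect_zero hM hB
      ((H35.defect_zero_iff_card_eq_one hM hB).2 h) h4
    exact h3 (H35.vanish_of_block_eq_singleton hM (h8 ▸ hB) g (hg ▸ dvd_rfl))
  have : Nonempty (blockOf M χ) := ⟨⟨_, h4⟩⟩
  have h8 : 0 < Nat.card (blockOf M χ) := Nat.card_pos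
  refine le_trans (by omega) (Nat.card_le_card_of_injective
    (fun x : blockOf M χ => (⟨x.1, by obtain ⟨_, rfl, h⟩ := h5 x.2; exact h⟩ :
      {χ : IrrCharacter G // classInner (fun n : Z => χ.1 n) ψ ≠ 0}))
    fun x y h => Subtype.ext (Subtype.mk.inj h))

theorem three_le_central {ρ : G →* Q} (hρ : Function.Surjective ρ) (hc : ρ.ker ≤ center G)
    (lam : ρ.ker →* ℂˣ) [hr : Fact r.Prime] (h2 : r ≠ 2) (R : Sylow r Q) [IsCyclic R]
    (hR : r ∣ Nat.card Q) :
    3 ≤ Nat.card {β : IrrCharacter G // ∀ z : ρ.ker, β.1 z = β.1 1 * lam z} := by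
  have := Finite.of_surjective ρ hρ
  let H := (R : Subgroup Q).comap ρ
  have hH : ρ.ker ≤ H := ker_le_comap _ _
  have h1 : IsMulCommutative H := (ρ.subgroupComap R).isMulCommutative_of_isCyclic_of_ker_le_center
    fun x hx => mem_center_iff.2 fun y => Subtype.ext
      (mem_center_iff.1 (hc (congrArg Subtype.val hx)) y)
  obtain ⟨ν, hν⟩ := exists_hom_ext_of_commutator (ρ.ker.subgroupOf H)
    (lam.comp (subgroupOfEquivOfLe hH).toMonoidHom) fun m hm => by
      have : commutator H = ⊥ := (commutator_eq_bot_iff_center_eq_top H).2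
        (eq_top_iff.2 fun x _ => mem_center_iff.2 fun y => h1.1.1 y x)
      rw [show m = 1 from Subtype.ext (this.le hm), map_one]
  obtain ⟨μ, hμ⟩ := exists_hom_pow_index ρ.ker lam (fun g m => congrArg lam (Subtype.ext (by
    simp [mem_center_iff.1 (hc m.2) g]))) H hH ν fun m => hν ⟨⟨m, hH m.2⟩, m.2⟩
  obtain ⟨a, n, hn, hZ⟩ := Nat.exists_eq_pow_mul_and_not_dvd (Nat.card_pos (α := ρ.ker)).ne' r
    hr.out.ne_one
  have h3 : H.index.Coprime (r ^ a) := ((hr.out.coprime_iff_not_dvd.2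
    (index_comap_of_surjective _ hρ ▸ R.not_dvd_index)).symm.pow_right a)
  obtain ⟨t, ht⟩ : ∃ t, H.index * t ≡ 1 [MOD r ^ a] := ⟨H.index ^ ((r ^ a).totient - 1), by
    rw [← pow_succ', Nat.sub_add_cancel (Nat.totient_pos.2 (pow_pos hr.out.pos a))]
    exact Nat.ModEq.pow_totient h3⟩
  let l : ρ.ker →* ℂˣ := lam * ((μ ^ t).comp ρ.ker.subtype)⁻¹
  have hl : ∀ z, l z * (μ ^ t) z = lam z := fun z => inv_mul_cancel_right _ _
  have h4 : ∀ z, l z ^ n = 1 := fun z => by
    have h5 := congrArg (· ^ n) (hl z)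
    simp only [mul_pow, MonoidHom.pow_apply, hμ, ← pow_mul] at h5
    rw [← pow_one (lam z), ← pow_mul, ← pow_mul, one_mul, pow_eq_pow_iff_modEq.2
      ((ht.mul_right' n).of_dvd ((orderOf_map_dvd lam z).trans (hZ ▸ orderOf_dvd_natCard z)))]
      at h5
    exact mul_eq_right.1 h5
  let K := l.ker.map ρ.ker.subtype
  have := normal_of_le_center ((map_subtype_le l.ker).trans hc)
  let π := QuotientGroup.mk' K
  have hπ := QuotientGroup.mk'_surjective K
  let j := π.subgroupMap ρ.ker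
  have hj := π.subgroupMap_surjective ρ.ker
  have hjl : j.ker = l.ker := Subgroup.ext fun z => by
    rw [MonoidHom.mem_ker, ← Subtype.coe_inj, ← mem_map_iff_mem ρ.ker.subtype_injective]
    exact QuotientGroup.eq_one_iff _
  let l' := j.liftOfRightInverse _ (Function.rightInverse_surjInv hj) ⟨l, hjl.le⟩
  have hl' : ∀ z, l' (j z) = l z := fun z => MonoidHom.liftOfRightInverse_comp_apply _ _ _ _ z
  have := Fintype.ofFinite (ρ.ker.map π)
  have hc' : ρ.ker.map π ≤ center _ := by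
    rintro _ ⟨z, hz, rfl⟩
    refine mem_center_iff.2 fun x => ?_
    obtain ⟨x, rfl⟩ := hπ x
    rw [← map_mul, ← map_mul, mem_center_iff.1 (hc hz) x]
  have h5 := isIrrCharacter_of_hom l'
  refine (three_le_of_coprime hc' hr.out h2 (fun h => ?_) (hR.trans ?_) h5).trans ?_
  · obtain ⟨x, hx⟩ := exists_prime_orderOf_dvd_card' r h
    obtain ⟨z, rfl⟩ := hj x
    refine hn (hx ▸ orderOf_dvd_of_pow_eq_one ?_)
    rw [← map_pow, ← MonoidHom.mem_ker, hjl, MonoidHom.mem_ker, map_pow, h4]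
  · exact card_dvd_of_surjective (QuotientGroup.lift K ρ (map_subtype_le _))
      (QuotientGroup.lift_surjective_of_surjective _ _ hρ _)
  · refine Nat.card_le_card_of_injective (fun β => ⟨⟨_, (β.1.2.comp_surjective π hπ).mul_linear
      (isCharacter_of_hom (μ ^ t)) (by simp)⟩, fun z => ?_⟩) fun β γ h => ?_
    · have h6 := (res_eq_of_le_center hc' h5 β.1.2 β.2).2 (j z)
      rw [hl'] at h6
      change β.1.1 (j z) * ((μ ^ t) z : ℂ) = β.1.1 (π 1) * ((μ ^ t) 1 : ℂ) * _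
      rw [h6, ← hl, map_one π, map_one, Units.val_one, mul_one, Units.val_mul, mul_assoc]
    · refine Subtype.ext (Subtype.ext (funext fun x => ?_))
      obtain ⟨x, rfl⟩ := hπ x
      exact mul_right_cancel₀ (Units.ne_zero _) (congrFun (congrArg (·.1.1) h) x)

theorem three_le_over (f : G →* Q) (hf : Function.Surjective f) {N : Subgroup G} [N.Normal]
    [Fintype N] (hN : f.ker = N) {θ : N → ℂ} (hθ : IsIrrCharacter N θ) (hinv : inertia θ = ⊤)
    [Fact r.Prime] (h2 : r ≠ 2) (R : Sylow r Q) [IsCyclic R] (hR : r ∣ Nat.card Q) :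
    3 ≤ Nat.card {χ : IrrCharacter G // classInner (fun n : N => χ.1 n) θ ≠ 0} := by
  have := Fintype.ofFinite G
  obtain ⟨C⟩ := nonempty_cover hθ hinv
  have hfN : ∀ g, f g = 1 ↔ g ∈ N := fun g => by rw [← hN, MonoidHom.mem_ker]
  let ρ : C.Γ ⧸ C.ν.range →* Q := QuotientGroup.lift _ (f.comp C.π) (by
    rintro _ ⟨n, rfl⟩
    rw [MonoidHom.mem_ker, MonoidHom.comp_apply, C.π_ν, hfN]
    exact n.2)
  have hρ : Function.Surjective ρ :=
    QuotientGroup.lift_surjective_of_surjective _ (f.comp C.π) (hf.comp C.π_surj) _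
  have hc : ρ.ker ≤ center _ := fun x hx => by
    obtain ⟨γ, rfl⟩ := QuotientGroup.mk_surjective x
    exact C.comap_le_comap_center ((hfN _).1 hx)
  let j : C.π.ker →* ρ.ker :=
    ((QuotientGroup.mk' C.ν.range).comp C.π.ker.subtype).codRestrict _ fun a => by
      change f (C.π a) = 1
      rw [a.2, map_one]
  have hj : Function.Bijective j := by
    constructor
    · rw [injective_iff_map_eq_one]
      intro a ha
      have h3 : (a : C.Γ) ∈ C.π.ker ⊓ C.ν.range :=
        ⟨a.2, (QuotientGroup.eq_one_iff _).1 (congrArg Subtype.val ha)⟩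
      rw [C.ker_inf_range] at h3
      exact Subtype.ext h3
    · rintro ⟨x, hx⟩
      obtain ⟨γ, rfl⟩ := QuotientGroup.mk_surjective x
      obtain ⟨a, n, rfl⟩ := C.exists_eq_mul_of_mem ((hfN _).1 hx)
      exact ⟨a, Subtype.ext (QuotientGroup.eq.2 ⟨n, (inv_mul_cancel_left _ _).symm⟩)⟩
  let lam : ρ.ker →* ℂˣ := C.lam⁻¹.comp (MulEquiv.ofBijective j hj).symm.toMonoidHom
  have hlam : ∀ a, lam (j a) = (C.lam a)⁻¹ := fun a =>
    congrArg (fun x => (C.lam x)⁻¹) ((MulEquiv.ofBijective j hj).symm_apply_apply a)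
  have := Fintype.ofFinite C.Γ
  have hR : ∀ β : {β : IrrCharacter (C.Γ ⧸ C.ν.range) // ∀ z : ρ.ker, β.1 z = β.1 1 * lam z},
      ∃ χ : {χ : IrrCharacter G // classInner (fun n : N => χ.1 n) θ ≠ 0},
        ∀ γ : C.Γ, χ.1.1 (C.π γ) = β.1.1 γ * C.th γ := fun β => by
    have h2 := gallagher_irr C.th_irr.isCharacter (C.isIrrCharacter_th_range hθ) β.1.2.inflate
      (le_charKer_inflate _ _)
    obtain ⟨χ, hχ, hχ'⟩ := h2.exists_descend C.π C.π_surj fun a ha => by
      rw [h2.mem_charKer]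
      have h3 := β.2 (j ⟨a, ha⟩)
      have h4 := C.th_mul ⟨a, ha⟩ 1
      rw [mul_one] at h4
      rw [hlam] at h3
      change β.1.1 a * C.th a = β.1.1 1 * C.th 1
      change β.1.1 a = _ at h3
      rw [h3, h4, mul_assoc, ← mul_assoc _ _ (C.th 1), ← Units.val_mul, inv_mul_cancel,
        Units.val_one, one_mul]
    refine ⟨⟨⟨χ, hχ⟩, ?_⟩, hχ'⟩
    have h3 : (fun n : N => χ n) = β.1.1 1 • θ := funext fun n => by
      have h4 := hχ' (C.ν n)
      have h5 : ((C.ν n : C.Γ) : C.Γ ⧸ C.ν.range) = 1 := (QuotientGroup.eq_one_iff _).2 ⟨n, rfl⟩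
      rw [C.π_ν] at h4
      rw [h4, Pi.mul_apply, h5, C.th_ν]
      rfl
    change classInner (fun n : N => χ n) θ ≠ 0
    rw [h3, classInner_smul_left, hθ.classInner_self, mul_one]
    exact β.1.2.apply_one_ne_zero
  choose F hF using hR
  refine (three_le_central hρ hc lam h2 R ‹_›).trans
    (Nat.card_le_card_of_injective F fun β β' e => ?_)
  have h3 := gallagher_inj C.th_irr.isCharacter (C.isIrrCharacter_th_range hθ) β.1.2.inflate
    β'.1.2.inflate (le_charKer_inflate _ _) (le_charKer_inflate _ _)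
    (funext fun γ => by rw [Pi.mul_apply, Pi.mul_apply, ← hF, ← hF, e])
  refine Subtype.ext (Subtype.ext (funext fun x => ?_))
  obtain ⟨γ, rfl⟩ := QuotientGroup.mk_surjective x
  exact congrFun h3 γ

end H34.K3
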