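import Cfsg.Agent.H34.K6Spec

/-! K64: the metacyclic commutator subgroup `[Q, σ]`. -/

set_option autoImplicit false

namespace H34.K6

open Subgroup Cfsg H8.BC H92 H9
open scoped commutatorElement

universe u

theorem jobA1 : JobA1.{u} := by
  intro P _ _ Q s z σ G h hz h1 hf hm
  have I := h.cm_inv G.p
  have hV := G.p.to_subgroup (cm σ)
  have hi := index_frattini_le_of_isMetacyclic hV hm
  have hφ : ∀ w : P, (∀ a ∈ cm σ, ∀ b ∈ cm σ, ⁅a, b⁆ ∈ zpowers w) → (∀ a ∈ cm σ, a ^ 2 ∈ zpowers w) →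
      phi (cm σ) ≤ zpowers w := fun w a b => map_le_iff_le_comap.2
    (frattini_le_of_forall (p := 2) (fun x y => a x x.2 y y.2) fun x => b x x.2)
  rcases h.hq G.p I hm with hc | ⟨-, w, h2, -, h3, h4, h5, -⟩
  swap
  · refine ⟨w, hi, (hφ w (fun a ha b hb => ?_) fun a ha => ?_).antisymm (zpowers_le.2 h2),
      sq w ▸ h3, fun t ht e => ?_⟩
    · rcases h5 a ha b hb with e | e <;> simp [e]
    · rcases h4 a ha with e | e | e <;> simp [e, h3]
    · rcases h4 t ht with rfl | rfl | h6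
      exacts [absurd (one_mem _) e, absurd (mem_zpowers _) e, sq t ▸ h6]
  obtain ⟨y, hy, hu⟩ := h.exists_y G.p I
  have hs := I.sn y hy
  have hN : s ∈ normalizer (cm σ : Set P) := mem_normalizer_of_finite I.sn
  have y1 : y ∉ phi (cm σ) := fun e => hu (mul_mem (inv_mem e) (conj_mem_phi hN e))
  have y2 : s * y * s⁻¹ ∉ phi (cm σ) := fun e => y1 (by
    simpa [mul_assoc] using conj_mem_phi (inv_mem hN) e)
  have pw := fun {t w} a b c => h.pow_eq_one G.p I hi hc (y := t) a b (n := 2) c (w := w)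
  by_cases h2 : y ^ 2 = 1
  · refine ⟨1, hi, (hφ 1 (fun a ha b hb => ?_) fun a ha => ?_).antisymm (by simp), mul_one 1,
      fun t ht _ => sq t ▸ pw hy y1 h2 ht⟩
    · rw [commutatorElement_eq_one_iff_mul_comm.2 (hc a ha b hb)]; exact one_mem _
    · rw [pw hy y1 h2 ha]; exact one_mem _
  exfalso
  have hzQ := h.cen z fun y _ => by rw [← mem_center_iff.1 hz, mul_inv_cancel_right]
  have hzV : z ∉ cm σ := fun e => h1 (by
    have h3 := h.t3 (B := ⊥) (fun a ha b hb =>
      commutatorElement_eq_one_iff_mul_comm.2 (hc a ha b hb)) e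
    rwa [hf, hf, G.cen z hz, one_mul] at h3)
  have p1 := pow_mem_phi hV hy
  have p2 := pow_mem_phi hV hs
  have c1 : 4 ≤ Nat.card (phi (cm σ)) := by
    obtain ⟨n, hn⟩ := IsPGroup.iff_card.1 (G.p.to_subgroup (phi (cm σ)))
    have := Fintype.ofFinite (phi (cm σ))
    have h3 : 2 < Fintype.card (phi (cm σ)) := Fintype.two_lt_card_iff.2 ⟨1, ⟨_, p1⟩, ⟨_, p2⟩,
      fun e => h2 (congrArg Subtype.val e).symm,
      fun e => h2 (pw hs y2 (congrArg Subtype.val e).symm hy), fun e => h2 (pw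
        (mul_mem (inv_mem hy) hs) hu (by
          rw [(show Commute _ _ from hc _ (inv_mem hy) _ hs).mul_pow, inv_pow,
            show y ^ 2 = _ from congrArg Subtype.val e, inv_mul_cancel]) hy)⟩
    rw [← Nat.card_eq_fintype_card, hn] at h3
    rw [hn]
    exact Nat.pow_le_pow_right two_pos (show 2 ≤ n from
      (Nat.pow_lt_pow_iff_right one_lt_two).1 (show 2 ^ 1 < _ from h3))
  have pl : phi (cm σ) ≤ cm σ := map_subtype_le _
  have c2 := H9.mul_card_le_of_lt G.p (lt_of_le_not_ge (le_sup_left : _ ≤ phi (cm σ) ⊔ zpowers y)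
    fun e => y1 (e (mem_sup_right (mem_zpowers y))))
  have c3 := H9.mul_card_le_of_lt G.p (lt_of_le_not_ge (sup_le pl (zpowers_le.2 hy)) fun e =>
    ((mem_dbl (fun t => conj_mem_phi (le_normalizer hy)) (sq y ▸ p1)).1 (e hs)).elim y2 hu)
  have c4 := H9.mul_card_le_of_lt G.p (lt_of_le_not_ge (le_sup_left : _ ≤ cm σ ⊔ zpowers z)
    fun e => hzV (e (mem_sup_right (mem_zpowers z))))
  have l := sup_le (cm_le (σ := σ)) (zpowers_le.2 hzQ)
  obtain ⟨c5, c6⟩ := G.card_le h.s_not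
  have e := eq_of_le_of_card_ge l (by omega)
  have hQ := c6 (by rw [← e]; omega)
  have hc' : ∀ q ∈ Q, ∀ t ∈ cm σ, q * t = t * q := fun q hq t ht =>
    mem_centralizer_singleton_iff.1 (sup_le (fun v hv => mem_centralizer_singleton_iff.2 (hc v hv t ht))
      (zpowers_le.2 (mem_centralizer_singleton_iff.2 (mem_center_iff.1 hz t).symm)) (e.ge hq))
  have h3 := mul_mem hy hs
  have h4 : s * (y * (s * y * s⁻¹)) = y * (s * y * s⁻¹) * s := by
    calc _ = s * y * s⁻¹ * (s * s * y) * s⁻¹ := by group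
      _ = _ := by rw [hc' _ ((mul_mem_iff_of_index_two hQ).2 Iff.rfl) y hy, hc _ hy _ hs]; group
  refine h2 (pw h3 (fun e => hu ?_) (sq (y * _) ▸ G.cen _ (mem_center_iff.2 fun g => ?_)) hy)
  · simpa [sq, mul_assoc] using mul_mem (inv_mem p1) e
  by_cases hg : g ∈ Q
  · exact hc' g hg _ h3
  rw [← mul_inv_cancel_left s g, mul_assoc s, hc' _ ((mul_mem_iff_of_index_two hQ).2
    (iff_of_false (mt inv_mem_iff.1 h.s_not) hg)) _ h3, ← mul_assoc, h4, mul_assoc]

end H34.K6
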