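import Cfsg.Agent.H34.K6Spec

/-! K64: the local datum with a fixed element (after `H8.BC.exists_ld`). -/

set_option autoImplicit false

namespace H34.K6

open Subgroup Cfsg Cfsg.FusionSystem H8.BC H92 H9

universe u

variable {Ω : Type u} [Group Ω] {T Q : Subgroup Ω} {g h y : Ω}

theorem mem_dbl' [Finite T] (hn : ∀ t ∈ T, h * t * h⁻¹ ∈ T) (h2 : h * h ∈ T) :
    g ∈ T ⊔ zpowers h ↔ g ∈ T ∨ h⁻¹ * g ∈ T := by
  have h3 : ∀ t ∈ T, h⁻¹ * t * h ∈ T := fun t ht => by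
    simpa using (mem_normalizer_iff.1 (inv_mem (mem_normalizer_of_finite hn)) t).1 ht
  let L : Subgroup Ω :=
    { carrier := {g | g ∈ T ∨ h⁻¹ * g ∈ T}
      one_mem' := .inl (one_mem _)
      mul_mem' := by
        rintro a b (ha | ha) (hb | hb)
        · exact .inl (mul_mem ha hb)
        · exact .inr (by simpa [mul_assoc] using mul_mem (h3 a ha) hb)
        · exact .inr (by simpa [mul_assoc] using mul_mem ha hb)
        · exact .inl (by simpa [mul_assoc] using mul_mem (mul_mem (hn _ ha) h2) hb)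
      inv_mem' := by
        rintro a (ha | ha)
        · exact .inl (inv_mem ha)
        · exact .inr (by simpa [mul_assoc] using mul_mem (h3 _ (inv_mem ha)) (inv_mem h2)) }
  exact ⟨fun hg => (sup_le (c := L) (fun _ => .inl) (zpowers_le.2 (.inr (by simp)))) hg,
    fun hg => hg.elim mem_sup_left fun e => by
      simpa using mul_mem (mem_sup_right (mem_zpowers h)) (mem_sup_left (T := zpowers h) e)⟩

theorem two_step [Finite Q] (hQ : IsPGroup 2 Q) {β : MulAut Q} (hc : (orderOf β).Coprime 2)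
    (h : ∀ y ∈ Q, (y⁻¹ * af β y)⁻¹ * af β (y⁻¹ * af β y) ∈ phi Q) : β = 1 := by
  have h1 : β ^ 2 = 1 := aut_eq_one fun y hy => af_fix_of_phi hQ le_rfl
    (hc.coprime_dvd_left (orderOf_pow_dvd 2)) (fun y hy => by
      have h2 := mul_mem (pow_mem_phi hQ (mul_mem (inv_mem hy) (af_mem β hy))) (h y hy)
      rw [(mulOn_af β).map_mul (inv_mem hy) (af_mem β hy), (mulOn_af β).map_inv hy] at h2
      simpa [pow_two, af_mul_apply, mul_assoc] using h2) hy
  exact orderOf_eq_one_iff.1 (Nat.Coprime.eq_one_of_dvd hc (orderOf_dvd_of_pow_eq_one h1))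

theorem jobLD : JobLD.{u} := by
  intro Ω _ S _ F Q z hS hF hE hz hfz hi
  have hQ : Q ≤ S := hE.1.1
  have hC := centralizerIn_le_of_centric hE.1
  have := finite_mulAut hQ
  have := finite_of_le hQ
  have : Finite (phi Q) := finite_of_le (map_subtype_le (frattini Q))
  have hQp : IsPGroup 2 Q := hS.to_le hQ
  obtain ⟨d, π, hπ, hd⟩ := exists_coord 2 (Q := Q) (B := phi Q ⊔ zpowers (z : Ω))
    (fun y hy z hz => mem_sup_left (commutator_mem_phi hQp hy hz))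
    (fun y hy => mem_sup_left (pow_mem_phi hQp hy))
  have hB : ∀ y ∈ phi Q ⊔ zpowers (z : Ω), y ∈ phi Q ∨ (z : Ω)⁻¹ * y ∈ phi Q := fun y =>
    (mem_dbl' (fun t => conj_mem_phi (le_normalizer hz)) (sq (z : Ω) ▸ pow_mem_phi hQp hz)).1
  have hph : ∀ α : MulAut Q, ∀ y ∈ phi Q, af α y ∈ phi Q := fun α y hy =>
    af_mem_phi le_rfl (fun y hy => af_mem α hy) hy
  have hfx : ∀ α ∈ F.autGroup Q, ∀ y ∈ Q, y ∈ phi Q ⊔ zpowers (z : Ω) → y⁻¹ * af α y ∈ phi Q :=
    fun α hα y hy h => by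
      rcases hB y h with h | h
      · exact mul_mem (inv_mem h) (hph α y h)
      · have h1 := mul_mem (inv_mem h) (hph α _ h)
        rw [(mulOn_af α).map_mul (inv_mem hz) hy, (mulOn_af α).map_inv hz, hfz α hα] at h1
        simpa [mul_assoc] using h1
  obtain ⟨ρ, hρ⟩ := hπ.exists_matRep le_rfl (F.autGroup Q) (fun α _ y hy => af_mem α hy)
    (fun α hα y hy h => by simpa using mul_mem h (mem_sup_left (hfx α hα y hy h)))
  have hker : ∀ α : F.autGroup Q, ρ α = 1 ↔ α.1 ∈ Inn Q := fun α => by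
    refine ⟨fun e => mem_Inn_of_normal (essential_radical hS hF hE) (K := ρ.ker.map (Subgroup.subtype _))
      (map_subtype_le _) ?_ ?_ ⟨α, e, rfl⟩, fun e => ?_⟩
    · rintro b hb _ ⟨n, hn, rfl⟩
      exact ⟨_, (MonoidHom.normal_ker ρ).conj_mem n hn ⟨b, hb⟩, rfl⟩
    · rintro _ ⟨β, hβ, rfl⟩ hc
      refine two_step hQp hc fun y hy => hfx _ β.2 _ (mul_mem (inv_mem hy) (af_mem _ hy)) ?_
      rw [← hπ.eq_iff hy (af_mem _ hy), Subgroup.coe_subtype, ← hρ β y hy, MonoidHom.mem_ker.1 hβ]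
      simp
    · obtain ⟨g, hg, e⟩ := mem_Inn.1 e
      refine Units.ext (hπ.mat_ext fun y hy => ?_)
      rw [hρ α y hy, e y hy, hπ.conj hg hy]
      simp
  have hTB := autInducedBy_le_autGroup F hQ
  obtain ⟨hlt, hfn, hne⟩ := (isEssential_iff hS hF).1 hE
  obtain ⟨s, hs, hs1, h2, r, h3, h4, h5⟩ := g3 (p3_gl ((Nat.pow_le_pow_iff_right (by decide)).1
    (hd ▸ hi))) ρ (T := (autInducedBy S Q).subgroupOf _) (E := (extSub F Q).subgroupOf _)
    (sylIn_top_iff.2 ((sylIn_iff hTB).1 (sylIn_of_fn hS hF hfn)))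
    (fun _ h => autInducedBy_le_extSub F hlt h) (fun e => hne (subgroupOf_eq_top.1 e))
    (fun α h => Inn_le_autInducedBy hQ ((hker α).1 h))
    (fun h => (Inn_lt_autInducedBy hS hC hlt).not_ge fun α hα => (hker ⟨α, hTB hα⟩).1 (h hα))
    (fun g x hx h1 h2 => mem_extSub_of_conj hS hF hfn g.2 hx (fun e => h1 ((hker x).2 e)) h2)
  obtain ⟨g, hg, e⟩ := (mem_autInducedBy' (α := s.1)).1 hs
  let σ := (MulAut.congr (subgroupOfEquivOfLe hQ)).symm r.1
  have hσ : ∀ y ∈ Q.subgroupOf S, ((af σ y : S) : Ω) = af r.1 y := fun y hy => by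
    rw [af_of_mem _ hy, af_of_mem _ (mem_subgroupOf.1 hy)]; rfl
  have hI : ∀ x : S, (∀ y ∈ Q, x * y * (x : Ω)⁻¹ ∈ Q) → ∀ α ∈ Inn Q,
      (∀ y ∈ Q, af α y = x * y * (x : Ω)⁻¹) → x ∈ Q.subgroupOf S := fun x hx α hα e => by
    have hn := mem_normalizerIn_of hQ x.2 hx
    rw [aut_ext (α := α) (β := cAut Q x hn.2) fun y hy => by rw [e y hy, af_cAut _ hy]] at hα
    exact (cAut_mem_Inn_iff hC hQ hn).1 hα
  refine ⟨⟨g, hg.1⟩, σ, ⟨fun x hx => hC (mem_centralizerIn_of x.2 fun y hy =>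
    congrArg Subtype.val (hx ⟨y, hQ hy⟩ hy)), fun y hy => conj_mem_of_normalizerIn (P := Q) hg hy,
    fun h => hs1 ((hker s).2 (mem_Inn.2 ⟨g, h, e⟩)), fun x hx => ?_, ?_, fun h => h3 ?_, fun y hy => ?_⟩,
    Subtype.ext ((hσ z hz).trans (hfz _ r.2))⟩
  · have h6 : ∀ y ∈ Q, x * y * (x : Ω)⁻¹ ∈ Q := fun y hy => hx ⟨y, hQ hy⟩ hy
    have hn := mem_normalizerIn_of hQ x.2 h6
    have h8 : cAut Q x hn.2 ∈ autInducedBy S Q := cAut_mem _ x.2
    refine (h2 ⟨_, hTB h8⟩ h8).imp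
      (fun h => (cAut_mem_Inn_iff hC hQ hn).1 ((hker ⟨_, hTB h8⟩).1 h)) fun h =>
      hI _ (fun y hy => conj_mem_of_normalizerIn (mul_mem (inv_mem hg) hn) hy)
        ((s : MulAut Q)⁻¹ * cAut Q x hn.2) ((hker (s⁻¹ * ⟨_, hTB h8⟩)).1 h) fun y hy => ?_
    have h7 := e _ (conj_mem_of_normalizerIn (mul_mem (inv_mem hg) hn) hy)
    change _ = g⁻¹ * x * y * (g⁻¹ * x)⁻¹
    rw [af_mul_apply, af_cAut _ hy, ← af_inv_af s.1 (g⁻¹ * x * y * (g⁻¹ * x)⁻¹), h7]
    congr 1; group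
  · rw [← map_pow, ← Subgroup.coe_pow, h4, Subgroup.coe_one, map_one]
  · exact Subtype.ext ((MulEquiv.map_eq_one_iff _).1 h)
  · have h6 : (r : MulAut Q) * (s * r) = s := congrArg Subtype.val (show r * (s * r) = s by
      rw [mul_inv_eq_iff_eq_mul.1 h5]; group)
    refine Subtype.ext ?_
    rw [hσ _ (mem_subgroupOf.2 (conj_mem_of_normalizerIn (P := Q) hg (af_mem σ hy)))]
    change af r.1 (g * (af σ y : S) * g⁻¹) = g * y * g⁻¹
    rw [hσ y hy, ← e _ (af_mem r.1 (mem_subgroupOf.1 hy)), ← e _ (mem_subgroupOf.1 hy), ← af_mul_apply, ← af_mul_apply, mul_assoc, h6]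

end H34.K6
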