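import Cfsg.Agent.H34.KbSpec
import Cfsg.Agent.H8.BCMain

/-! K64 tower (S4543): `k(B) ≤ |D|` for two-generator defect groups of order at most 64.
Definitions, jobs and a kit; the proofs are in `blueprints/K64.md`. -/

set_option autoImplicit false
set_option linter.unusedSectionVars false

namespace H34.K6

open Subgroup Cfsg Cfsg.FusionSystem H8.BC H92 H9 H34.Kb

universe u

section defs

variable {P : Type*} [Group P]

/-- `P = ⟨x, y⟩`. -/
def Gn (x y : P) : Prop := ∀ K : Subgroup P, x ∈ K → y ∈ K → K = ⊤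

/-- The groups of order 64 that are left. -/
structure G64 (P : Type*) [Group P] : Prop where
  card : Nat.card P = 64
  gen : ∃ x y : P, Gn x y
  exp : ∀ g : P, g ^ 8 = 1
  cen : ∀ c ∈ center P, c * c = 1

/-- `Q = V C`, where `V = ⟨i, u⟩` is a four-group (`w = 1`) or quaternion, `C` centralizes `V`. -/
structure VC (Q C : Subgroup P) (s i u w : P) : Prop where
  cen : ∀ g, (∀ y ∈ Q, g * y * g⁻¹ = y) → g ∈ Q
  sn : ∀ y ∈ Q, s * y * s⁻¹ ∈ Q
  s_not : s ∉ Q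
  nor : ∀ g, (∀ y ∈ Q, g * y * g⁻¹ ∈ Q) → g ∈ Q ∨ s⁻¹ * g ∈ Q
  le : C ≤ Q
  sC : ∀ c ∈ C, s * c * s⁻¹ ∈ C
  iQ : i ∈ Q
  uQ : u ∈ Q
  wC : w ∈ C
  w2 : w * w = 1
  i2 : i * i = w
  u2 : u * u = w
  iu : i * u * i⁻¹ = u⁻¹
  si : s * i * s⁻¹ = i * u
  su : s * u * s⁻¹ = u ∨ s * u * s⁻¹ = u⁻¹
  ci : ∀ c ∈ C, c * i = i * c
  cu : ∀ c ∈ C, c * u = u * c
  mem : ∀ q ∈ Q, ∃ c ∈ C, q = c ∨ q = u * c ∨ q = i * c ∨ q = i * u * c
  iC : i ∉ C
  uC : u ∉ C
  iuC : i * u ∉ C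

/-- `V` is a four-group (`w = 1`) or a quaternion group with central involution `w`. -/
structure V1 (V : Subgroup P) (w : P) : Prop where
  idx : (frattini V).index ≤ 2 ^ 2
  phi : phi V = zpowers w
  w2 : w * w = 1
  sq : ∀ t ∈ V, t ∉ zpowers w → t * t = w

/-- The group of order 32 with an automorphism of order three. -/
structure T3 (α : MulAut P) (c : P) : Prop where
  card : Nat.card P = 32
  c1 : c ≠ 1
  c2 : c * c = 1
  der : commutator P = zpowers c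
  cen : frattini P ≤ center P
  exp : ∀ t : P, t ^ 4 = 1
  sq : ∀ t ∉ frattini P, t * t ∉ zpowers c
  fix : ∀ t, α t = t → t ∈ zpowers c

/-- The exceptional central involutions. -/
def Sp (z : P) : Prop := ∃ Q : Subgroup P, Q.index = 2 ∧
  (∀ q ∈ Q, q * q = 1 → ∀ r ∈ Q, q * r = r * q) ∧ ⁅Q, Q⁆ = zpowers z ∧
  (∃ v : P, v ^ 4 = 1 ∧ v * v ∉ center P) ∧ ∃ y ∈ center P, y ≠ 1 ∧ y ≠ z

end defs

/-- `H8.BC.exists_ld` with a fixed element. -/
def JobLD : Prop := ∀ (Ω : Type u) [Group Ω] (S : Subgroup Ω) [Finite S] (F : FusionSystem S)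
  (Q : Subgroup Ω) (z : S), IsPGroup 2 S → F.IsSaturated 2 → F.IsEssential 2 Q → (z : Ω) ∈ Q →
  (∀ α ∈ F.autGroup Q, af α (z : Ω) = z) → (phi Q ⊔ zpowers (z : Ω)).relIndex Q ≤ 2 ^ 3 →
    ∃ s σ, LD (Q.subgroupOf S) s σ ∧ af σ z = z

def JobT : Prop := ∀ (V : Type u) [Group V] [Finite V] (α : MulAut V), IsPGroup 2 V → α ^ 3 = 1 →
  α ≠ 1 → (frattini V).index ≤ 2 ^ 2 → Nat.card V ≤ 64 → ¬ IsMetacyclic V →
    (∃ c, T3 α c) ∨ Nat.card V = 64 ∧ ∃ c ∈ center V, c * c ≠ 1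

def JobA1 : Prop := ∀ (P : Type u) [Group P] [Finite P] (Q : Subgroup P) (s z : P) (σ : MulAut Q),
  G64 P → LD Q s σ → z ∈ center P → z ≠ 1 → af σ z = z → IsMetacyclic (cm σ) → ∃ w, V1 (cm σ) w

def JobA2 : Prop := ∀ (P : Type u) [Group P] [Finite P] (Q : Subgroup P) (s w : P) (σ : MulAut Q),
  G64 P → LD Q s σ → V1 (cm σ) w →
    ∃ (C : Subgroup P) (i u : P), VC Q C s i u w ∧ ∀ y ∈ Q, af σ y = y → y ∈ C

def JobB : Prop := JobT.{u} → ∀ (P : Type u) [Group P] [Finite P] (Q : Subgroup P) (s z : P)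
  (σ : MulAut Q), G64 P → LD Q s σ → z ∈ center P → z ≠ 1 → af σ z = z → ¬ IsMetacyclic (cm σ) →
    Sp z

def JobV2 : Prop := ∀ (P : Type u) [Group P] [Finite P] (Q C : Subgroup P) (s i u w z : P),
  G64 P → VC Q C s i u w → z ∈ C → z ∈ center P → z ≠ 1 → Nat.card C ≠ 2

def JobV4a : Prop := ∀ (P : Type u) [Group P] [Finite P] (Q C : Subgroup P) (s i u z : P),
  G64 P → VC Q C s i u 1 → z ∈ C → z ∈ center P → z ≠ 1 → Nat.card C ≠ 4

def JobV4b : Prop := ∀ (P : Type u) [Group P] [Finite P] (Q C : Subgroup P) (s i u w : P),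
  G64 P → VC Q C s i u w → w ≠ 1 → Nat.card C ≠ 4

def JobV8 : Prop := ∀ (P : Type u) [Group P] [Finite P] (Q C : Subgroup P) (s i u w : P),
  G64 P → VC Q C s i u w → Nat.card C ≠ 8

def JobS16 : Prop := ∀ (E : Type u) [Group E] [Finite E] (x y : E), IsPGroup 2 E → Gn x y →
  Nat.card E ≤ 16 → IsMetacyclic E ∨ ∃ x a b : E, TW 2 x a b

section kit

variable {P : Type*} [Group P] {A K M Q C T : Subgroup P} {g h x y s i u w : P}

theorem nz_sup (h1 : ∀ t ∈ A, g * t * g⁻¹ ∈ T) (h2 : g * h * g⁻¹ ∈ T) :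
    ∀ t ∈ A ⊔ zpowers h, g * t * g⁻¹ ∈ T := fun _ ht =>
  (sup_le (c := T.comap (MulAut.conj g).toMonoidHom) h1 (zpowers_le.2 h2)) ht

theorem card_two (hle : T ≤ K) (hh : h ∈ K) (hn : h ∉ T) (H : ∀ g ∈ K, g ∈ T ∨ h⁻¹ * g ∈ T) :
    Nat.card K = 2 * Nat.card T := by
  have h1 : T.relIndex K = 2 := index_eq_two_iff_exists_notMem_and'.2
    ⟨⟨h, hh⟩⁻¹, mt inv_mem_iff.1 hn, fun b => (H b b.2).symm⟩
  rw [← h1, relIndex, ← (T.subgroupOf K).index_mul_card,
    Nat.card_congr (subgroupOfEquivOfLe hle).toEquiv]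

theorem Gn.map {E : Type*} [Group E] (k : Gn x y) {φ : P →* E} (hφ : Function.Surjective φ) :
    Gn (φ x) (φ y) := fun K h1 h2 => by
  rw [← map_comap_eq_self_of_surjective hφ K, k (K.comap φ) h1 h2, map_top_of_surjective φ hφ]

/-- Generators adapted to a subgroup of index two. -/
theorem Gn.adapt (k : Gn x y) (hM : M.index = 2) : ∃ g ∉ M, ∃ h ∈ M, Gn g h := by
  by_cases hx : x ∈ M
  · exact ⟨y, fun hy => by simp [k M hx hy] at hM, x, hx, fun K h1 h2 => k K h2 h1⟩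
  by_cases hy : y ∈ M
  · exact ⟨x, hx, y, hy, k⟩
  exact ⟨x, hx, x * y, (mul_mem_iff_of_index_two hM).2 (iff_of_false hx hy), fun K h1 h2 =>
    k K h1 ((mul_mem_cancel_left h1).1 h2)⟩

variable [Finite P]

theorem mem_dbl (hn : ∀ t ∈ T, h * t * h⁻¹ ∈ T) (h2 : h * h ∈ T) :
    g ∈ T ⊔ zpowers h ↔ g ∈ T ∨ h⁻¹ * g ∈ T := by
  have h3 : ∀ t ∈ T, h⁻¹ * t * h ∈ T := fun t ht => by
    simpa using (mem_normalizer_iff.1 (inv_mem (mem_normalizer_of_finite hn)) t).1 ht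
  let L : Subgroup P :=
    { carrier := {g | g ∈ T ∨ h⁻¹ * g ∈ T}
      one_mem' := .inl (one_mem _)
      mul_mem' := by
        rintro a b (ha | ha) (hb | hb)
        · exact .inl (mul_mem ha hb)
        · exact .inr (by simpa [mul_assoc] using mul_mem (h3 a ha) hb)
        · exact .inr (by simpa [mul_assoc] using mul_mem ha hb)
        · exact .inl (by simpa [mul_assoc] using mul_mem (mul_mem (hn _ ha) h2) hb)
      inv_mem' := by
        rintro a (ha | ha)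
        · exact .inl (inv_mem ha)
        · exact .inr (by simpa [mul_assoc] using mul_mem (h3 _ (inv_mem ha)) (inv_mem h2)) }
  exact ⟨fun hg => (sup_le (c := L) (fun _ => .inl) (zpowers_le.2 (.inr (by simp)))) hg,
    fun hg => hg.elim mem_sup_left fun e => by
      simpa using mul_mem (mem_sup_right (mem_zpowers h)) (mem_sup_left (T := zpowers h) e)⟩

/-- Doubling. -/
theorem dbl (hn : ∀ t ∈ T, h * t * h⁻¹ ∈ T) (h2 : h * h ∈ T) :
    Nat.card ↥(T ⊔ zpowers h) ≤ 2 * Nat.card T := by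
  by_cases h1 : h ∈ T
  · rw [sup_eq_left.2 (zpowers_le.2 h1)]; omega
  · exact (card_two le_sup_left (mem_sup_right (mem_zpowers h)) h1 fun _ => (mem_dbl hn h2).1).le

theorem dbl_phi (hP : IsPGroup 2 P) (hT : frattini P ≤ T) (h : P) :
    Nat.card ↥(T ⊔ zpowers h) ≤ 2 * Nat.card T :=
  dbl (fun t ht => by
    simpa [commutatorElement_def] using mul_mem (hT (H9.commutator_le_frattini hP
      (commutatorElement_mem_commutator h t))) ht) (hT (sq h ▸ H9.pow_mem_frattini hP h))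

theorem idx3 (hP : IsPGroup 2 P) (H : ∀ K : Subgroup P, x ∈ K → y ∈ K → h ∈ K → K = ⊤) :
    (frattini P).index ≤ 2 ^ 3 := by
  have h1 := dbl_phi hP le_rfl x
  have h2 := dbl_phi hP (le_sup_left : _ ≤ frattini P ⊔ zpowers x) y
  have h3 := dbl_phi hP (le_sup_left.trans le_sup_left : _ ≤ frattini P ⊔ zpowers x ⊔ zpowers y) h
  rw [H _ (mem_sup_left (mem_sup_left (mem_sup_right (mem_zpowers x))))
    (mem_sup_left (mem_sup_right (mem_zpowers y))) (mem_sup_right (mem_zpowers h)), card_top,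
    ← (frattini P).index_mul_card] at h3
  exact Nat.le_of_mul_le_mul_right (c := Nat.card (frattini P)) (by omega) Nat.card_pos

theorem Gn.idx (k : Gn x y) (hP : IsPGroup 2 P) : (frattini P).index ≤ 2 ^ 2 := by
  have h1 := dbl_phi hP le_rfl x
  have h2 := dbl_phi hP (le_sup_left : _ ≤ frattini P ⊔ zpowers x) y
  rw [k _ (mem_sup_left (mem_sup_right (mem_zpowers x))) (mem_sup_right (mem_zpowers y)), card_top,
    ← (frattini P).index_mul_card] at h2
  exact Nat.le_of_mul_le_mul_right (c := Nat.card (frattini P)) (by omega) Nat.card_pos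

/-- Schreier generators of a subgroup of index two. -/
theorem Gn.max3 (k : Gn g h) (hM : M.index = 2) (hg : g ∉ M) (hh : h ∈ M) (h1 : h ∈ K)
    (h2 : g * h * g⁻¹ ∈ K) (h3 : g * g ∈ K) : M ≤ K := by
  have := normal_of_index_eq_two hM
  let L : Subgroup P := ⊥ ⊔ zpowers h ⊔ zpowers (g * h * g⁻¹) ⊔ zpowers (g * g)
  have l1 : h ∈ L := mem_sup_left (mem_sup_left (mem_sup_right (mem_zpowers _)))
  have l2 : g * h * g⁻¹ ∈ L := mem_sup_left (mem_sup_right (mem_zpowers _))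
  have l3 : g * g ∈ L := mem_sup_right (mem_zpowers _)
  have l4 : ∀ {R : Subgroup P}, h ∈ R → g * h * g⁻¹ ∈ R → g * g ∈ R → L ≤ R := fun a b c =>
    sup_le (sup_le (sup_le bot_le (zpowers_le.2 a)) (zpowers_le.2 b)) (zpowers_le.2 c)
  have l5 : ∀ t ∈ L, g * t * g⁻¹ ∈ L := nz_sup (nz_sup (nz_sup (by simp) l2) (by
    simpa [mul_assoc] using mul_mem (mul_mem l3 l1) (inv_mem l3))) (by simpa [mul_assoc] using l3)
  have l6 := l4 hh (this.conj_mem _ hh g) ((mul_mem_iff_of_index_two hM).2 Iff.rfl)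
  intro m hm
  rcases (mem_dbl l5 l3).1 (k _ (mem_sup_right (mem_zpowers g)) (mem_sup_left l1) ▸ mem_top m)
    with e | e
  · exact l4 h1 h2 h3 e
  · exact absurd (inv_mem_iff.1 ((mul_mem_cancel_right hm).1 (l6 e))) hg

theorem G64.p (k : G64 P) : IsPGroup 2 P := .of_card (n := 6) k.card

theorem G64.idx (k : G64 P) : (frattini P).index ≤ 2 ^ 2 :=
  let ⟨_, _, h⟩ := k.gen; h.idx k.p

theorem G64.rank3 (k : G64 P) (hM : M.index = 2) : (frattini M).index ≤ 2 ^ 3 := by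
  obtain ⟨x, y, h⟩ := k.gen
  obtain ⟨g, hg, h, hh, e⟩ := h.adapt hM
  refine idx3 (k.p.to_subgroup M) (x := ⟨h, hh⟩)
    (y := ⟨_, (normal_of_index_eq_two hM).conj_mem _ hh g⟩)
    (h := ⟨g * g, (mul_mem_iff_of_index_two hM).2 Iff.rfl⟩) fun K h1 h2 h3 => ?_
  exact (eq_top_iff' _).2 fun m => (mem_map_iff_mem M.subtype_injective).1
    (e.max3 hM hg hh (K := K.map M.subtype) ⟨_, h1, rfl⟩ ⟨_, h2, rfl⟩ ⟨_, h3, rfl⟩ m.2)

/-- A proper subgroup has order at most 32, and index two in case of equality. -/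
theorem G64.card_le (k : G64 P) (hs : s ∉ Q) : Nat.card Q ≤ 32 ∧ (32 ≤ Nat.card Q → Q.index = 2) := by
  have h1 := H9.mul_card_le_of_lt k.p (lt_top_iff_ne_top.2 fun e : Q = ⊤ => hs (e ▸ mem_top s))
  have h2 := Q.index_mul_card
  rw [card_top, k.card] at *
  exact ⟨by omega, fun h => by rw [show Nat.card Q = 32 by omega] at h2; omega⟩

namespace VC

variable (k : VC Q C s i u w)
include k

theorem memN : g ∈ normalizer (Q : Set P) ↔ g ∈ Q ∨ s⁻¹ * g ∈ Q :=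
  ⟨fun h => k.nor g fun y => (mem_normalizer_iff.1 h y).1, fun h => h.elim (fun h => le_normalizer h)
    fun h => by simpa using mul_mem (mem_normalizer_of_finite k.sn) (le_normalizer h)⟩

theorem cardN : Nat.card (normalizer (Q : Set P)) = 2 * Nat.card Q :=
  card_two le_normalizer (mem_normalizer_of_finite k.sn) k.s_not fun _ => k.memN.1

theorem ss : s * s ∈ Q :=
  (k.memN.1 (mul_mem (mem_normalizer_of_finite k.sn) (mem_normalizer_of_finite k.sn))).resolve_right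
    (by simpa using k.s_not)

/-- The subgroup `R = C ⟨u⟩` of index two in `Q`. -/
theorem memR : g ∈ C ⊔ zpowers u ↔ g ∈ C ∨ u⁻¹ * g ∈ C :=
  mem_dbl (fun c hc => by rwa [← k.cu c hc, mul_inv_cancel_right]) (k.u2 ▸ k.wC)

theorem R_le : C ⊔ zpowers u ≤ Q := sup_le k.le (zpowers_le.2 k.uQ)

theorem iR : i ∉ C ⊔ zpowers u := fun h => (k.memR.1 h).elim k.iC fun h =>
  k.iuC (by rwa [← k.iu, mul_assoc, inv_mul_cancel, mul_one] at h)

theorem memQ (hg : g ∈ Q) : g ∈ C ⊔ zpowers u ∨ i⁻¹ * g ∈ C ⊔ zpowers u := by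
  obtain ⟨c, hc, rfl | rfl | rfl | rfl⟩ := k.mem g hg <;> simp [k.memR, hc, mul_assoc]

theorem cardR : Nat.card ↥(C ⊔ zpowers u) = 2 * Nat.card C :=
  card_two le_sup_left (mem_sup_right (mem_zpowers u)) k.uC fun _ => k.memR.1

theorem card : Nat.card Q = 4 * Nat.card C := by
  rw [card_two k.R_le k.iQ k.iR fun _ => k.memQ, k.cardR]; ring

end VC

end kit

end H34.K6
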