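import Cfsg.Agent.H34.K6Spec

/-! K64: the cases `|C| = 2` and `|C| = 8`. -/

set_option autoImplicit false
set_option linter.unusedSectionVars false

namespace H34.K6

open Subgroup Cfsg H8.BC H92 H9
open scoped commutatorElement

universe u

variable {P : Type u} [Group P] [Finite P] {Q C : Subgroup P} {s i u w z q : P}

namespace VC

variable (k : VC Q C s i u w)
include k

theorem uinv : u⁻¹ = u * w := by
  rw [inv_eq_iff_mul_eq_one, ← mul_assoc, k.u2, k.w2]

theorem ui : u * i * u⁻¹ = i * w := by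
  have h := k.iu
  rw [mul_inv_eq_iff_eq_mul] at h
  have h1 : u * i = i * u⁻¹ := by
    rw [eq_mul_inv_iff_mul_eq, mul_assoc, h, mul_inv_cancel_left]
  rw [h1, mul_assoc, ← mul_inv_rev, k.u2, inv_eq_of_mul_eq_one_right k.w2]

/-- Elements of `Q` fix or invert `i`. -/
theorem qi (hq : q ∈ Q) : q * i * q⁻¹ = i ∨ q * i * q⁻¹ = i * w := by
  obtain ⟨c, hc, h⟩ := k.mem q hq
  have h1 : ∀ v, v * c * i * (v * c)⁻¹ = v * i * v⁻¹ := fun v => by
    rw [mul_assoc v, k.ci c hc]; group
  rcases h with rfl | rfl | rfl | rfl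
  · exact .inl (by rw [k.ci _ hc, mul_inv_cancel_right])
  · exact .inr (by rw [h1, k.ui])
  · exact .inl (by rw [h1, mul_inv_cancel_right])
  · refine .inr ?_
    rw [h1, show i * u * i * (i * u)⁻¹ = i * (u * i * u⁻¹) * i⁻¹ by group, k.ui, ← k.ci w k.wC]
    rw [← mul_assoc, mul_inv_cancel_right, k.ci w k.wC]

theorem qC (hq : q ∈ Q) {c : P} (hc : c ∈ C) : q * c * q⁻¹ ∈ C := by
  obtain ⟨d, hd, h⟩ := k.mem q hq
  have h1 := mul_mem (mul_mem hd hc) (inv_mem hd)
  have h2 : ∀ v, Commute (d * c * d⁻¹) v → v * d * c * (v * d)⁻¹ ∈ C := fun v e => by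
    rwa [show v * d * c * (v * d)⁻¹ = v * (d * c * d⁻¹) * v⁻¹ by group, ← e.eq, mul_inv_cancel_right]
  rcases h with rfl | rfl | rfl | rfl
  exacts [h1, h2 u (k.cu _ h1), h2 i (k.ci _ h1), h2 _ (.mul_right (k.ci _ h1) (k.cu _ h1))]

theorem sw : s * w * s⁻¹ = w := by
  rw [← k.u2, ← conj_mul]
  rcases k.su with h | h <;> rw [h]
  rw [← mul_inv_rev, k.u2, inv_eq_of_mul_eq_one_right k.w2]

/-- Elements of `s Q` send `i` into `i u ⟨w⟩`. -/
theorem sqi {g : P} (hg : s⁻¹ * g ∈ Q) : g * i * g⁻¹ = i * u ∨ g * i * g⁻¹ = i * u * w := by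
  rw [show g * i * g⁻¹ = s * (s⁻¹ * g * i * (s⁻¹ * g)⁻¹) * s⁻¹ by group]
  rcases k.qi hg with h | h <;> rw [h]
  · exact .inl k.si
  · exact .inr (by rw [← conj_mul, k.si, k.sw])

end VC

theorem jobV2 : JobV2.{u} := by
  intro P _ _ Q C s i u w z G k hz hc h1 h2
  have h3 : zpowers z = C := eq_of_le_of_card_ge (zpowers_le.2 hz) (by
    rw [h2, Nat.card_zpowers]
    exact Nat.succ_le_of_lt (lt_of_le_of_ne (orderOf_pos z) (mt (orderOf_eq_one_iff.1 ·.symm) h1)))
  have : C.Normal := ⟨fun c h g => by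
    rwa [mem_center_iff.1 (zpowers_le.2 hc (h3.ge h)), mul_inv_cancel_right]⟩
  let π := QuotientGroup.mk' C
  have h4 : ∀ g, π g ∈ centralizer {π i} ↔ i⁻¹ * (g * i * g⁻¹) ∈ C := fun g => by
    rw [mem_centralizer_singleton_iff, ← QuotientGroup.eq, ← mul_inv_eq_iff_eq_mul, eq_comm]; rfl
  have h5 : ∀ g, s⁻¹ * g ∈ Q → π g ∉ centralizer {π i} := fun g hg h => by
    rw [h4] at h
    rcases k.sqi hg with e | e <;> rw [e] at h
    · exact k.uC (by simpa using h)
    · exact k.uC ((mul_mem_cancel_right k.wC).1 (by simpa [mul_assoc] using h))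
  have h6 : Q ≤ (centralizer {π i}).comap π := fun q hq => (h4 q).2 (by
    rcases k.qi hq with e | e <;> simp [e, k.wC])
  have h7 : Q = (centralizer {π i}).comap π := by_contra fun e => by
    obtain ⟨g, a, b, c⟩ := exists_mem_normalizer_not_mem (G.p.to_subgroup _) (lt_of_le_of_ne h6 e)
    exact h5 g ((k.memN.1 b).resolve_left c) a
  have h8 := (centralizer {π i}).index_comap_of_surjective (QuotientGroup.mk'_surjective C)
  have h9 := Q.index_mul_card
  have h10 := C.index_mul_card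
  have h11 := (centralizer {π i}).index_mul_card
  rw [← h7] at h8
  rw [k.card, h2, G.card] at h9
  rw [h2, G.card, index] at h10
  rw [← h8, show Q.index = 8 by omega] at h11
  obtain ⟨m, a, b, D⟩ := H3.exists_dsq_of_card_centralizer (G.p.to_quotient C) (fun e => h5 s
    (by simp) (mem_centralizer_singleton_iff.2 (mul_comm' _ _))) (x := π i) (by omega)
  obtain rfl : m = 3 := by
    have := Nat.pow_right_injective le_rfl (D.card.symm.trans (show _ = 2 ^ 5 by omega))
    omega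
  obtain ⟨a, rfl⟩ := QuotientGroup.mk'_surjective C a
  have := orderOf_dvd_of_pow_eq_one (show π a ^ 8 = 1 by rw [← map_pow, G.exp, map_one])
  rw [D.ord] at this
  exact absurd this (by decide)

theorem jobV8 : JobV8.{u} := by
  intro P _ _ Q C s i u w G k h
  have hQ := (G.card_le k.s_not).2 (by rw [k.card, h])
  have h1 : ∀ g ∉ Q, s⁻¹ * g ∈ Q := fun g hg =>
    (mul_mem_iff_of_index_two hQ).2 (iff_of_false (mt inv_mem_iff.1 k.s_not) hg)
  have hK : ∀ K : Subgroup P, Q ≤ K → s ∈ K → ∀ g, g ∈ K := fun K a b g =>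
    by_cases (fun e => a e) fun e => by simpa using mul_mem b (a (h1 g e))
  have : C.Normal := normalizer_eq_top_iff.1 ((eq_top_iff' _).2 (hK _ (fun q hq =>
    mem_normalizer_of_finite fun _ => k.qC hq) (mem_normalizer_of_finite k.sC)))
  let π := QuotientGroup.mk' C
  have hπ : ∀ g, π g = 1 ↔ g ∈ C := QuotientGroup.eq_one_iff
  have hv : ∀ g, g * u * g⁻¹ = u ∨ g * u * g⁻¹ = u⁻¹ → g ∈ (centralizer {π u}).comap π :=
    fun g e => by
      rw [mem_comap, mem_centralizer_singleton_iff, ← mul_inv_eq_iff_eq_mul, ← map_inv, ← map_mul,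
        ← map_mul]
      rcases e with e | e <;> simp only [e, k.uinv, map_mul, (hπ w).2 k.wC, mul_one]
  have hu : ∀ g, π g * π u = π u * π g := fun g => mem_centralizer_singleton_iff.1 (hK _
    (fun q hq => by
      have a : ∀ c ∈ C, c ∈ (centralizer {π u}).comap π := fun c hc =>
        hv c (.inl (by rw [k.cu c hc, mul_inv_cancel_right]))
      have b := hv u (.inl (by simp))
      have d := hv i (.inr k.iu)
      obtain ⟨c, hc, rfl | rfl | rfl | rfl⟩ := k.mem q hq
      exacts [a _ hc, mul_mem b (a c hc), mul_mem d (a c hc), mul_mem (mul_mem d b) (a c hc)])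
    (hv s k.su) g)
  have hw : ∀ c ∈ C, ∀ v, Commute c v → v * v ∈ C → v * c * (v * c) ∈ C := fun c hc v e hv => by
    rw [show v * c * (v * c) = v * (c * v) * c by group, e.eq]
    simpa [mul_assoc] using mul_mem hv (mul_mem hc hc)
  have h2 : ∀ g, g * g ∈ C ⊔ zpowers u := fun g => by
    by_cases hg : g ∈ Q
    · obtain ⟨c, hc, rfl | rfl | rfl | rfl⟩ := k.mem g hg <;> refine mem_sup_left ?_
      · exact mul_mem hc hc
      · exact hw c hc u (k.cu c hc) (k.u2 ▸ k.wC)
      · exact hw c hc i (k.ci c hc) (k.i2 ▸ k.wC)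
      · refine hw c hc _ (.mul_right (k.ci c hc) (k.cu c hc)) ?_
        rw [show i * u * (i * u) = i * u * i⁻¹ * (i * i) * u by group, k.iu, k.i2, mul_assoc,
          k.cu w k.wC]
        simpa using k.wC
    refine (k.memQ ((mul_mem_iff_of_index_two hQ).2 Iff.rfl)).resolve_right fun e => k.uC ?_
    have h3 : π g * π (i⁻¹ * (g * g)) * (π g)⁻¹ = π (i⁻¹ * (g * g)) := by
      rcases k.memR.1 e with e | e
      · rw [(hπ _).2 e]; simp
      · rw [← mul_inv_cancel_left u (i⁻¹ * (g * g)), map_mul π u, (hπ _).2 e, mul_one, hu,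
          mul_inv_cancel_right]
    have h4 : π g * π i * (π g)⁻¹ = π i * π u := by
      rw [← map_inv, ← map_mul, ← map_mul]
      rcases k.sqi (h1 g hg) with e | e <;> simp only [e, map_mul, (hπ w).2 k.wC, mul_one]
    rw [← hπ, ← mul_right_inj (π i), ← h4, mul_one, ← inv_inj, ← mul_left_inj (π g * π g)]
    simpa [mul_assoc] using h3
  have h4 : frattini P ≤ C ⊔ zpowers u := frattini_le_of_forall (p := 2) (fun x y => by
    rw [show ⁅x, y⁆ = x * x * (x⁻¹ * y * (x⁻¹ * y)) * (y * y)⁻¹ by rw [commutatorElement_def]; group]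
    exact mul_mem (mul_mem (h2 _) (h2 _)) (inv_mem (h2 _))) fun x => sq x ▸ h2 x
  have g : Gn s i := fun K => top_of_two G.p G.idx (fun e => k.s_not (k.R_le (h4 e)))
    (fun e => k.iR (h4 e)) fun e => k.s_not ((mul_mem_cancel_right k.iQ).1 (k.R_le (h4 e)))
  have h5 : ∀ c ∈ C, Commute c s → c * c = 1 := fun c hc e => G.cen c (mem_center_iff.2 fun t =>
    mem_centralizer_singleton_iff.1 (g _ (mem_centralizer_singleton_iff.2 e.eq.symm)
      (mem_centralizer_singleton_iff.2 (k.ci c hc).symm) ▸ mem_top t))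
  let V : Subgroup P := ⊥ ⊔ zpowers w ⊔ zpowers u ⊔ zpowers i
  have v1 : i ∈ V := mem_sup_right (mem_zpowers i)
  have v2 : u ∈ ⊥ ⊔ zpowers w ⊔ zpowers u := mem_sup_right (mem_zpowers u)
  have v3 : w ∈ ⊥ ⊔ zpowers w := mem_sup_right (mem_zpowers w)
  have v4 : u ∈ V := mem_sup_left v2
  have v5 : ∀ t ∈ V, s * t * s⁻¹ ∈ V := nz_sup (nz_sup (nz_sup (by simp)
    (k.sw.symm ▸ mem_sup_left (mem_sup_left v3))) (by rcases k.su with e | e <;> simpa [e] using v4))
    (k.si.symm ▸ mul_mem v1 v4)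
  have h6 : s * s * (s * s) ∈ V := by
    rcases k.memR.1 (h2 s) with e | e
    · exact h5 _ e (by simp [Commute, SemiconjBy, mul_assoc]) ▸ one_mem _
    have h6 : s * u * s⁻¹ = u := by
      have h7 : s * s * i * (s * s)⁻¹ = i * w := by
        rw [← k.ui, ← mul_inv_cancel_left u (s * s), mul_assoc u, k.ci _ e]; group
      rw [show s * s * i * (s * s)⁻¹ = s * (s * i * s⁻¹) * s⁻¹ by group, k.si, ← conj_mul, k.si,
        mul_assoc, mul_right_inj, ← k.u2, mul_right_inj] at h7
      exact h7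
    have h7 := h5 _ e (.mul_left (Commute.inv_left (mul_inv_eq_iff_eq_mul.1 h6).symm)
      (by simp [Commute, SemiconjBy, mul_assoc]))
    rw [← mul_inv_cancel_left u (s * s), show ∀ c, u * c * (u * c) = u * (c * u) * c from
      fun c => by group, k.cu _ e, mul_assoc, mul_assoc, h7, mul_one]
    exact mul_mem v4 v4
  have d1 := dbl (T := ⊥) (h := w) (by simp) (k.w2 ▸ one_mem _)
  have d2 := dbl (T := ⊥ ⊔ zpowers w) (h := u) (nz_sup (by simp) (by
    rwa [← k.cu w k.wC, mul_inv_cancel_right])) (k.u2 ▸ v3)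
  have d3 : Nat.card V ≤ _ := dbl (T := ⊥ ⊔ zpowers w ⊔ zpowers u) (h := i) (nz_sup (nz_sup (by simp) (by
    rw [← k.ci w k.wC, mul_inv_cancel_right]; exact mem_sup_left v3)) (k.iu.symm ▸ inv_mem v2))
    (by rw [k.i2]; exact mem_sup_left v3)
  have d4 := dbl (T := V) (h := s * s) (fun t ht => by simpa [mul_assoc] using v5 _ (v5 t ht)) h6
  have d5 := dbl (T := V ⊔ zpowers (s * s)) (h := s) (nz_sup (fun t ht => mem_sup_left (v5 t ht))
    (by simpa [mul_assoc] using mem_sup_right (mem_zpowers (s * s)))) (mem_sup_right (mem_zpowers _))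
  rw [g _ (mem_sup_right (mem_zpowers s)) (mem_sup_left (mem_sup_left v1)), card_top, G.card] at d5
  rw [card_bot] at d1
  omega

end H34.K6
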