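import Cfsg.Agent.H28.RepBasic

/-!
# Invariant bilinear forms of coprime modules
-/

set_option autoImplicit false
set_option linter.unusedSectionVars false

namespace H34

open LinearMap (BilinForm)
open Module

variable {F : Type*} [Field F] {G : Type*} [Group G] {V : Type*} [AddCommGroup V] [Module F V]

theorem exists_proj {U W : Submodule F V} (h : Disjoint U W) :
    ∃ f : V →ₗ[F] V, (∀ u ∈ U, f u = u) ∧ (∀ w ∈ W, f w = 0) ∧ ∀ x, f x ∈ U := by
  obtain ⟨C, h1, h2⟩ := IsModularLattice.exists_inf_eq_and_sup_eq (a := W) (b := U ⊔ W) (c := ⊤)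
    le_sup_right le_top
  have hc : IsCompl U C := by
    refine ⟨disjoint_iff.2 (le_bot_iff.1 ?_), codisjoint_iff.2 (top_le_iff.1 ?_)⟩
    · rw [← h.eq_bot, ← h1]; exact le_inf inf_le_left (inf_le_inf_right _ le_sup_left)
    · rw [← h2, sup_assoc]
      exact sup_le_sup_left (sup_le (h1 ▸ inf_le_right) le_rfl) _
  exact ⟨U.projection C hc, fun u hu => Submodule.projection_apply_of_mem_left hc hu,
    fun w hw => (Submodule.projection_apply_eq_zero_iff hc).2 ((h1 ▸ inf_le_right : W ≤ C) hw),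
    Submodule.projection_apply_mem hc⟩

variable (ρ : Representation F G V)

/-- invariant subspace -/
def Inv (U : Submodule F V) : Prop := ∀ g : G, ∀ u ∈ U, ρ g u ∈ U

/-- `U` carries a nondegenerate invariant form of type `Q` -/
def Frm (Q : BilinForm F V → Prop) (U : Submodule F V) : Prop :=
  ∃ A : BilinForm F V, Q A ∧ (∀ g : G, ∀ x ∈ U, ∀ y ∈ U, A (ρ g x) (ρ g y) = A x y) ∧
    ∀ x ∈ U, (∀ y ∈ U, A x y = 0) → x = 0

/-- symplectic plus orthogonal decomposition -/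
def Dec (Y : Submodule F V) : Prop :=
  ∃ U W : Submodule F V, Disjoint U W ∧ U ⊔ W = Y ∧ Inv ρ U ∧ Inv ρ W ∧
    Frm ρ (fun A => ∀ x, A x x = 0) U ∧ Frm ρ (fun A => ∀ x y, A x y = A y x) W ∧
    ((2 : F) = 0 → ∀ g : G, ∀ w ∈ W, ρ g w = w)

variable {ρ} {U W Y Z : Submodule F V} {B : BilinForm F V}

theorem inv_bot : Inv ρ ⊥ := fun g u hu => by rw [(Submodule.mem_bot F).1 hu]; simp

theorem Inv.sup (h : Inv ρ U) (h' : Inv ρ W) : Inv ρ (U ⊔ W) := fun g x hx => by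
  obtain ⟨u, hu, w, hw, rfl⟩ := Submodule.mem_sup.1 hx
  rw [map_add]; exact Submodule.add_mem_sup (h g u hu) (h' g w hw)

theorem frm_bot {Q : BilinForm F V → Prop} (h : Q 0) : Frm ρ Q ⊥ :=
  ⟨0, h, fun _ _ _ _ _ => rfl, fun _ hx _ => (Submodule.mem_bot F).1 hx⟩

theorem Frm.sup {Q : BilinForm F V → Prop} (hQ : ∀ A A' f f', Q A → Q A' →
    Q (A.comp f f + A'.comp f' f')) (hd : Disjoint U W) (hU : Inv ρ U) (hW : Inv ρ W)
    (h : Frm ρ Q U) (h' : Frm ρ Q W) : Frm ρ Q (U ⊔ W) := by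
  obtain ⟨A, a1, a2, a3⟩ := h
  obtain ⟨A', b1, b2, b3⟩ := h'
  obtain ⟨f, f1, f2, -⟩ := exists_proj hd
  obtain ⟨f', g1, g2, -⟩ := exists_proj hd.symm
  have e : ∀ u ∈ U, ∀ w ∈ W, ∀ u' ∈ U, ∀ w' ∈ W,
      (A.comp f f + A'.comp f' f') (u + w) (u' + w') = A u u' + A' w w' :=
    fun u hu w hw u' hu' w' hw' => by
      simp [f1 u hu, f1 u' hu', f2 w hw, f2 w' hw', g1 w hw, g1 w' hw', g2 u hu, g2 u' hu']
  refine ⟨_, hQ A A' f f' a1 b1, fun g x hx y hy => ?_, fun x hx h0 => ?_⟩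
  · obtain ⟨u, hu, w, hw, rfl⟩ := Submodule.mem_sup.1 hx
    obtain ⟨u', hu', w', hw', rfl⟩ := Submodule.mem_sup.1 hy
    rw [map_add (ρ g), map_add (ρ g), e _ (hU g u hu) _ (hW g w hw) _ (hU g u' hu') _ (hW g w' hw'),
      e u hu w hw u' hu' w' hw', a2 g u hu u' hu', b2 g w hw w' hw']
  · obtain ⟨u, hu, w, hw, rfl⟩ := Submodule.mem_sup.1 hx
    rw [a3 u hu fun y hy => by
      simpa [← e u hu w hw y hy 0 W.zero_mem] using (h0 y (Submodule.mem_sup_left hy)).trans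
        (by simp : (0 : F) = 0) |>.symm ▸ (by simpa using (e u hu w hw y hy 0 W.zero_mem).symm),
      b3 w hw fun y hy => by
        have := e u hu w hw 0 U.zero_mem y hy
        rw [zero_add, h0 y (Submodule.mem_sup_right hy)] at this
        simpa using this.symm, add_zero]

theorem Dec.sup (hd : Disjoint Y Z) (h : Dec ρ Y) (h' : Dec ρ Z) : Dec ρ (Y ⊔ Z) := by
  obtain ⟨U, W, a1, rfl, a3, a4, a5, a6, a7⟩ := h
  obtain ⟨U', W', b1, rfl, b3, b4, b5, b6, b7⟩ := h'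
  refine ⟨U ⊔ U', W ⊔ W', Submodule.disjoint_def.2 fun x hx hx' => ?_, sup_sup_sup_comm ..,
    a3.sup b3, a4.sup b4,
    Frm.sup (fun A A' f f' h h' x => by simp [h, h']) (hd.mono le_sup_left le_sup_left) a3 b3 a5 b5,
    Frm.sup (fun A A' f f' h h' x y => by simp [h (f x), h' (f' x)])
      (hd.mono le_sup_right le_sup_right) a4 b4 a6 b6, fun h2 g x hx => ?_⟩
  · obtain ⟨u, hu, u', hu', rfl⟩ := Submodule.mem_sup.1 hx
    obtain ⟨w, hw, w', hw', e⟩ := Submodule.mem_sup.1 hx'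
    have h1 : u - w = 0 := Submodule.disjoint_def.1 hd _
      (sub_mem (Submodule.mem_sup_left hu) (Submodule.mem_sup_right hw)) (by
        rw [show u - w = w' - u' by rw [sub_eq_sub_iff_add_eq_add, ← e, add_comm]]
        exact sub_mem (Submodule.mem_sup_right hw') (Submodule.mem_sup_left hu'))
    rw [sub_eq_zero] at h1
    subst h1
    rw [add_right_inj] at e
    subst e
    rw [Submodule.disjoint_def.1 a1 u hu hw, Submodule.disjoint_def.1 b1 w' hu' hw', add_zero]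
  · obtain ⟨w, hw, w', hw', rfl⟩ := Submodule.mem_sup.1 hx
    rw [map_add, a7 h2 g w hw, b7 h2 g w' hw']

theorem dec_alt (hU : Inv ρ U) (h : Frm ρ (fun A => ∀ x, A x x = 0) U) : Dec ρ U :=
  ⟨U, ⊥, disjoint_bot_right, sup_bot_eq _, hU, inv_bot, h, frm_bot fun _ _ => rfl,
    fun _ g w hw => by rw [(Submodule.mem_bot F).1 hw, map_zero]⟩

theorem inv_orth {C : BilinForm F V} (hY : Inv ρ Y) (hW : Inv ρ W) (hWY : W ≤ Y)
    (hC : ∀ g : G, ∀ x ∈ Y, ∀ y ∈ Y, C (ρ g x) (ρ g y) = C x y) :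
    Inv ρ (Y ⊓ C.orthogonal W) := fun g x hx => ⟨hY g x hx.1, fun w hw => by
  have := hC g _ (hWY (hW g⁻¹ w hw)) x hx.1
  rw [Representation.self_inv_apply] at this
  exact this.trans (hx.2 _ (hW g⁻¹ w hw))⟩

variable [FiniteDimensional F V]

theorem nondeg_restrict (h : ∀ y ∈ Y, (∀ x ∈ Y, B x y = 0) → y = 0) :
    (B.restrict Y).Nondegenerate :=
  .ofSeparatingRight fun y hy => Subtype.ext (h y y.2 fun x hx => hy ⟨x, hx⟩)

theorem sup_orth (hZY : Z ≤ Y) (h : ∀ y ∈ Z, (∀ x ∈ Z, B x y = 0) → y = 0) :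
    Z ⊔ Y ⊓ B.orthogonal Z = Y := by
  refine le_antisymm (sup_le hZY inf_le_left) fun y hy => ?_
  obtain ⟨z, hz⟩ := ((B.restrict Z).flip.toDual (nondeg_restrict h).flip).surjective
    ((B.flip y).domRestrict Z)
  refine Submodule.mem_sup.2 ⟨z, z.2, y - z, ⟨sub_mem hy (hZY z.2), fun x hx => ?_⟩, by simp⟩
  have : B x z = B x y := LinearMap.congr_fun hz ⟨x, hx⟩
  show B x (y - z) = 0
  rw [map_sub, this, sub_self]

theorem exists_T (h : ∀ y ∈ Y, (∀ x ∈ Y, B x y = 0) → y = 0) :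
    ∃ T : V →ₗ[F] V, (∀ y ∈ Y, T y ∈ Y) ∧ ∀ w ∈ Y, ∀ v ∈ Y, B (T w) v = B v w := by
  obtain ⟨T, hT⟩ := LinearMap.exists_extend (Y.subtype ∘ₗ
    (B.restrict Y).flip.symmCompOfNondegenerate (B.restrict Y) (nondeg_restrict h))
  refine ⟨T, fun y hy => ?_, fun w hw v hv => ?_⟩
  · rw [show T y = _ from LinearMap.congr_fun hT ⟨y, hy⟩]; exact Subtype.property _
  · rw [show T w = _ from LinearMap.congr_fun hT ⟨w, hw⟩]
    exact LinearMap.BilinForm.symmCompOfNondegenerate_left_apply (B.restrict Y).flip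
      (nondeg_restrict h) ⟨v, hv⟩ ⟨w, hw⟩

theorem exists_dec_part [Finite G] [NeZero (Nat.card G : F)]
    (hB : ∀ g : G, ∀ x y : V, B (ρ g x) (ρ g y) = B x y) (hY : Inv ρ Y) (h0 : Y ≠ ⊥)
    (h : ∀ y ∈ Y, (∀ x ∈ Y, B x y = 0) → y = 0) :
    ∃ Z ≤ Y, Z ≠ ⊥ ∧ Inv ρ Z ∧ Dec ρ Z ∧ ∀ y ∈ Z, (∀ x ∈ Z, B x y = 0) → y = 0 := by
  obtain ⟨T, T1, T2⟩ := exists_T h
  have hl : ∀ y ∈ Y, (∀ x ∈ Y, B y x = 0) → y = 0 := fun y hy h' =>
    congrArg Subtype.val ((nondeg_restrict h).1 ⟨y, hy⟩ fun x => h' x x.2)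
  have T3 : ∀ w ∈ Y, ∀ v ∈ Y, B (T w) (T v) = B w v := fun w hw v hv => by
    rw [T2 w hw _ (T1 v hv), T2 v hv w hw]
  obtain ⟨W, ⟨W1, W2, W3, W4⟩, hmin⟩ := WellFounded.has_min (wellFounded_lt (α := Submodule F V))
    {W | W ≤ Y ∧ W ≠ ⊥ ∧ Inv ρ W ∧ ∀ w ∈ W, T w ∈ W} ⟨Y, le_rfl, h0, hY, T1⟩
  have hm : ∀ R ≤ W, Inv ρ R → (∀ w ∈ R, T w ∈ R) → R = ⊥ ∨ R = W := fun R h1 h2 h3 =>
    or_iff_not_imp_left.2 fun h4 => (h1.eq_or_lt).resolve_right (hmin R ⟨h1.trans W1, h4, h2, h3⟩)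
  have Ts : ∀ w ∈ W, ∃ w' ∈ W, T w' = w := fun w hw => by
    obtain ⟨w', e⟩ := LinearMap.injective_iff_surjective.1 ((injective_iff_map_eq_zero
      (T.restrict W4)).2 fun x hx => Subtype.ext (h x (W1 x.2) fun v hv => by
        rw [← T2 x (W1 x.2) v hv, show T x = 0 from congrArg Subtype.val hx]; simp)) ⟨w, hw⟩
    exact ⟨w', w'.2, congrArg Subtype.val e⟩
  have rad : ∀ C : BilinForm F V, (∀ g : G, ∀ x y, C (ρ g x) (ρ g y) = C x y) →
      (∀ w ∈ Y, ∀ v ∈ Y, C (T w) (T v) = C w v) →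
      (∀ y ∈ W, (∀ x ∈ W, C x y = 0) → y = 0) ∨ ∀ y ∈ W, ∀ x ∈ W, C x y = 0 := fun C c1 c2 => by
    refine (hm (W ⊓ C.orthogonal W) inf_le_left (inv_orth W3 W3 le_rfl fun g x _ y _ => c1 g x y)
      fun x hx => ⟨W4 x hx.1, fun w hw => ?_⟩).imp
      (fun e y hy h' => (Submodule.mem_bot F).1 (e ▸ ⟨hy, h'⟩)) fun e y hy => (e.ge hy).2
    obtain ⟨w', hw', rfl⟩ := Ts w hw
    exact (c2 w' (W1 hw') x (W1 hx.1)).trans (hx.2 w' hw')
  rcases rad B hB T3 with r | r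
  · refine ⟨W, W1, W2, W3, ?_, r⟩
    rcases rad (B - B.flip) (fun g x y => by simp [hB])
      (fun w hw v hv => by simp [T3 w hw v hv, T3 v hv w hw]) with s | s
    · exact dec_alt W3 ⟨B.flip - B, fun x => by simp, fun g x _ y _ => by simp [hB],
        fun x hx h' => s x hx fun y hy => by simpa using h' y hy⟩
    obtain ⟨f, f1, -, f3⟩ := exists_proj (disjoint_bot_right (a := W))
    have s' : ∀ x ∈ W, ∀ y ∈ W, B x y = B y x := fun x hx y hy => by
      simpa [sub_eq_zero] using s y hy x hx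
    have key : ∀ Q : BilinForm F V → Prop, Q (B.comp f f) → Frm ρ Q W := fun Q hQ =>
      ⟨_, hQ, fun g x hx y hy => by
        simp [f1 x hx, f1 y hy, f1 _ (W3 g x hx), f1 _ (W3 g y hy), hB],
        fun x hx h' => r x hx fun y hy => by simpa [f1 x hx, f1 y hy, s' x hx y hy] using h' y hy⟩
    by_cases h2 : (2 : F) = 0 → ∀ g : G, ∀ w ∈ W, ρ g w = w
    · exact ⟨⊥, W, disjoint_bot_left, bot_sup_eq _, inv_bot, W3, frm_bot fun _ => rfl,
        key _ fun x y => s' _ (f3 x) _ (f3 y), h2⟩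
    push Not at h2
    obtain ⟨h2, g, w, hw, hg⟩ := h2
    let N : Submodule F V :=
      { carrier := {x | x ∈ W ∧ B x x = 0}
        add_mem' := fun {a b} ha hb => ⟨W.add_mem ha.1 hb.1, by
          simp only [map_add, LinearMap.add_apply, ha.2, hb.2, s' a ha.1 b hb.1]
          linear_combination B b a * h2⟩
        zero_mem' := ⟨W.zero_mem, by simp⟩
        smul_mem' := fun c a ha => ⟨W.smul_mem c ha.1, by simp [ha.2]⟩ }
    rcases hm N (fun x hx => hx.1) (fun g x hx => ⟨W3 g x hx.1, (hB g x x).trans hx.2⟩)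
      (fun x hx => ⟨W4 x hx.1, (T3 x (W1 hx.1) x (W1 hx.1)).trans hx.2⟩) with e | e
    · refine absurd (sub_eq_zero.1 ((Submodule.mem_bot F).1 (e ▸ ⟨sub_mem (W3 g w hw) hw, ?_⟩))) hg
      simp only [map_sub, LinearMap.sub_apply, hB, s' w hw _ (W3 g w hw)]
      linear_combination (B w w - B (ρ g w) w) * h2
    · exact dec_alt W3 (key _ fun x => (e.ge (f3 x)).2)
  · obtain ⟨P', hP⟩ := H28.exists_isCompl_subrep (ρ := ρ) ⟨Y ⊓ B.orthogonal W, fun g x hx =>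
      inv_orth hY W3 W1 (fun g x _ y _ => hB g x y) g x hx⟩
    have hP : IsCompl (Y ⊓ B.orthogonal W) P'.toSubmodule := hP
    set W' := P'.toSubmodule ⊓ Y
    have w1 : Inv ρ W' := fun g x hx => ⟨P'.apply_mem_toSubmodule g hx.1, hY g x hx.2⟩
    have w2 : ∀ x ∈ W', (∀ w ∈ W, B w x = 0) → x = 0 := fun x hx h' =>
      Submodule.disjoint_def.1 hP.disjoint x ⟨hx.2, h'⟩ hx.1
    have w3 : ∀ y ∈ Y, ∃ a ∈ Y ⊓ B.orthogonal W, ∃ b ∈ W', a + b = y := fun y hy =>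
      Submodule.mem_sup.1 (by rw [← sup_inf_assoc_of_le _ inf_le_left, hP.sup_eq_top]; exact ⟨trivial, hy⟩)
    have hd : Disjoint W W' := Submodule.disjoint_def.2 fun x hx hx' => w2 x hx' (r x hx)
    obtain ⟨f, f1, f2, -⟩ := exists_proj hd
    obtain ⟨f', g1, g2, -⟩ := exists_proj hd.symm
    have e : ∀ u ∈ W, ∀ w ∈ W', ∀ u' ∈ W, ∀ w' ∈ W',
        (B.comp f f' - (B.comp f f').flip) (u + w) (u' + w') = B u w' - B u' w :=
      fun u hu w hw u' hu' w' hw' => by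
        simp [f1 u hu, f1 u' hu', f2 w hw, f2 w' hw', g1 w hw, g1 w' hw', g2 u hu, g2 u' hu']
    refine ⟨W ⊔ W', sup_le W1 inf_le_right, fun e => W2 (le_bot_iff.1 (e ▸ le_sup_left)),
      W3.sup w1, dec_alt (W3.sup w1) ⟨B.comp f f' - (B.comp f f').flip, fun x => by simp,
        fun g x hx y hy => ?_, fun x hx h' => ?_⟩, fun x hx h' => ?_⟩
    · obtain ⟨u, hu, w, hw, rfl⟩ := Submodule.mem_sup.1 hx
      obtain ⟨u', hu', w', hw', rfl⟩ := Submodule.mem_sup.1 hy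
      rw [map_add (ρ g), map_add (ρ g), e _ (W3 g u hu) _ (w1 g w hw) _ (W3 g u' hu') _
        (w1 g w' hw'), e u hu w hw u' hu' w' hw', hB, hB]
    · obtain ⟨u, hu, w, hw, rfl⟩ := Submodule.mem_sup.1 hx
      rw [w2 w hw fun y hy => by
        have := e u hu w hw y hy 0 W'.zero_mem
        rw [add_zero, h' y (Submodule.mem_sup_left hy)] at this
        simpa using this, add_zero]
      refine hl u (W1 hu) fun y hy => ?_
      obtain ⟨a, ha, b, hb, rfl⟩ := w3 y hy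
      have := e u hu w hw 0 W.zero_mem b hb
      rw [zero_add, h' b (Submodule.mem_sup_right hb)] at this
      rw [map_add, show B u a = 0 from ha.2 u hu, zero_add]
      simpa using this.symm
    · obtain ⟨u, hu, w, hw, rfl⟩ := Submodule.mem_sup.1 hx
      obtain rfl : w = 0 := w2 w hw fun y hy => by
        have := h' y (Submodule.mem_sup_left hy)
        rwa [map_add, r u hu y hy, zero_add] at this
      rw [add_zero] at h' ⊢
      refine h u (W1 hu) fun y hy => ?_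
      obtain ⟨a, ha, b, hb, rfl⟩ := w3 y hy
      rw [map_add, LinearMap.add_apply, h' b (Submodule.mem_sup_right hb), add_zero,
        ← T2 u (W1 hu) a ha.1]
      exact ha.2 _ (W4 u hu)

theorem exists_dec_forms [Finite G] [NeZero (Nat.card G : F)]
    (hB : ∀ g : G, ∀ x y : V, B (ρ g x) (ρ g y) = B x y) (Y : Submodule F V) :
    Inv ρ Y → (∀ y ∈ Y, (∀ x ∈ Y, B x y = 0) → y = 0) → Dec ρ Y := by
  induction Y using WellFounded.induction (wellFounded_lt (α := Submodule F V)) with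
  | _ Y ih =>
  intro hY h
  by_cases h0 : Y = ⊥
  · exact h0 ▸ dec_alt inv_bot (frm_bot fun _ => rfl)
  obtain ⟨Z, z1, z2, z3, z4, z5⟩ := exists_dec_part hB hY h0 h
  have e := sup_orth z1 z5
  have hd : Disjoint Z (Y ⊓ B.orthogonal Z) :=
    Submodule.disjoint_def.2 fun x hx hx' => z5 x hx hx'.2
  rw [← e]
  refine Dec.sup hd z4 (ih _ (lt_of_le_of_ne inf_le_left fun e' => z2 ?_)
    (inv_orth hY z3 z1 fun g x _ y _ => hB g x y) fun y hy h' => h y hy.1 fun x hx => ?_)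
  · rw [e'] at hd; exact hd.eq_bot_of_le z1
  · obtain ⟨a, ha, b, hb, rfl⟩ := Submodule.mem_sup.1 (e.ge hx)
    rw [map_add, LinearMap.add_apply, h' b hb, add_zero]
    exact hy.2 a ha

end H34
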