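import Cfsg.Agent.H34.KgvE
import Cfsg.Agent.H34.KgvF

/-!
# Weil characters, Gauss sums and the real vector criterion for the k(GV) problem
-/

set_option autoImplicit false
set_option linter.unusedSectionVars false

open scoped ComplexConjugate

namespace H34

open Cfsg H28 H29 H40 Module

theorem sum_conj_mul_eq {X : Type*} [Group X] [Finite X] {χ : X → ℂ} (hχ : IsCharacter X χ)
    {N : Subgroup X} [Fintype N] (hN : IsIrrCharacter N fun n => χ n) (s y : X) :
    (∑ e : N, χ (e * s * (e : X)⁻¹ * y)) * χ 1 = Nat.card N * χ s * χ y := by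
  obtain ⟨n, ρ, rfl⟩ := hχ
  have := isIrreducible_of_isIrrCharacter (ρ.comp N.subtype : Representation ℂ N _) hN
  obtain ⟨c, hc⟩ := exists_eq_smul_id_of_comm (ρ.comp N.subtype : Representation ℂ N _)
    (∑ e : N, ρ (e * s * (e : X)⁻¹)) fun g => by
      show (∑ e : N, ρ (e * s * (e : X)⁻¹)) * ρ g = ρ g * ∑ e : N, ρ (e * s * (e : X)⁻¹)
      rw [Finset.sum_mul, Finset.mul_sum, ← Equiv.sum_comp (Equiv.mulLeft g)]
      exact Finset.sum_congr rfl fun e _ => by
        rw [← map_mul, ← map_mul]; congr 1; simp [mul_assoc]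
  have key : ∀ y, ∑ e : N, ρ.character (e * s * (e : X)⁻¹ * y) = c * ρ.character y := fun y => by
    have := congrArg (fun T => LinearMap.trace ℂ _ (T * ρ y)) hc
    simpa [Finset.sum_mul, Representation.character, ← Module.End.one_eq_id] using this
  have h1 := key 1
  simp only [mul_one, Representation.char_conj, Finset.sum_const, Finset.card_univ, nsmul_eq_mul,
    ← Nat.card_eq_fintype_card] at h1
  rw [key, h1]; ring

theorem weil_abs {X : Type*} [Group X] [Finite X] {p : ℕ} (hp : p.Prime) {N S : Subgroup X}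
    [hN : N.Normal] (hcop : (Nat.card N).Coprime (Nat.card S)) (htop : N ⊔ S = ⊤) {z : X}
    (hz : orderOf z = p) (hzN : z ∈ N) (hzc : z ∈ Subgroup.center X)
    (h1 : ∀ e ∈ N, e ∉ Subgroup.zpowers z → ∃ x ∈ N, x * e * x⁻¹ * e⁻¹ ∈ Subgroup.zpowers z ∧
      x * e * x⁻¹ * e⁻¹ ≠ 1)
    (h2 : ∀ s ∈ S, ∀ e ∈ N, e * s * e⁻¹ * s⁻¹ ∈ Subgroup.zpowers z → e * s * e⁻¹ * s⁻¹ = 1) :
    ∃ χ : X → ℂ, IsCharacter X χ ∧ ∀ s ∈ S, ∃ m : ℤ, χ s = m ∧
      m ^ 2 * p = Nat.card ↥(N ⊓ Subgroup.centralizer ({s} : Set X)) := by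
  classical
  have := Fintype.ofFinite N
  have hZN : Subgroup.zpowers z ≤ N := Subgroup.zpowers_le.2 hzN
  have hZc : Subgroup.zpowers z ≤ Subgroup.center X := Subgroup.zpowers_le.2 hzc
  obtain ⟨θ, hθ, hk⟩ := exists_irr_not_mem_charKer (g := (⟨z, hzN⟩ : N)) fun h =>
    hp.ne_one (by rw [← hz, show z = 1 from congrArg Subtype.val h, orderOf_one])
  have hZ : (Subgroup.zpowers z).subgroupOf N ≤ charCenter θ := fun x hx =>
    hθ.center_le_charCenter (Subgroup.mem_center_iff.2 fun g =>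
      Subtype.ext (Subgroup.mem_center_iff.1 (hZc hx) g))
  have h0 : ∀ e : N, (e : X) ∉ Subgroup.zpowers z → θ e = 0 := fun e he => by
    obtain ⟨x, hx, a, b⟩ := h1 e e.2 he
    refine hθ.isCharacter.isClassFunction.eq_zero_of_commutator (x := ⟨x, hx⟩) (hZ a) fun c => hk ?_
    have : Fact (Nat.card (Subgroup.zpowers z)).Prime := ⟨by rwa [Nat.card_zpowers, hz]⟩
    rcases (((charKer θ).map N.subtype).subgroupOf (Subgroup.zpowers z)).eq_bot_or_eq_top_of_prime_card
      with h | h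
    · have : (⟨_, a⟩ : Subgroup.zpowers z) ∈ ((charKer θ).map N.subtype).subgroupOf _ := ⟨_, c, rfl⟩
      rw [h, Subgroup.mem_bot] at this
      exact absurd (congrArg Subtype.val this) b
    · obtain ⟨y, hy, e⟩ := h.ge (Subgroup.mem_top ⟨z, Subgroup.mem_zpowers z⟩)
      exact (Subtype.ext e : y = ⟨z, hzN⟩) ▸ hy
  have hi := index_eq_card_of_coprime hcop htop
  obtain ⟨χ, hχ, hext, hdet⟩ := H32.exists_canonical_ext hθ (fun g n => by
    by_cases h : (n : X) ∈ Subgroup.zpowers z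
    · congr 1; exact Subtype.ext (by simp [Subgroup.mem_center_iff.1 (hZc h) g])
    · rw [h0 n h, h0]
      intro h'
      have := Subgroup.mem_center_iff.1 (hZc h') g
      simp only [mul_assoc, mul_right_inj, inv_mul_cancel, mul_one] at this
      exact h (this ▸ mul_assoc g n g⁻¹ ▸ h')) hθ.cast_charDegree.symm
    (hi ▸ (hcop.symm.coprime_dvd_right (H32.detOrder_dvd_card θ)).mul_right
      (hcop.symm.coprime_dvd_right hθ.charDegree_dvd_card))
  have hr : IsIrrCharacter N fun n => χ n := by simpa only [hext] using hθ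
  have hd := (hθ.degree_sq_eq_index_iff hZ hθ.cast_charDegree.symm).2 h0
  have hd' : (Nat.card N : ℂ) = θ 1 ^ 2 * p := by
    rw [← ((Subgroup.zpowers z).subgroupOf N).index_mul_card, ← hd,
      Nat.card_congr (Subgroup.subgroupOfEquivOfLe hZN).toEquiv, Nat.card_zpowers, hz,
      ← hθ.cast_charDegree]
    push_cast; rfl
  refine ⟨χ, hχ.isCharacter, fun s hs => ?_⟩
  obtain ⟨m, hm⟩ := exists_int_of_forall_fixed (hχ.isCharacter.isIntegral s) fun σ => by
    obtain ⟨k, k1, k2⟩ := exists_pow_char_of_ringHom X σ.toRingHom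
    have := canon_pow hcop htop hχ hr (hdet ▸ hcop.coprime_dvd_left (H32.detOrder_dvd_card θ))
      (k1.coprime_dvd_right S.card_subgroup_dvd_card) N.one_mem hs (Commute.one_left s)
    rw [one_mul, one_mul] at this
    exact (k2 χ hχ.isCharacter s).trans this
  refine ⟨m, hm, ?_⟩
  have e := sum_conj_mul_eq hχ.isCharacter hr s s⁻¹
  have e1 : χ 1 = θ 1 := hext 1
  have e2 : ∑ e : N, χ (e * s * (e : X)⁻¹ * s⁻¹) =
      Nat.card ↥(N ⊓ Subgroup.centralizer ({s} : Set X)) * θ 1 := by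
    rw [← Nat.card_congr (Subgroup.subgroupOfEquivOfLe (inf_le_left : N ⊓ _ ≤ N)).toEquiv,
      Subgroup.inf_subgroupOf_left, Nat.card_eq_fintype_card, Fintype.card_subtype,
      ← nsmul_eq_mul, ← Finset.sum_const, Finset.sum_filter]
    refine Finset.sum_congr rfl fun e _ => ?_
    have : e ∈ (Subgroup.centralizer ({s} : Set X)).subgroupOf N ↔ e * s * (e : X)⁻¹ * s⁻¹ = 1 := by
      rw [Subgroup.mem_subgroupOf, mem_centralizer_singleton_conj, mul_inv_eq_one]
    split_ifs with h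
    · rw [this.1 h, e1]
    · have hm : e * s * (e : X)⁻¹ * s⁻¹ ∈ N := by
        simpa only [mul_assoc] using N.mul_mem e.2 (hN.conj_mem _ (N.inv_mem e.2) s)
      exact (hext ⟨_, hm⟩).trans (h0 _ fun h' => h (this.2 (h2 s hs e e.2 h')))
  rw [e2, hχ.isCharacter.apply_inv, hm, e1, hd', map_intCast] at e
  have h3 : θ 1 ≠ 0 := by rw [← hθ.cast_charDegree]; exact Nat.cast_ne_zero.2 hθ.charDegree_pos.ne'
  apply Int.cast_injective (α := ℂ)
  push_cast
  apply mul_left_cancel₀ (pow_ne_zero 2 h3)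
  linear_combination -e

section heis

variable {p : ℕ} [hp : Fact p.Prime] {H : Type*} [Group H] {V : Type*} [AddCommGroup V]
  [Module (ZMod p) V] {ρ : Representation (ZMod p) H V} {γ : LinearMap.BilinForm (ZMod p) V}

/-- The Heisenberg group of `γ` extended by `H`. -/
@[ext] structure Hx (hγ : ∀ g x y, γ (ρ g x) (ρ g y) = γ x y) where
  u : V
  a : ZMod p
  h : H

namespace Hx

variable {hγ : ∀ g x y, γ (ρ g x) (ρ g y) = γ x y}

instance : Mul (Hx hγ) := ⟨fun x y => ⟨x.u + ρ x.h y.u, x.a + y.a + γ x.u (ρ x.h y.u), x.h * y.h⟩⟩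
instance : One (Hx hγ) := ⟨⟨0, 0, 1⟩⟩
instance : _root_.Inv (Hx hγ) := ⟨fun x => ⟨-ρ x.h⁻¹ x.u, -x.a + γ x.u x.u, x.h⁻¹⟩⟩

@[simp] theorem mul_u (x y : Hx hγ) : (x * y).u = x.u + ρ x.h y.u := rfl
@[simp] theorem mul_a (x y : Hx hγ) : (x * y).a = x.a + y.a + γ x.u (ρ x.h y.u) := rfl
@[simp] theorem mul_h (x y : Hx hγ) : (x * y).h = x.h * y.h := rfl
@[simp] theorem one_u : (1 : Hx hγ).u = 0 := rfl
@[simp] theorem one_a : (1 : Hx hγ).a = 0 := rfl
@[simp] theorem one_h : (1 : Hx hγ).h = 1 := rfl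
@[simp] theorem inv_u (x : Hx hγ) : x⁻¹.u = -ρ x.h⁻¹ x.u := rfl
@[simp] theorem inv_a (x : Hx hγ) : x⁻¹.a = -x.a + γ x.u x.u := rfl
@[simp] theorem inv_h (x : Hx hγ) : x⁻¹.h = x.h⁻¹ := rfl

instance : Group (Hx hγ) := Group.ofLeftAxioms
  (fun x y z => by
    ext
    · simp [add_assoc]
    · simp [hγ]; ring
    · simp [mul_assoc])
  (fun x => by ext <;> simp) (fun x => by ext <;> simp [hγ])

instance [Finite V] [Finite H] : Finite (Hx hγ) :=
  Finite.of_injective (fun x : Hx hγ => (x.u, x.a, x.h)) fun x y h => by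
    simp only [Prod.mk.injEq] at h; exact Hx.ext h.1 h.2.1 h.2.2

/-- projection -/
def pr : Hx hγ →* H := MonoidHom.mk' (·.h) fun _ _ => rfl

/-- section -/
def sec : H →* Hx hγ := MonoidHom.mk' (fun h => ⟨0, 0, h⟩) fun _ _ => by ext <;> simp

theorem z_pow (n : ℕ) : (⟨0, 1, 1⟩ : Hx hγ) ^ n = ⟨0, n, 1⟩ := by
  induction n with
  | zero => ext <;> simp
  | succ n ih => rw [pow_succ, ih]; ext <;> simp

theorem mem_z [Finite V] [Finite H] {x : Hx hγ} :
    x ∈ Subgroup.zpowers (⟨0, 1, 1⟩ : Hx hγ) ↔ x.u = 0 ∧ x.h = 1 := by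
  rw [← mem_powers_iff_mem_zpowers]
  constructor
  · rintro ⟨n, rfl⟩; simp [z_pow]
  · exact fun h => ⟨x.a.val, by simp only [z_pow]; ext <;> simp [h]⟩

theorem card_cent (h : H) : Nat.card ↥((pr (hγ := hγ)).ker ⊓
    Subgroup.centralizer ({sec h} : Set (Hx hγ))) = Nat.card {x // ρ h x = x} * p := by
  refine Eq.trans ?_ ((Nat.card_prod {x // ρ h x = x} (ZMod p)).trans (by rw [Nat.card_zmod]))
  refine Nat.card_congr ⟨fun x => (⟨x.1.u, ?_⟩, x.1.a), fun q => ⟨⟨q.1, q.2, 1⟩, rfl,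
    mem_centralizer_singleton.2 ?_⟩, fun x => Subtype.ext (Hx.ext rfl rfl x.2.1.symm), fun q => rfl⟩
  · simpa [sec] using (congrArg Hx.u (mem_centralizer_singleton.1 x.2.2)).symm
  · ext <;> simp [sec, q.1.2]

end Hx

theorem exists_weil [Finite V] [Finite H] (hH : ¬ p ∣ Nat.card H)
    (hγ : ∀ g x y, γ (ρ g x) (ρ g y) = γ x y) (hnd : ∀ x, (∀ y, γ x y = γ y x) → x = 0) :
    ∃ f : H → ℂ, IsCharacter H f ∧ ∀ h, ∃ m : ℤ, f h = m ∧ m ^ 2 = Nat.card {x // ρ h x = x} := by
  have h1 := Hx.card_cent (hγ := hγ) 1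
  rw [map_one, inf_eq_left.2 fun x _ => mem_centralizer_singleton.2 (by simp)] at h1
  have h2 : Nat.card {x // ρ 1 x = x} = Nat.card V :=
    Nat.card_congr (Equiv.subtypeUnivEquiv fun x => by simp)
  have hs : Function.Injective (Hx.sec (hγ := hγ)) := fun a b h => congrArg Hx.h h
  obtain ⟨χ, hχ, h3⟩ := weil_abs hp.out (N := (Hx.pr (hγ := hγ)).ker) (S := Hx.sec.range)
    (z := ⟨0, 1, 1⟩) (by
      rw [h1, h2, Module.natCard_eq_pow_finrank (K := ZMod p), Nat.card_zmod, ← pow_succ,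
        ← Nat.card_congr (MonoidHom.ofInjective hs).toEquiv]
      exact ((Nat.Prime.coprime_iff_not_dvd hp.out).2 hH).pow_left _)
    (eq_top_iff.2 fun x _ => by
      rw [show x = ⟨x.u, x.a, 1⟩ * Hx.sec x.h by ext <;> simp [Hx.sec]]
      exact Subgroup.mul_mem_sup rfl ⟨_, rfl⟩)
    (orderOf_eq_prime (by rw [Hx.z_pow]; ext <;> simp) fun h => one_ne_zero (congrArg Hx.a h)) rfl
    (Subgroup.mem_center_iff.2 fun g => by ext <;> simp [add_comm]) 
    (fun e (he : e.h = 1) hz => by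
      have : ¬ ∀ y, γ e.u y = γ y e.u := fun h => hz (Hx.mem_z.2 ⟨hnd _ h, he⟩)
      push Not at this
      obtain ⟨y, hy⟩ := this
      refine ⟨⟨y, 0, 1⟩, rfl, Hx.mem_z.2 (by simp [he]), fun h => hy ?_⟩
      have := congrArg Hx.a h
      simp [he] at this
      linear_combination -this)
    (by
      rintro _ ⟨h, rfl⟩ e (he : e.h = 1) hz
      have := (Hx.mem_z.1 hz).1
      simp [he, Hx.sec, add_neg_eq_zero] at this
      ext <;> simp [he, Hx.sec, ← this])
  refine ⟨_, hχ.comp Hx.sec, fun h => ?_⟩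
  obtain ⟨m, m1, m2⟩ := h3 _ ⟨h, rfl⟩
  rw [Hx.card_cent, Nat.cast_mul] at m2
  exact ⟨m, m1, mul_right_cancel₀ (Nat.cast_ne_zero.2 hp.out.ne_zero) m2⟩

theorem exists_inv_half [Finite V] [Fintype H]
    {A : LinearMap.BilinForm (ZMod p) V} (hA : ∀ x, A x x = 0)
    (hi : ∀ g x y, A (ρ g x) (ρ g y) = A x y) : ∃ γ : LinearMap.BilinForm (ZMod p) V,
      (∀ g x y, γ (ρ g x) (ρ g y) = γ x y) ∧ ∀ x y, γ x y - γ y x = Nat.card H * A x y := by
  have : Module.Finite (ZMod p) V := Module.Finite.of_finite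
  let b := Module.finBasis (ZMod p) V
  let β : LinearMap.BilinForm (ZMod p) V :=
    Matrix.toBilin b (Matrix.of fun i j => if i < j then A (b i) (b j) else 0)
  have hβ : β - β.flip = A := LinearMap.BilinForm.ext_basis b fun i j => by
    have : ∀ i j, β (b i) (b j) = if i < j then A (b i) (b j) else 0 := fun i j =>
      (LinearMap.BilinForm.toMatrix_apply b β i j).symm.trans
        (by rw [LinearMap.BilinForm.toMatrix_toBilin]; rfl)
    simp only [LinearMap.sub_apply, LinearMap.BilinForm.flip_apply, this]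
    rcases lt_trichotomy i j with h | rfl | h
    · simp [h, h.not_gt]
    · simp [hA]
    · simp [h, h.not_gt, LinearMap.IsAlt.neg hA]
  refine ⟨∑ g, β.comp (ρ g) (ρ g), fun g x y => ?_, fun x y => ?_⟩
  · simp only [LinearMap.sum_apply, LinearMap.BilinForm.comp_apply]
    rw [← Equiv.sum_comp (Equiv.mulRight g) fun h => β (ρ h x) (ρ h y)]
    simp
  · simp only [LinearMap.sum_apply, LinearMap.BilinForm.comp_apply, ← Finset.sum_sub_distrib]
    rw [Finset.sum_congr rfl fun g _ => (show _ = A x y by rw [← hi g, ← hβ]; rfl)]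
    simp

end heis

section good

variable {p : ℕ} [hp : Fact p.Prime] {H : Type*} [Group H] [Fintype H]
  {V : Type*} [AddCommGroup V] [Module (ZMod p) V] [Finite V] {ρ : Representation (ZMod p) H V}

theorem card_fix_eq (h : H) :
    Nat.card {x // ρ h x = x} = Nat.card (LinearMap.ker (ρ h - 1)) :=
  Nat.card_congr (Equiv.subtypeEquivRight fun x => by simp [sub_eq_zero])

theorem card_ker_mul (T : V →ₗ[ZMod p] V) :
    Nat.card (LinearMap.range T) * Nat.card (LinearMap.ker T) = Nat.card V := by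
  rw [← Nat.card_congr T.quotKerEquivRange.toEquiv, mul_comm,
    ← Submodule.card_eq_card_quotient_mul_card]

theorem dvd_card_range {T : V →ₗ[ZMod p] V} (hT : T ≠ 0) : p ∣ Nat.card (LinearMap.range T) := by
  rw [Module.natCard_eq_pow_finrank (K := ZMod p), Nat.card_zmod]
  exact dvd_pow_self _ fun h => hT (LinearMap.range_eq_bot.1 (Submodule.finrank_eq_zero.1 h))

theorem exists_good_alt (hH : ¬ p ∣ Nat.card H) {A : LinearMap.BilinForm (ZMod p) V}
    (hA : ∀ x, A x x = 0) (hi : ∀ g x y, A (ρ g x) (ρ g y) = A x y)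
    (hnd : ∀ x, (∀ y, A x y = 0) → x = 0) : ∃ g, KGood ρ g := by
  obtain ⟨γ, h1, h2⟩ := exists_inv_half hA hi
  obtain ⟨f, hf, h3⟩ := exists_weil hH h1 fun x hx => hnd x fun y => by
    have := h2 x y
    rw [hx, sub_self] at this
    exact (mul_eq_zero.1 this.symm).resolve_left fun h => hH ((ZMod.natCast_eq_zero_iff _ _).1 h)
  choose m m1 m2 using h3
  have m3 : ∀ h, m 1 ^ 2 = Nat.card (LinearMap.range (ρ h - 1)) * m h ^ 2 := fun h => by
    rw [m2, m2, card_fix_eq h, ← Nat.cast_mul, card_ker_mul]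
    exact congrArg _ (Nat.card_congr (Equiv.subtypeUnivEquiv fun x => by simp))
  have m0 : ∀ h, m h ≠ 0 := fun h e => by
    have := m2 h
    rw [e, card_fix_eq] at this
    exact Nat.card_pos.ne' (by exact_mod_cast this.symm)
  have : ∀ h, ∃ n, m 1 = m h * n := fun h => (Int.pow_dvd_pow_iff two_ne_zero).1 (m3 h ▸ dvd_mul_left ..)
  choose n hn using this
  have n1 : ∀ h, n h ^ 2 = Nat.card (LinearMap.range (ρ h - 1)) := fun h =>
    mul_right_cancel₀ (pow_ne_zero 2 (m0 h)) (by rw [← m3, hn h]; ring)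
  have n2 : n 1 = 1 := mul_left_cancel₀ (m0 1) (by rw [← hn, mul_one])
  refine ⟨fun h => n h, (as_char hf).of_mul_eq ((Nat.Prime.coprime_iff_not_dvd hp.out).2 hH)
    (fun h => ⟨finrank (ZMod p) (LinearMap.ker (ρ h - 1)), ?_⟩) hp.out.ne_zero
    (isIntegral_algebraMap (x := m 1)) (fun h => by rw [m1, ← Int.cast_mul, ← hn]; rfl)
    fun h => isIntegral_algebraMap (x := n h), fun σ h => le_of_eq ?_,
    by simpa [n2] using isIntegral_one, by simp [n2], fun h hh => ?_⟩
  · rw [m1, map_intCast, ← sq, ← Int.cast_pow, m2, card_fix_eq,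
      Module.natCard_eq_pow_finrank (K := ZMod p), Nat.card_zmod]
    simp
  · rw [map_intCast, Complex.norm_intCast, sq_abs, ← Int.cast_pow, n1, card_fix_eq,
      ← card_ker_mul (V := V) (p := p) (ρ h - 1), Int.cast_natCast, Nat.cast_mul]
  · obtain ⟨k, hk⟩ := (Nat.prime_iff_prime_int.1 hp.out).dvd_of_dvd_pow
      (n1 h ▸ Int.natCast_dvd_natCast.2 (dvd_card_range (sub_ne_zero.2 hh)))
    simpa [hk] using pnil_natCast_mul p (isIntegral_algebraMap (x := k))

theorem gauss_norm (h2 : (2 : ZMod p) ≠ 0) {W : Type*} [AddCommGroup W] [Module (ZMod p) W]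
    [Fintype W] {S : LinearMap.BilinForm (ZMod p) W} (hs : ∀ x y, S x y = S y x)
    (hnd : ∀ x, (∀ y, S x y = 0) → x = 0) {ψ : AddChar (ZMod p) ℂ} (hψ : ψ.IsPrimitive) :
    (∑ x, ψ (S x x)) * conj (∑ x, ψ (S x x)) = Nat.card W := by
  classical
  rw [map_sum, Finset.sum_mul_sum, Finset.sum_comm]
  have e : ∀ y, ∑ x, ψ (S x x) * conj (ψ (S y y)) = ∑ d, ψ (S d d) * ψ (2 * S d y) := fun y => by
    rw [← Equiv.sum_comp (Equiv.addRight y)]
    refine Finset.sum_congr rfl fun d _ => ?_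
    rw [← AddChar.map_neg_eq_conj, ← AddChar.map_add_eq_mul, ← AddChar.map_add_eq_mul]
    congr 1
    simp [hs y d]; ring
  rw [Finset.sum_congr rfl fun y _ => e y, Finset.sum_comm, Finset.sum_eq_single 0]
  · simp
  · intro d _ hd
    rw [← Finset.mul_sum]
    refine mul_eq_zero_of_right _ ((AddChar.sum_eq_zero_iff_ne_zero
      (ψ := (ψ.mulShift 2).compAddMonoidHom (S d).toAddMonoidHom)).2 fun h => hd (hnd d fun y => ?_))
    by_contra h0
    refine hψ (mul_ne_zero h2 h0) (AddChar.ext _ _ fun t => ?_)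
    simpa [mul_assoc, mul_comm t] using DFunLike.congr_fun h (t • y)
  · simp

theorem isCompl_fix (hH : ¬ p ∣ Nat.card H) (h : H) :
    IsCompl (LinearMap.ker (ρ h - 1)) (LinearMap.range (ρ h - 1)) := by
  have : Module.Finite (ZMod p) V := Module.Finite.of_finite
  refine (Submodule.isCompl_iff_disjoint _ _ (by
    rw [add_comm, LinearMap.finrank_range_add_finrank_ker])).2 (Submodule.disjoint_def.2 ?_)
  rintro _ hx ⟨y, rfl⟩
  set x := (ρ h - 1) y with e
  have h1 : ρ h x = x := by simpa [sub_eq_zero] using hx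
  have key : ∀ n : ℕ, ρ (h ^ n) y = y + (n : ZMod p) • x := fun n => by
    induction n with
    | zero => simp
    | succ n ih =>
      rw [pow_succ', map_mul, Module.End.mul_apply, ih, map_add, map_smul, h1, Nat.cast_succ,
        add_smul, one_smul, show ρ h y = y + x by simp [e]]
      abel
  have := key (Nat.card H)
  rw [pow_card_eq_one', map_one, Module.End.one_apply, left_eq_add, smul_eq_zero] at this
  exact this.resolve_left fun h => hH ((ZMod.natCast_eq_zero_iff _ _).1 h)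

theorem exists_good_symm (hH : ¬ p ∣ Nat.card H) (h2 : (2 : ZMod p) ≠ 0)
    {S : LinearMap.BilinForm (ZMod p) V} (hs : ∀ x y, S x y = S y x)
    (hi : ∀ g x y, S (ρ g x) (ρ g y) = S x y) (hnd : ∀ x, (∀ y, S x y = 0) → x = 0) :
    ∃ g, KGood ρ g := by
  classical
  have := Fintype.ofFinite V
  let ψ := ZMod.stdAddChar (N := p)
  have hψ : ψ.IsPrimitive := ZMod.isPrimitive_stdAddChar p
  have hψp : ∀ x, ψ x ^ p ^ 1 = 1 := fun x => by
    rw [pow_one, ← AddChar.map_nsmul_eq_pow, nsmul_eq_mul, CharP.cast_eq_zero, zero_mul,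
      AddChar.map_zero_eq_one]
  have hψi : ∀ x, IsIntegral ℤ (ψ x) := fun x =>
    IsIntegral.of_pow (pow_pos hp.out.pos 1) (by rw [hψp]; exact isIntegral_one)
  have ho : ∀ h, ∀ x ∈ LinearMap.ker (ρ h - 1), ∀ y ∈ LinearMap.range (ρ h - 1), S x y = 0 := by
    rintro h x hx _ ⟨y, rfl⟩
    have h1 : ρ h x = x := by simpa [sub_eq_zero] using hx
    rw [LinearMap.sub_apply, map_sub, Module.End.one_apply, ← hi h x y, h1, sub_self]
  have key : ∀ {U W : Submodule (ZMod p) V} [Fintype U], IsCompl U W → (∀ x ∈ U, ∀ y ∈ W, S x y = 0) →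
      ∀ {φ : AddChar (ZMod p) ℂ}, φ.IsPrimitive →
        (∑ x : U, φ (S x x)) * conj (∑ x : U, φ (S x x)) = Nat.card U := fun {U W} _ hc h φ hφ =>
    gauss_norm h2 (S := S.restrict U) (fun x y => hs x y) (fun x hx => Subtype.ext (hnd x fun y => by
      obtain ⟨a, ha, b, hb, rfl⟩ := Submodule.mem_sup.1 (hc.sup_eq_top.ge (Submodule.mem_top (x := y)))
      rw [map_add, h x x.2 b hb, add_zero]; exact hx ⟨a, ha⟩)) hφ
  have hf : AS fun h => ∑ x : LinearMap.ker (ρ h - 1), ψ (S x x) := by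
    have : ∀ c, AS fun h => (Nat.card {x // S x x = c ∧ ρ h x = x} : ℂ) := fun c => by
      let _ : MulAction H {x // S x x = c} :=
        { smul := fun h x => ⟨ρ h x, (hi h x x).trans x.2⟩
          one_smul := fun x => Subtype.ext (LinearMap.congr_fun (map_one ρ) x.1)
          mul_smul := fun a b x => Subtype.ext (LinearMap.congr_fun (map_mul ρ a b) x.1) }
      convert as_char (isCharacter_perm (G := H) {x // S x x = c}) using 3 with h
      exact Nat.card_congr ((Equiv.subtypeSubtypeEquivSubtypeInter _ _).symm.trans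
        (Equiv.subtypeEquivRight fun x => ⟨fun h => Subtype.ext h, congrArg Subtype.val⟩))
    convert as_sum Finset.univ fun c _ => (this c).smul (hψi c) using 1
    ext h
    rw [← Finset.sum_fiberwise (s := Finset.univ) (g := fun x : LinearMap.ker (ρ h - 1) => S x x),
      Finset.sum_apply]
    refine Finset.sum_congr rfl fun c _ => ?_
    rw [Finset.sum_congr rfl fun x hx => congrArg ψ (Finset.mem_filter.1 hx).2, Finset.sum_const,
      nsmul_eq_mul, mul_comm, Pi.smul_apply, smul_eq_mul, ← Fintype.card_subtype,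
      ← Nat.card_eq_fintype_card]
    congr 2
    exact Nat.card_congr ((Equiv.subtypeSubtypeEquivSubtypeInter _ fun x => S x x = c).trans
      (Equiv.subtypeEquivRight fun x => by simp [sub_eq_zero, and_comm]))
  have g1 : ∑ x : LinearMap.range (ρ 1 - 1), ψ (S x x) = 1 := by
    rw [Finset.sum_eq_single 0 (fun x _ hx => absurd (Subtype.ext (by simpa using x.2)) hx)
      (by simp)]
    simp
  refine ⟨fun h => ∑ x : LinearMap.range (ρ h - 1), ψ (S x x),
    hf.of_mul_eq ((Nat.Prime.coprime_iff_not_dvd hp.out).2 hH)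
    (fun h => ⟨finrank (ZMod p) (LinearMap.ker (ρ h - 1)), ?_⟩) hp.out.ne_zero
    (c := ∑ x, ψ (S x x)) (IsIntegral.sum _ fun _ _ => hψi _) (fun h => ?_)
    fun h => IsIntegral.sum _ fun _ _ => hψi _, fun σ h => le_of_eq ?_,
    by rw [g1, inv_one]; exact isIntegral_one, by rw [g1]; exact one_ne_zero, fun h hh => ?_⟩
  · rw [key (isCompl_fix hH h) (ho h) hψ, Module.natCard_eq_pow_finrank (K := ZMod p),
      Nat.card_zmod, Nat.cast_pow]
  · rw [Finset.sum_mul_sum, ← Fintype.sum_prod_type',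
      ← (Submodule.prodEquivOfIsCompl _ _ (isCompl_fix (ρ := ρ) hH h)).toEquiv.sum_comp
        fun x => ψ (S x x)]
    refine Finset.sum_congr rfl fun q _ => ?_
    rw [← AddChar.map_add_eq_mul]
    congr 1
    show _ = S (q.1 + q.2) (q.1 + q.2)
    simp [ho h _ q.1.2 _ q.2.2, hs q.2 q.1]
  · have := key (isCompl_fix hH h).symm (fun x hx y hy => (hs x y).trans (ho h y hy x hx))
      (hψ.compMulHom_of_isPrimitive (f := σ.toRingHom.toMonoidHom) σ.injective)
    rw [Complex.mul_conj, Complex.normSq_eq_norm_sq] at this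
    rw [card_fix_eq, ← card_ker_mul (V := V) (p := p) (ρ h - 1), map_sum, Nat.cast_mul]
    congr 1
    exact_mod_cast this
  · obtain ⟨k, hk⟩ := dvd_card_range (sub_ne_zero.2 hh)
    have := (pnil_sum Finset.univ _ fun (x : LinearMap.range (ρ h - 1)) _ =>
      pnil_sub_one hp.out (hψp (S x x))).add (pnil_natCast_mul p (isIntegral_natCast k))
    rwa [Finset.sum_sub_distrib, Finset.sum_const, Finset.card_univ, ← Nat.card_eq_fintype_card, hk,
      nsmul_one, Nat.cast_mul, sub_add_cancel] at this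

theorem exists_good_selfdual (hH : ¬ p ∣ Nat.card H) {B : LinearMap.BilinForm (ZMod p) V}
    (hi : ∀ g x y, B (ρ g x) (ρ g y) = B x y) (hnd : ∀ x, (∀ y, B x y = 0) → x = 0) :
    ∃ g, KGood ρ g := by
  have : NeZero (Nat.card H : ZMod p) := ⟨fun h => hH ((ZMod.natCast_eq_zero_iff _ _).1 h)⟩
  have : Module.Finite (ZMod p) V := Module.Finite.of_finite
  obtain ⟨U, W, h1, h2, h3, h4, ⟨A, a1, a2, a3⟩, ⟨S, s1, s2, s3⟩, h7⟩ := exists_dec_forms
    (B := B.flip) (fun g x y => hi g y x) ⊤ (fun _ _ _ => trivial)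
    fun y _ h => hnd y fun x => h x trivial
  obtain ⟨g, hg⟩ := exists_good_alt (ρ := Subrepresentation.toRepresentation ⟨U, h3⟩) hH
    (A := A.restrict U) (fun x => a1 x) (fun g x y => a2 g x x.2 y y.2)
    fun x hx => Subtype.ext (a3 x x.2 fun y hy => hx ⟨y, hy⟩)
  have : ∃ g, KGood (Subrepresentation.toRepresentation (ρ := ρ) ⟨W, h4⟩) g := by
    by_cases h : (2 : ZMod p) = 0
    · exact ⟨1, good_triv fun x => LinearMap.ext fun w => Subtype.ext (h7 h x w w.2)⟩
    · exact exists_good_symm hH h (S := S.restrict W) (fun x y => s1 x y)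
        (fun g x y => s2 g x x.2 y y.2) fun x hx => Subtype.ext (s3 x x.2 fun y hy => hx ⟨y, hy⟩)
  obtain ⟨g', hg'⟩ := this
  exact ⟨_, hg.mul ⟨h1, codisjoint_iff.2 h2⟩ hg'⟩

end good

end H34
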