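import Cfsg.Agent.H51.KSSpec

/-! Tower KS: job D2A. -/

set_option autoImplicit false

namespace H34.Ks

open Module Submodule H53.CK H51.KL H54 H26.MS H51.KS

universe u v

variable {F : Type u} [Field F] {V : Type v} [AddCommGroup V] [Module F V]
  {B : LinearMap.BilinForm F V} {K : Subgroup (V ≃ₗ[F] V)} {x y y' : V}

/-- The form of an isometry moving inside a totally isotropic line. -/
theorem form2 [FiniteDimensional F V] (S : Sy B) {g : V ≃ₗ[F] V} (hg : g ∈ Isom B)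
    (hi : Ind F x y) (h0 : B x y = 0) (hs : Sm g (span F {x, y})) : ∃ α β δ : F, ∀ v,
      g v = v + (α * B x v + β * B y v) • x + (β * B x v + δ * B y v) • y := by
  obtain ⟨p, p1, p2⟩ := exists_partner S.alt S.nd (H62.notMem_span_symm hi.1 hi.2)
  obtain ⟨r, r1, r2⟩ := exists_partner S.alt S.nd hi.2
  replace p2 := p2 y (mem_span_singleton_self y)
  replace r2 := r2 x (mem_span_singleton_self x)
  obtain ⟨α, β, e1⟩ := mem_span_pair.1 (hs p)
  obtain ⟨β', δ, e2⟩ := mem_span_pair.1 (hs r)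
  replace e1 := (eq_sub_iff_add_eq.1 e1).symm
  replace e2 := (eq_sub_iff_add_eq.1 e2).symm
  have e3 := hg p r
  simp only [e1, e2, map_add, map_smul, LinearMap.add_apply, LinearMap.smul_apply, smul_eq_mul,
    S.alt.self_eq_zero, h0, r1, r2, ← S.alt.neg_eq x y, ← S.alt.neg_eq x p, ← S.alt.neg_eq y p,
    p1, p2] at e3
  obtain rfl : β = β' := by linear_combination e3
  refine ⟨α, β, δ, fun v => ?_⟩
  have := Sm.fix S hg hs (w := v - B x v • p - B y v • r) fun u hu => by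
    obtain ⟨c, d, rfl⟩ := mem_span_pair.1 hu
    simp [p1, p2, r1, r2]
  rw [map_sub, map_sub, map_smul, map_smul, e1, e2] at this
  linear_combination (norm := module) this

theorem dl_cases [FiniteDimensional F V] (S : Sy B) (hK : K ≤ Isom B) (hN : NoTv K)
    (h : DL B K x y) : (∃ β : F, β ≠ 0 ∧ β • y ∈ Yz S.alt K x) ∨
      ∃ t c δ : F, δ ≠ 0 ∧ ee S.alt x 0 c * ee S.alt (y + t • x) 0 δ ∈ K := by
  obtain ⟨hi, h0, g, hg, g1, hs⟩ := h
  obtain ⟨α, β, δ, e⟩ := form2 S (hK hg) hi h0 hs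
  rcases eq_or_ne δ 0 with rfl | hd
  · refine Or.inl ⟨β, ?_, by simp [h0], α, ?_⟩
    · rintro rfl
      exact g1 (hN x g hg fun v => by simp [e, smul_mem, mem_span_singleton_self])
    · convert hg
      ext v
      rw [e, ee_apply S.alt (by simp [h0])]
      simp only [map_smul, LinearMap.smul_apply, smul_eq_mul]
      module
  · refine Or.inr ⟨β / δ, α - β ^ 2 / δ, δ, hd, ?_⟩
    convert hg
    ext v
    simp only [e, LinearEquiv.mul_apply, tv_apply, map_add, map_smul, LinearMap.add_apply,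
      LinearMap.smul_apply, smul_eq_mul, h0, S.alt.self_eq_zero]
    match_scalars <;> field_simp <;> ring

theorem yz_perp (S : Sy B) (hN : NoTv K) {z : V} (hz : z ≠ 0) (h : y ∈ Yz S.alt K z)
    (h' : y' ∈ Yz S.alt K z) : B y y' = 0 := by
  simpa [S.two] using NoTv.ee S.alt S.nd hN hz (two_mul_mem_Rz S.alt h h')

theorem case2 (S : Sy B) (hK : K ≤ Isom B) (hN : NoTv K) (hx : x ≠ 0) (h0 : B x y = 0) {c δ : F}
    (hd : δ ≠ 0) (hg : ee S.alt x 0 c * ee S.alt y 0 δ ∈ K) (h : y' ∈ Yz S.alt K x) :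
    B y y' = 0 := by
  obtain ⟨h1, a, ha⟩ := id h
  have e := mem_conj S.alt (hK hg) hg ha
  simp only [LinearEquiv.mul_apply, tv_apply, map_add, map_smul, h0, h1, S.alt.isRefl _ _ h0,
    S.alt.self_eq_zero, mul_zero, zero_smul, add_zero] at e
  have := yz_perp S hN hx h ⟨by simp [h0, h1], a, e⟩
  simpa [S.alt.self_eq_zero, ← S.alt.neg_eq y y', hd] using this

/-- The family of hyperbolic lines. -/
structure Fam (B : LinearMap.BilinForm F V) (K : Subgroup (V ≃ₗ[F] V)) (L : Submodule F V) :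
    Prop where
  rk : finrank F L = 2
  hyp : ∀ w ∈ L, w ≠ 0 → ∃ u ∈ L, B w u ≠ 0
  inv : ∃ j ∈ K, (∀ v ∈ L, j v = -v) ∧ ∀ v, (∀ u ∈ L, B u v = 0) → j v = v
  mv : ∀ w ∈ L, w ≠ 0 → ∃ h ∈ K, Sm h L ∧ h w ∉ F ∙ w

theorem Fam.map {L : Submodule F V} (hK : K ≤ Isom B) (h : Fam B K L) {k : V ≃ₗ[F] V}
    (hk : k ∈ K) : Fam B K (L.map (k : V →ₗ[F] V)) where
  rk := by rw [LinearEquiv.finrank_map_eq, h.rk]
  hyp := by
    rintro _ ⟨w, hw, rfl⟩ w0
    obtain ⟨u, hu, e⟩ := h.hyp w hw (by rintro rfl; simp at w0)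
    exact ⟨k u, ⟨u, hu, rfl⟩, by rwa [← hK hk w u] at e⟩
  inv := by
    obtain ⟨j, hj, j1, j2⟩ := h.inv
    refine ⟨k * j * k⁻¹, K.mul_mem (K.mul_mem hk hj) (K.inv_mem hk), ?_, fun v hv => ?_⟩
    · rintro _ ⟨w, hw, rfl⟩
      simp [j1 w hw]
    · obtain ⟨v, rfl⟩ := k.surjective v
      simp [j2 v fun u hu => (hK hk u v).symm.trans (hv _ ⟨u, hu, rfl⟩)]
  mv := by
    rintro _ ⟨w, hw, rfl⟩ w0
    obtain ⟨g, hg, g1, g2⟩ := h.mv w hw (by rintro rfl; simp at w0)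
    refine ⟨k * g * k⁻¹, K.mul_mem (K.mul_mem hk hg) (K.inv_mem hk), g1.conj k, fun e => g2 ?_⟩
    obtain ⟨c, e⟩ := mem_span_singleton.1 e
    exact mem_span_singleton.2 ⟨c, k.injective (by simpa using e)⟩

theorem ind_of_ne (hA : B.IsAlt) (h : B x y ≠ 0) : Ind F x y :=
  ⟨by rintro rfl; simp at h, fun e => by
    obtain ⟨c, rfl⟩ := mem_span_singleton.1 e
    simp [hA.self_eq_zero] at h⟩

theorem eq_span [FiniteDimensional F V] (hA : B.IsAlt) {L : Submodule F V} (h : finrank F L = 2)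
    (hx : x ∈ L) (hy : y ∈ L) (e : B x y ≠ 0) : span F {x, y} = L :=
  eq_of_le_of_finrank_eq (span_le.2 (Set.pair_subset hx hy))
    ((H38.KL.rk2 (ind_of_ne hA e)).trans h.symm)

theorem Fam.il [FiniteDimensional F V] (hA : B.IsAlt) {L : Submodule F V} (h : finrank F L = 2)
    {j : V ≃ₗ[F] V} (j1 : ∀ v ∈ L, j v = -v) (j2 : ∀ v, (∀ u ∈ L, B u v = 0) → j v = v)
    (hx : x ∈ L) (hy : y ∈ L) (e : B x y ≠ 0) : IL B x y j :=
  ⟨j1 x hx, j1 y hy, fun v e1 e2 => j2 v fun u hu => by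
    obtain ⟨c, d, rfl⟩ := mem_span_pair.1 ((eq_span hA h hx hy e).ge hu)
    simp [e1, e2]⟩

theorem Fam.uniq [Finite F] [FiniteDimensional F V] (hI : JobIL.{u, v}) (S : Sy B)
    (hK : K ≤ Isom B) (hN : NoTv K) {L L' : Submodule F V} (h : Fam B K L) (h' : Fam B K L')
    (hx : x ∈ L) (hx' : x ∈ L') (x0 : x ≠ 0) : L' = L := by
  obtain ⟨u, hu, e⟩ := h.hyp x hx x0
  obtain ⟨u', hu', e'⟩ := h'.hyp x hx' x0
  obtain ⟨j, hj, j1, j2⟩ := h.inv
  obtain ⟨j', hj', j1', j2'⟩ := h'.inv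
  have eL := eq_span S.alt h.rk hx hu e
  by_contra ne
  obtain ⟨z, z0, z1, z2, hz⟩ := (hI F V B S K hK).2.1 x u u' e e' (fun m => ne
    ((eq_span S.alt h'.rk hx' hu' e').symm.trans (eq_span S.alt h.rk hx (eL ▸ m) e'))) j hj j' hj'
    (Fam.il S.alt h.rk j1 j2 hx hu e) (Fam.il S.alt h'.rk j1' j2' hx' hu' e')
  obtain ⟨g, hg, g1, g2⟩ := h.mv x hx x0
  have gz : g z = z := Sm.fix S (hK hg) g1 fun w hw => by
    obtain ⟨c, d, rfl⟩ := mem_span_pair.1 (eL.ge hw)
    simp [z1, z2]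
  have e1 := mem_conj S.alt (hK hg) hg hz
  have z3 := S.alt.isRefl _ _ z1
  have e2 := yz_perp S hN z0 ⟨z3, 0, hz⟩ ⟨by rw [← gz, hK hg, z3], 0, gz ▸ e1⟩
  obtain ⟨c, d, e3⟩ := mem_span_pair.1 (eL.ge (by simpa using add_mem (g1 x) hx : g x ∈ L))
  rw [← e3] at e2 g2
  simp only [map_add, map_smul, S.alt.self_eq_zero, smul_eq_mul, mul_zero, zero_add, mul_eq_zero,
    e, or_false] at e2
  exact g2 (by simp [e2, smul_mem, mem_span_singleton_self])

theorem Fam.false [Finite F] [FiniteDimensional F V] (hI : JobIL.{u, v}) (hH : JobHS.{u, v})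
    (S : Sy B) (hn : 5 ≤ finrank F V) (hK : K ≤ Isom B) (hN : NoTv K) (hP : PP K)
    {L : Submodule F V} (h : Fam B K L) (hx : x ∈ L) (x0 : x ≠ 0) : False := by
  have ex : ∀ w : V, ∃ M : Submodule F V, w ≠ 0 → Fam B K M ∧ w ∈ M := fun w => by
    rcases eq_or_ne w 0 with rfl | w0
    · exact ⟨⊥, fun e => absurd rfl e⟩
    obtain ⟨k, hk, e⟩ := hP x w x0 w0
    obtain ⟨c, c0, e⟩ := exists_coef x0 e
    exact ⟨_, fun _ => ⟨h.map hK hk, c⁻¹ • x, smul_mem _ _ hx, by simp [e, c0]⟩⟩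
  choose M hM using ex
  refine hH F V B S hn M fun w w0 => ?_
  obtain ⟨m, hw⟩ := hM w w0
  obtain ⟨j, hj, j1, j2⟩ := m.inv
  obtain ⟨u, hu, e⟩ := m.hyp w hw w0
  refine ⟨hw, m.rk, ⟨u, hu, e⟩, j, hK hj, fun v => ?_, fun v hv e => ?_, fun y y0 e v hv => ?_⟩
  · rw [(Fam.il S.alt m.rk j1 j2 hw hu e).apply S.alt e]
    convert sub_mem (smul_mem _ (2 * (B v w / B w u)) hu) (smul_mem _ (2 * (B v u / B w u)) hw)
      using 1
    abel
  · have : (2 : F) • v = 0 := by linear_combination (norm := module) j1 v hv - e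
    simpa [S.two] using this
  · obtain ⟨m', hy⟩ := hM y y0
    rw [Fam.uniq hI S hK hN (m'.map hK hj) m' ⟨y, hy, e⟩ hy y0]
    exact ⟨v, hv, rfl⟩

theorem move_pt (S : Sy B) (h0 : B x y = 0) (h0' : B x y' = 0) (h : B y y' ≠ 0) {c δ c' δ' : F}
    (hd : δ ≠ 0) (hd' : δ' ≠ 0) (hg : ee S.alt x 0 c * ee S.alt y 0 δ ∈ K)
    (hg' : ee S.alt x 0 c' * ee S.alt y' 0 δ' ∈ K) {w : V} (hw : w ∈ span F {y, y'})
    (e : B y w ≠ 0) : ∃ h ∈ K, Sm h (span F {y, y'}) ∧ h w ∉ F ∙ w := by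
  by_contra! H
  set g := ee S.alt x 0 c * ee S.alt y 0 δ with eg
  set g' := ee S.alt x 0 c' * ee S.alt y' 0 δ' with eg'
  have gi : g⁻¹ = ee S.alt x 0 (-c) * ee S.alt y 0 (-δ) := by
    rw [inv_eq_iff_mul_eq_one]
    ext v
    simp [eg, tv_apply, h0, S.alt.isRefl _ _ h0, S.alt.self_eq_zero]
    abel
  have gi' : g'⁻¹ = ee S.alt x 0 (-c') * ee S.alt y' 0 (-δ') := by
    rw [inv_eq_iff_mul_eq_one]
    ext v
    simp [eg', tv_apply, h0', S.alt.isRefl _ _ h0', S.alt.self_eq_zero]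
    abel
  have my : y ∈ span F {y, y'} := subset_span (by simp)
  have my' : y' ∈ span F {y, y'} := subset_span (by simp)
  have hk : g * g' * g⁻¹ * g'⁻¹ ∈ K := K.mul_mem (K.mul_mem (K.mul_mem hg hg') (K.inv_mem hg))
    (K.inv_mem hg')
  have ek : ∀ v, (g * g' * g⁻¹ * g'⁻¹) v = v +
      (δ * δ' * B y y' * (B y' v - δ * B y' y * (B y v - δ' * B y' v * B y y'))) • y +
      (δ * δ' * B y' y * (δ' * B y y' * B y' v - B y v)) • y' := fun v => by
    rw [gi, gi']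
    simp only [eg, eg', LinearEquiv.mul_apply, tv_apply, map_add, map_smul, h0, h0',
      S.alt.isRefl _ _ h0, S.alt.isRefl _ _ h0', S.alt.self_eq_zero, smul_eq_mul]
    module
  generalize g * g' * g⁻¹ * g'⁻¹ = k at hk ek
  have sk : Sm k (span F {y, y'}) := fun v => by
    rw [ek, add_assoc, add_sub_cancel_left]
    exact add_mem (smul_mem _ _ my) (smul_mem _ _ my')
  have xw : ∀ w ∈ span F {y, y'}, B x w = 0 := fun w hw => by
    obtain ⟨a, b, rfl⟩ := mem_span_pair.1 hw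
    simp [h0, h0']
  have key : ∀ s ∈ K, ∀ t : F, (∀ v ∈ span F {y, y'}, s v = v + (t * B y v) • y ∧
      s⁻¹ v = v + (-t * B y v) • y) → ∃ μ : F, μ • (w + (t * B y w) • y) =
        k (w + (t * B y w) • y) := fun s hs t e => by
    obtain ⟨μ, e1⟩ := mem_span_singleton.1 (H (s⁻¹ * k * s⁻¹⁻¹)
      (K.mul_mem (K.mul_mem (K.inv_mem hs) hk) (by simpa using hs)) ((sk.conj s⁻¹).mono (by
        rintro _ ⟨v, hv, rfl⟩
        exact (e v hv).2 ▸ add_mem hv (smul_mem _ _ my))))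
    refine ⟨μ, ?_⟩
    rw [← (e w hw).1, ← map_smul, e1]
    simp
  obtain ⟨μ₀, e0⟩ := mem_span_singleton.1 (H k hk sk)
  have a1 : ∀ v ∈ span F {y, y'}, g v = v + (δ * B y v) • y := fun v hv => by
    simp [eg, tv_apply, xw v hv, h0]
  have a2 : ∀ v ∈ span F {y, y'}, g⁻¹ v = v + (-δ * B y v) • y := fun v hv => by
    simp [gi, tv_apply, xw v hv, h0]
  obtain ⟨μ₁, e1⟩ := key g hg δ fun v hv => ⟨a1 v hv, a2 v hv⟩
  obtain ⟨μ₂, e2⟩ := key g⁻¹ (K.inv_mem hg) (-δ) fun v hv => ⟨a2 v hv, by simpa using a1 v hv⟩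
  rw [map_add, map_smul, ← e0, ek y] at e1 e2
  have f1 := congrArg (B y) e1
  have f2 := congrArg (B y) e2
  have f3 := congrArg (B w) e1
  have f4 := congrArg (B w) e2
  simp only [map_add, map_smul, S.alt.self_eq_zero, smul_eq_mul, ← S.alt.neg_eq y w,
    ← S.alt.neg_eq y y'] at f1 f2 f3 f4
  have f5 : μ₁ = μ₂ := mul_left_cancel₀ (mul_ne_zero hd (mul_ne_zero e e)) (by
    linear_combination -f3 - f4)
  apply mul_ne_zero S.two (mul_ne_zero (mul_ne_zero e (pow_ne_zero 4 h))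
    (mul_ne_zero (pow_ne_zero 2 hd) (pow_ne_zero 2 hd')))
  rw [f5] at f1
  linear_combination f2 - f1

theorem fam_of [Finite F] [FiniteDimensional F V] (hE : JobE.{u, v}) (S : Sy B)
    (hK : K ≤ Isom B) (hN : NoTv K) (h0 : B x y = 0) (h0' : B x y' = 0)
    (h : B y y' ≠ 0) {c δ c' δ' : F} (hd : δ ≠ 0) (hd' : δ' ≠ 0)
    (hg : ee S.alt x 0 c * ee S.alt y 0 δ ∈ K) (hg' : ee S.alt x 0 c' * ee S.alt y' 0 δ' ∈ K) :
    Fam B K (span F {y, y'}) := by
  have h' : B y' y ≠ 0 := mt (S.alt.isRefl _ _) h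
  have my : y ∈ span F {y, y'} := subset_span (by simp)
  have my' : y' ∈ span F {y, y'} := subset_span (by simp)
  have hyp : ∀ w ∈ span F {y, y'}, w ≠ 0 → B y w ≠ 0 ∨ B y' w ≠ 0 := fun w hw w0 => by
    obtain ⟨a, b, rfl⟩ := mem_span_pair.1 hw
    by_contra! H
    simp only [map_add, map_smul, S.alt.self_eq_zero, smul_eq_mul, mul_zero, zero_add, add_zero,
      mul_eq_zero, h, h', or_false] at H
    exact w0 (by simp [H.1, H.2])
  refine ⟨H38.KL.rk2 (ind_of_ne S.alt h), fun w hw w0 => ?_, ?_, fun w hw w0 => ?_⟩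
  · rcases hyp w hw w0 with e | e
    exacts [⟨y, my, mt (S.alt.isRefl _ _) e⟩, ⟨y', my', mt (S.alt.isRefl _ _) e⟩]
  · have sm : ∀ z ∈ ({x, y, y'} : Set V), ∀ a, Sm (ee S.alt z 0 a) (span F {x, y, y'}) :=
      fun z hz a => (sm_ee S.alt z a).mono (span_mono (by simpa using hz))
    obtain ⟨j, hj, j1, j2⟩ := hE F V (smGrp K (span F {x, y, y'})) ⊥ y y' (δ * B y y')
      (δ' * B y' y) S.two (mul_ne_zero hd h) (mul_ne_zero hd' h') (fun α β e => by
        by_contra ne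
        refine (hyp _ (mem_span_pair.2 ⟨α, β, rfl⟩) fun e => ne ?_).elim (fun e' => ?_) fun e' => ?_
        · have e1 := congrArg (B y) e
          have e2 := congrArg (B y') e
          simp only [map_add, map_smul, S.alt.self_eq_zero, smul_eq_mul, map_zero] at e1 e2
          exact ⟨by simpa [h'] using e2, by simpa [h] using e1⟩
        · simp [(mem_bot F).1 e] at e'
        · simp [(mem_bot F).1 e] at e')
      (fun g _ z hz => by simp [(mem_bot F).1 hz]) _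
      ⟨hg, (sm x (by simp) c).mul (sm y (by simp) δ)⟩ _
      ⟨hg', (sm x (by simp) c').mul (sm y' (by simp) δ')⟩
      (by simp [tv_apply, S.alt.self_eq_zero, h0]) (by simp [tv_apply, h0, h0'])
      (by simp [tv_apply, S.alt.self_eq_zero, h0']) (by simp [tv_apply, h0, h0'])
    replace j1 := eq_neg_of_add_eq_zero_left ((mem_bot F).1 j1)
    replace j2 := eq_neg_of_add_eq_zero_left ((mem_bot F).1 j2)
    have jx : j x = x := Sm.fix S (hK hj.1) hj.2 fun w hw => by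
      obtain ⟨a, b, d, rfl⟩ := mem_span_triple.1 hw
      simp [S.alt.self_eq_zero, S.alt.isRefl _ _ h0, S.alt.isRefl _ _ h0']
    have jp : ∀ v, B y v = 0 → B y' v = 0 → ∃ t : F, j v = v + t • x := fun v e1 e2 => by
      obtain ⟨a, b, d, e⟩ := mem_span_triple.1 (hj.2 v)
      replace e := (eq_sub_iff_add_eq.1 e).symm
      have k1 := hK hj.1 y v
      have k2 := hK hj.1 y' v
      simp only [e, j1, j2, e1, e2, map_add, map_smul, map_neg, LinearMap.neg_apply, smul_eq_mul,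
        S.alt.self_eq_zero, S.alt.isRefl _ _ h0, S.alt.isRefl _ _ h0'] at k1 k2
      obtain rfl : d = 0 := by simpa [h] using k1
      obtain rfl : b = 0 := by simpa [h'] using k2
      exact ⟨a, by simp [e, add_comm]⟩
    have jj : j * j = 1 := hN x _ (K.mul_mem hj.1 hj.1) fun v => by
      obtain ⟨t, e⟩ := jp _ (decomp S.alt h v).1 (decomp S.alt h v).2
      have e' := congrArg j e
      simp only [map_add, map_sub, map_smul, j1, j2, jx, map_neg] at e e'
      exact mem_span_singleton.2 ⟨2 * t, by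
        rw [LinearEquiv.mul_apply]; linear_combination (norm := module) -e - e'⟩
    refine ⟨j, hj.1, fun v hv => ?_, fun v hv => ?_⟩
    · obtain ⟨a, b, rfl⟩ := mem_span_pair.1 hv
      simp [j1, j2, add_comm]
    · obtain ⟨t, e⟩ := jp v (hv y my) (hv y' my')
      have e' := congrArg j e
      rw [← LinearEquiv.mul_apply, jj, map_add, map_smul, jx, e] at e'
      have : (2 : F) • t • x = 0 := by
        simp only [LinearEquiv.coe_one, id_eq] at e'
        linear_combination (norm := module) -e'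
      rw [e, (smul_eq_zero.1 this).resolve_left S.two, add_zero]
  · rcases hyp w hw w0 with e | e
    · exact move_pt S h0 h0' h hd hd' hg hg' hw e
    · rw [Set.pair_comm] at hw ⊢
      exact move_pt S h0' h0 h' hd' hd hg' hg hw e

theorem jobD2a : JobD2a.{u, v} := by
  intro hE hI hH F _ _ V _ _ _ B K S hn hK hN hP x y y' d d'
  have x0 := d.1.1
  have h0 := d.2.1
  have h0' := d'.2.1
  have k : ∀ y : V, B x y = 0 → ∀ t : F, B x (y + t • x) = 0 := fun y e t => by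
    simp [e, S.alt.self_eq_zero]
  rcases dl_cases S hK hN d with ⟨β, b0, e⟩ | ⟨t, c, δ, hd, e⟩ <;>
    rcases dl_cases S hK hN d' with ⟨β', b0', e'⟩ | ⟨t', c', δ', hd', e'⟩
  · simpa [b0, b0'] using yz_perp S hN x0 e e'
  · refine S.alt.isRefl _ _ ?_
    simpa [b0, h0] using case2 S hK hN x0 (k y' h0' t') hd' e' e
  · simpa [b0', h0'] using case2 S hK hN x0 (k y h0 t) hd e e'
  by_contra h
  have h1 : B (y + t • x) (y' + t' • x) ≠ 0 := by
    simpa [h0', S.alt.isRefl _ _ h0, S.alt.self_eq_zero] using h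
  exact (fam_of hE S hK hN (k y h0 t) (k y' h0' t') h1 hd hd' e e').false hI hH S hn hK hN hP
    (subset_span (Set.mem_insert _ _)) (ind_of_ne S.alt h1).1

end H34.Ks
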