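import Cfsg.Agent.H51.KSSpec
import Cfsg.Agent.H70.UG3
import Cfsg.Agent.H26.MinS5

/-! Tower KS: jobs E and IL. -/

set_option autoImplicit false

namespace H34.Ks

open Module Submodule H53.CK H51.KL H54 H26.MS H51.KS MatrixGroups

universe u v

theorem jobE : JobE.{u, v} := by
  intro F _ _ V _ _ _ X Z e f a b h2 ha hb _ hZ s hs s' hs' s1 s2 s3 s4
  let Y : Subgroup SL(2, F) :=
    { carrier := {M | ∃ g ∈ X, g e - (M 0 0 • e + M 1 0 • f) ∈ Z ∧
        g f - (M 0 1 • e + M 1 1 • f) ∈ Z}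
      one_mem' := ⟨1, X.one_mem, by simp, by simp⟩
      mul_mem' := by
        rintro M N ⟨g, hg, g1, g2⟩ ⟨k, hk, k1, k2⟩
        refine ⟨g * k, X.mul_mem hg hk, ?_, ?_⟩
        · convert add_mem (hZ g hg _ k1) (add_mem (smul_mem _ (N 0 0) g1) (smul_mem _ (N 1 0) g2))
            using 1
          simp only [LinearEquiv.mul_apply, map_sub, map_add, map_smul, H11.sl_mul_apply]
          module
        · convert add_mem (hZ g hg _ k2) (add_mem (smul_mem _ (N 0 1) g1) (smul_mem _ (N 1 1) g2))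
            using 1
          simp only [LinearEquiv.mul_apply, map_sub, map_add, map_smul, H11.sl_mul_apply]
          module
      inv_mem' := by
        rintro M ⟨g, hg, g1, g2⟩
        have d : M 0 0 * M 1 1 - M 0 1 * M 1 0 = 1 := by rw [← Matrix.det_fin_two]; exact M.2
        have k1 := hZ _ (X.inv_mem hg) _ g1
        have k2 := hZ _ (X.inv_mem hg) _ g2
        simp only [map_sub, map_add, map_smul, H38.KL.inv_app] at k1 k2
        refine ⟨g⁻¹, X.inv_mem hg, ?_, ?_⟩
        · convert sub_mem (smul_mem _ (M 1 0) k2) (smul_mem _ (M 1 1) k1) using 1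
          simp only [Matrix.SpecialLinearGroup.SL2_inv_expl]
          simp
          linear_combination (norm := module) (-d) • g⁻¹ e
        · convert sub_mem (smul_mem _ (M 0 1) k1) (smul_mem _ (M 0 0) k2) using 1
          simp only [Matrix.SpecialLinearGroup.SL2_inv_expl]
          simp
          linear_combination (norm := module) (-d) • g⁻¹ f }
  obtain ⟨j, hj, j1, j2⟩ := H70.neg_one_mem_of_tr h2 (K := Y)
    (u := ⟨!![1, a; 0, 1], by simp [Matrix.det_fin_two]⟩)
    (l := ⟨!![1, 0; b, 1], by simp [Matrix.det_fin_two]⟩)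
    ⟨s, hs, by simpa using s1, by simpa [sub_sub, add_comm] using s2⟩
    ⟨s', hs', by simpa [sub_sub] using s4, by simpa using s3⟩ (by simp [H11.tr]; norm_num)
    (by simp [H11.tr]; norm_num) (by
      simp only [Matrix.of_apply, Matrix.cons_val', Matrix.cons_val_zero,
        Matrix.cons_val_one, Matrix.cons_val_fin_one]
      intro e
      exact mul_ne_zero ha hb (by linear_combination e))
  exact ⟨j, hj, by simpa using j1, by simpa using j2⟩

variable {F : Type u} [Field F] {V : Type v} [AddCommGroup V] [Module F V]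
  {B : LinearMap.BilinForm F V} {K : Subgroup (V ≃ₗ[F] V)}

theorem indep_of_ne (hA : B.IsAlt) {x u : V} (h : B x u ≠ 0) (α β : F)
    (e : α • x + β • u ∈ (⊥ : Submodule F V)) : α = 0 ∧ β = 0 := by
  have e1 := congrArg (B x) ((mem_bot F).1 e)
  have e2 := congrArg (B u) ((mem_bot F).1 e)
  simp only [map_add, map_smul, hA.self_eq_zero, smul_eq_mul, map_zero, ← hA.neg_eq x u] at e1 e2
  exact ⟨by simpa [h] using e2, by simpa [h] using e1⟩

theorem il1 [Finite F] [FiniteDimensional F V] (S : Sy B) (hK : K ≤ Isom B) {x u : V}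
    (h : B x u ≠ 0) {a b : F} (ha : a ≠ 0) (hb : b ≠ 0) (h1 : ee S.alt x 0 a ∈ K)
    (h2 : ee S.alt u 0 b ∈ K) : ∃ j ∈ K, IL B x u j := by
  have h' : B u x ≠ 0 := mt (S.alt.isRefl _ _) h
  obtain ⟨j, hj, j1, j2⟩ := jobE F V (smGrp K (span F {x, u})) ⊥ x u (a * B x u) (b * B u x) S.two
    (mul_ne_zero ha h) (mul_ne_zero hb h') (indep_of_ne S.alt h)
    (fun g _ z hz => by simp [(mem_bot F).1 hz]) _
    ⟨h1, (sm_ee S.alt x a).mono (span_mono (by simp))⟩ _
    ⟨h2, (sm_ee S.alt u b).mono (span_mono (by simp))⟩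
    (by simp [tv_apply, S.alt.self_eq_zero]) (by simp [tv_apply])
    (by simp [tv_apply, S.alt.self_eq_zero]) (by simp [tv_apply])
  refine ⟨j, hj.1, eq_neg_of_add_eq_zero_left j1, eq_neg_of_add_eq_zero_left j2, fun v e1 e2 =>
    Sm.fix S (hK hj.1) hj.2 fun w hw => ?_⟩
  obtain ⟨c, d, rfl⟩ := mem_span_pair.1 hw
  simp [e1, e2]

theorem il2 (hA : B.IsAlt) {x u u' : V} (h : B x u ≠ 0) (h' : B x u' ≠ 0) {j j' : V ≃ₗ[F] V}
    (hj : IL B x u j) (hj' : IL B x u' j') {z : V}
    (hz : z = (2 / B x u') • u' - (2 / B x u) • u - (2 * B u' u / (B x u * B x u')) • x) :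
    B x z = 0 ∧ B u z = 0 ∧ j' * j = ee hA z x 0 := by
  have z1 : B x z = 0 := by
    simp only [hz, map_sub, map_smul, smul_eq_mul, hA.self_eq_zero]; field_simp; ring
  refine ⟨z1, ?_, ?_⟩
  · simp only [hz, map_sub, map_smul, smul_eq_mul, hA.self_eq_zero, ← hA.neg_eq x u,
      ← hA.neg_eq u' u]
    field_simp; ring
  · ext v
    rw [LinearEquiv.mul_apply, hj'.apply hA h', hj.apply hA h, ee_apply hA (hA.isRefl _ _ z1)]
    simp only [hz, map_sub, map_add, map_smul, LinearMap.sub_apply, LinearMap.add_apply,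
      LinearMap.smul_apply, smul_eq_mul, hA.self_eq_zero, ← hA.neg_eq x u, ← hA.neg_eq u' u,
      ← hA.neg_eq v x, ← hA.neg_eq v u, ← hA.neg_eq v u']
    match_scalars <;> field_simp <;> ring

theorem jobIL : JobIL.{u, v} := by
  intro F _ _ V _ _ _ B S K hK
  refine ⟨fun x u h a b ha hb h1 h2 => il1 S hK h ha hb h1 h2,
    fun x u u' h h' hu j hj j' hj' i i' => ?_, fun hn H => ?_⟩
  · obtain ⟨z1, z2, e⟩ := il2 S.alt h h' i i' rfl
    refine ⟨_, fun e0 => hu ?_, z1, z2, e ▸ K.mul_mem hj' hj⟩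
    refine mem_span_pair.2 ⟨B u' u / B x u, B x u' / B x u, ?_⟩
    have := S.two
    have e1 : (B x u' / 2) • (_ : V) = (B x u' / 2) • 0 := congrArg _ e0
    rw [smul_zero] at e1
    rw [← sub_eq_zero, ← neg_eq_zero, ← e1]
    match_scalars <;> field_simp
  · have key : ∀ z w v : V, B z w = 0 → B z v = 0 → B w v ≠ 0 → ∀ c : F,
        c • w ∈ Yz S.alt K z := fun z w v h1 h2 h3 c => by
      have h4 : B w (v + (c * B w v / 2) • z) = B w v := by simp [S.alt.isRefl _ _ h1]
      obtain ⟨a, ha, e1⟩ := H w (by rintro rfl; simp at h3)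
      obtain ⟨b, hb, e2⟩ := H v (by rintro rfl; simp at h3)
      obtain ⟨b', hb', e3⟩ := H (v + (c * B w v / 2) • z) fun e => by simp [e, h3.symm] at h4
      obtain ⟨j, hj, i⟩ := il1 S hK h3 ha hb e1 e2
      obtain ⟨j', hj', i'⟩ := il1 S hK (h4.trans_ne h3) ha hb' e1 e3
      obtain ⟨-, -, e⟩ := il2 (z := c • z) S.alt h3 (h4.trans_ne h3) i i' (by
        have := S.two
        simp only [h4, map_add, map_smul, LinearMap.add_apply, LinearMap.smul_apply, h2,
          S.alt.self_eq_zero, smul_eq_mul]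
        match_scalars <;> field_simp <;> ring)
      exact ⟨by simp [h1], _, ee_scale S.alt h1 c 0 ▸ e ▸ K.mul_mem hj' hj⟩
    have tv : ∀ z a, ee S.alt z 0 a ∈ K := fun z a => by
      rcases eq_or_ne z 0 with rfl | hz
      · convert K.one_mem; ext v; simp [tv_apply]
      obtain ⟨w, v, h1, h2, h3⟩ := exists_pair S.alt S.nd hn hz
      have := two_mul_mem_Rz S.alt (key z w v h1 h2 (by simp [h3]) (a / 2))
        (key z v w h2 h1 (by simp [← S.alt.neg_eq w v, h3]) 1)
      simp only [map_smul, LinearMap.smul_apply, h3, smul_eq_mul, mul_one, one_mul] at this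
      rwa [mul_div_cancel₀ _ S.two] at this
    intro g hg
    have := isom_eq_top_of_tvV_mem S.nd S.alt (K.subgroupOf (Isom B)) fun v c => by
      rw [Subgroup.mem_subgroupOf]
      convert tv v (-c)
      ext w
      rw [tv_apply, ← Isom_smul_def, tvV_smul, ← S.alt.neg_eq w v]; simp
    exact (Subgroup.mem_subgroupOf (h := ⟨g, hg⟩)).1 (this ▸ Subgroup.mem_top _)

end H34.Ks
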