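import Cfsg.Agent.H34.TLPpd
import Cfsg.Agent.H44.P4E
import Cfsg.Agent.S3430

/-! Lower bounds for the class number of coprime transitive linear groups. -/

set_option autoImplicit false

namespace H34.TL

open Cfsg H28 H90 Module Subgroup MulAction

universe u

section grp

variable {G : Type*} [Group G] [Finite G]

theorem card_le_cls_mul (A : Subgroup G) [IsMulCommutative A] :
    Nat.card A ≤ Nat.card (ConjClasses G) * A.index := by
  classical
  have := Fintype.ofFinite G
  have h1 := sum_card_centralizer (G := G)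
  have hA : (Finset.univ.filter (· ∈ A)).card = Nat.card A := by
    rw [Nat.card_eq_fintype_card, Fintype.card_subtype]
  refine Nat.le_of_mul_le_mul_right ?_ (Nat.card_pos (α := A))
  rw [mul_assoc, A.index_mul_card, ← h1]
  conv_lhs => enter [1]; rw [← hA]
  exact (Finset.card_nsmul_le_sum _ _ _ fun g hg => card_le_of_le fun a ha =>
    mem_centralizer_singleton_iff.2 (setLike_mul_comm ha (Finset.mem_filter.1 hg).2)).trans
    (Finset.sum_le_sum_of_subset (Finset.filter_subset _ _))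

theorem three_le_cls (h : 3 ≤ Nat.card G) : 3 ≤ Nat.card (ConjClasses G) := by
  classical
  have := Fintype.ofFinite G
  have h1 := sum_card_centralizer (G := G)
  rw [← Finset.add_sum_erase _ _ (Finset.mem_univ 1), show centralizer ({1} : Set G) = ⊤ from
    eq_top_iff.2 fun g _ => mem_centralizer_singleton_iff.2 (by simp), card_top] at h1
  have h2 := Finset.card_nsmul_le_sum (Finset.univ.erase (1 : G))
    (fun g => Nat.card (centralizer ({g} : Set G))) 2 fun g hg =>
      (one_lt_card_iff_ne_bot _).2 fun e => Finset.ne_of_mem_erase hg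
        (mem_bot.1 (e ▸ mem_centralizer_singleton_iff.2 rfl))
  rw [Finset.card_erase_of_mem (Finset.mem_univ _), Finset.card_univ, ← Nat.card_eq_fintype_card,
    smul_eq_mul] at h2
  by_contra h3
  have := Nat.mul_le_mul_right (Nat.card G) (show Nat.card (ConjClasses G) ≤ 2 by omega)
  omega

theorem card_le_cls (s : Finset ℕ) (h : ∀ r ∈ s, ∃ g : G, orderOf g = r) :
    s.card ≤ Nat.card (ConjClasses G) := by
  choose f hf using h
  rw [← Fintype.card_coe, ← Nat.card_eq_fintype_card]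
  refine Nat.card_le_card_of_injective (fun r : s => ConjClasses.mk (f r r.2)) fun a b e => ?_
  obtain ⟨c, hc⟩ := isConj_iff.1 (ConjClasses.mk_eq_mk_iff_isConj.1 e)
  refine Subtype.ext ?_
  rw [← hf a a.2, ← hf b b.2, ← hc]
  exact ((MulAut.conj c).orderOf_eq _).symm

theorem cls_center {X : Type*} [Group X] [Fintype X] [DecidableEq X] (e : G ⧸ center G ≃* X) :
    Nat.card (center G) * ∑ x : X, (Finset.univ.filter fun y => x = 1 ∨ ∃ i < 6, y = x ^ i).card ≤
      Nat.card (ConjClasses G) * Nat.card X := by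
  classical
  have := Fintype.ofFinite G
  let π : G →* X := e.toMonoidHom.comp (QuotientGroup.mk' _)
  have hs : Function.Surjective π := e.surjective.comp (QuotientGroup.mk'_surjective _)
  have hk : ∀ g, π g = 1 ↔ g ∈ center G := fun g =>
    (map_eq_one_iff _ e.injective).trans (QuotientGroup.eq_one_iff g)
  have hf : ∀ x : X, (Finset.univ.filter fun g => π g = x).card = Nat.card (center G) := fun x => by
    rw [MonoidHom.card_fiber_eq_of_mem_range π (hs x) ⟨1, π.map_one⟩, Nat.card_eq_fintype_card,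
      Fintype.card_subtype]
    exact congrArg _ (Finset.filter_congr fun g _ => hk g)
  have hF : ∀ F : X → ℕ, ∑ g, F (π g) = Nat.card (center G) * ∑ x, F x := fun F => by
    rw [← Finset.sum_fiberwise Finset.univ π, Finset.mul_sum]
    refine Finset.sum_congr rfl fun x _ => ?_
    rw [← hf x, ← smul_eq_mul, ← Finset.sum_const]
    exact Finset.sum_congr rfl fun g hg => by rw [(Finset.mem_filter.1 hg).2]
  refine Nat.le_of_mul_le_mul_left ?_ (Nat.card_pos (α := center G))
  rw [mul_left_comm _ (Nat.card (ConjClasses G)), ← Nat.card_congr e.toEquiv, ← index_eq_card,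
    card_mul_index, ← sum_card_centralizer, ← hF, Finset.mul_sum]
  refine Finset.sum_le_sum fun g _ => ?_
  rw [Finset.card_filter, ← hF, ← Finset.card_filter, Nat.card_eq_fintype_card,
    Fintype.card_subtype]
  refine Finset.card_le_card fun y hy => Finset.mem_filter.2 ⟨Finset.mem_univ _,
    mem_centralizer_singleton_iff.2 ?_⟩
  rcases (Finset.mem_filter.1 hy).2 with h | ⟨i, -, h⟩
  · exact mem_center_iff.1 ((hk g).1 h) y
  · have h1 := mem_center_iff.1 ((hk ((g ^ i)⁻¹ * y)).1 (by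
      rw [map_mul, map_inv, map_pow, h, inv_mul_cancel])) g
    calc y * g = g ^ i * ((g ^ i)⁻¹ * y * g) := by group
      _ = _ := by rw [← h1]; group

end grp

theorem num_low {p n s m k : ℕ} (hp : 5 ≤ p) (hn : 2 ≤ n) (hs : s ≤ n) (hm : p ^ n - 1 ≤ m * s)
    (hk : m ≤ k * s) : p ≤ k := by
  have h1 : (p - 1) * (n * n) + 1 < p ^ n := by
    clear hs hm
    induction n, hn using Nat.le_induction with
    | base =>
      obtain ⟨r, rfl⟩ : ∃ r, p = r + 1 := ⟨p - 1, by omega⟩
      rw [Nat.add_sub_cancel]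
      nlinarith
    | succ n hn ih =>
      have h2 : (n + 1) * (n + 1) ≤ 5 * (n * n) := by nlinarith
      have h3 := Nat.mul_le_mul_left (p - 1) h2
      have h4 := Nat.mul_le_mul_left (p ^ n) hp
      rw [mul_left_comm (p - 1) 5] at h3
      rw [pow_succ]
      omega
  by_contra h
  have h2 : m * s ≤ (p - 1) * (n * n) := calc
    m * s ≤ (p - 1) * n * n := Nat.mul_le_mul (hk.trans (Nat.mul_le_mul (by omega) hs)) hs
    _ = _ := mul_assoc _ _ _
  omega

theorem num_exc {p z x t k F : ℕ} (hp : p.Prime) (hz : z ∣ p - 1)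
    (hx : x = 12 ∧ F = 42 ∨ x = 24 ∧ F = 90 ∧ 5 ≤ k ∨ x = 60 ∧ F = 270) (hpx : ¬ p ∣ x)
    (h : x * z = (p ^ 2 - 1) * t) (hk : z * F ≤ k * x) :
    p ≤ k ∨ (p = 11 ∧ x = 60 ∧ z = 2 ∧ t = 1) := by
  have := hp.two_le
  obtain ⟨r, rfl⟩ : ∃ r, p = r + 1 := ⟨p - 1, by omega⟩
  rw [Nat.add_sub_cancel] at hz
  obtain ⟨c, hc⟩ := hz
  have hz0 : 0 < z := Nat.pos_of_ne_zero (by rintro rfl; omega)
  have h1 : x = (r + 2) * (c * t) := by
    rw [show (r + 1) ^ 2 = (r + 2) * r + 1 by ring, Nat.add_sub_cancel] at h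
    refine Nat.eq_of_mul_eq_mul_right hz0 (h.trans ?_)
    conv_lhs => enter [1, 2]; rw [hc]
    ring
  have h2 : r + 2 ∣ 120 := (Dvd.intro _ h1.symm).trans (by
    rcases hx with ⟨rfl, -⟩ | ⟨rfl, -⟩ | ⟨rfl, -⟩ <;> norm_num)
  have h3 : r ≤ 118 := by have := Nat.le_of_dvd (by norm_num) h2; omega
  have h4 : c ≤ c * t := Nat.le_mul_of_pos_right _ (Nat.pos_of_ne_zero (by rintro rfl; omega))
  have h6 : 0 < c := Nat.pos_of_ne_zero (by rintro rfl; omega)
  have h7 : r = 4 ∨ r = 6 ∨ r = 10 ∨ r = 18 ∨ r = 22 ∨ r = 28 ∨ r = 58 := by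
    have h8 : ¬ r + 1 ∣ 12 := fun e => hpx (e.trans (by omega))
    clear * - h2 h3 h8 hp hx h1 hpx
    interval_cases r <;> first | omega | norm_num at hp
  clear h h2 hp
  rcases h7 with rfl | rfl | rfl | rfl | rfl | rfl | rfl <;>
    rcases hx with ⟨rfl, rfl⟩ | ⟨rfl, rfl, h9⟩ | ⟨rfl, rfl⟩ <;>
    (have h8 : c ≤ 10 := by omega
     interval_cases c <;> omega)

variable {G : Type u} {V : Type*} [Group G] [AddCommGroup V] [DistribMulAction G V]
  [Finite V] [Finite G] [FaithfulSMul G V]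

namespace Ctx

variable {p n l : ℕ} (h : Ctx G V p n) (hp : 5 ≤ p) (hn : 2 ≤ n)
include h hp hn

theorem low_cases (B : Subgroup G) [B.Normal] [IsMulCommutative B] :
    p ≤ Nat.card (ConjClasses G) ∨ ∃ k d, 2 ≤ d ∧ 0 < k ∧ k * d = n ∧ Nat.card B ∣ p ^ k - 1 := by
  have := h.nontrivial
  obtain ⟨A, hB, hA⟩ := exists_maxAb B
  have := hA.normal
  have := hA.comm
  obtain ⟨E, _, _, _, ⟨D⟩⟩ := h.tr.exists_FD A
  obtain ⟨k, h1, h2, h3, h4⟩ := h.field E
  have : Module.Finite E V := Module.Finite.of_finite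
  have := finrank_pos (R := E) (M := V)
  by_cases hd : finrank E V = 1
  swap
  · exact .inr ⟨k, _, by omega, h1, h3, (card_dvd_of_le hB).trans (h2 ▸ D.card_dvd)⟩
  rw [hd, mul_one] at h3
  subst h3
  have hC : centralizer (A : Set G) = A := by
    by_contra hne
    refine hA.not_comm_centralizer hne ⟨⟨fun x y => Subtype.ext
      (comm_of_irreducible (V := V) _ (fun W hW => ?_) x.2 y.2)⟩⟩
    refine or_iff_not_imp_left.2 fun h2 => eq_top_iff.2 fun w _ => ?_
    obtain ⟨⟨u, hu⟩, hu0⟩ := (AddSubgroup.ne_bot_iff_exists_ne_zero).1 h2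
    obtain ⟨c, rfl⟩ := (finrank_eq_one_iff_of_nonzero' u fun e => hu0 (Subtype.ext e)).1 hd w
    exact D.smul_mem W hW c hu
  exact .inl (num_low hp hn (Nat.le_of_dvd h1 (hC ▸ D.index_centralizer_dvd h.prime h2))
    (A.card_mul_index ▸ Nat.le_of_dvd Nat.card_pos h.dvd_card) (card_le_cls_mul A))

theorem low_of_ppd (hl : Ppd p n l) (B : Subgroup G) [B.Normal] [IsMulCommutative B]
    (hB : l ∣ Nat.card B) : p ≤ Nat.card (ConjClasses G) :=
  (h.low_cases hp hn B).resolve_right (by
    rintro ⟨k, d, h1, h2, h3, h4⟩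
    exact hl.min k h2 (by nlinarith) (hB.trans h4))

omit hn in
theorem low_large (hn : 3 ≤ n) (hl : Ppd p n l) (hbig : n + 1 < l ∨ l ^ 2 ∣ p ^ n - 1) :
    p ≤ Nat.card (ConjClasses G) := by
  obtain ⟨ψ, k, d, h1, h2, h3, h4, h5, h6⟩ := h.char
  have := Fact.mk hl.prime
  have hd : d ≤ n := by nlinarith
  have hlt := hl.lt h.prime.pos h.pos
  have hlG : l ∣ Nat.card G := hl.dvd.trans h.dvd_card
  by_cases hs : l ^ 2 ∣ Nat.card G
  · obtain ⟨R⟩ : Nonempty (Sylow l G) := inferInstance
    have h7 : l ^ 2 ∣ Nat.card R := R.pow_dvd_card_of_pow_dvd_card hs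
    have h8 : l ∣ Nat.card R := (dvd_pow_self l two_ne_zero).trans h7
    have : Nontrivial R := Finite.one_lt_card_iff_nontrivial.1
      (lt_of_lt_of_le hl.prime.one_lt (Nat.le_of_dvd Nat.card_pos h8))
    have := R.isPGroup'.center_nontrivial
    obtain ⟨⟨⟨z, hz⟩, hz1⟩, hz2⟩ := exists_ne (1 : center R)
    obtain ⟨s, hs⟩ := exists_pow_order hl.prime R.isPGroup' hz
      fun e => hz2 (Subtype.ext (Subtype.ext e))
    have hc : ∀ a ∈ (R : Subgroup G), ∀ b ∈ (R : Subgroup G), a * b = b * a := fun a ha b hb =>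
      h.comm_cent hl hs (Commute.zpow_left (congrArg Subtype.val
        (mem_center_iff.1 hz1 ⟨a, ha⟩)).symm s) (Commute.zpow_left (congrArg Subtype.val
          (mem_center_iff.1 hz1 ⟨b, hb⟩)).symm s)
    have : IsMulCommutative R := ⟨⟨fun a b => Subtype.ext (hc a a.2 b b.2)⟩⟩
    have := sylow_normal_of_small_degree R (fun x hx h0 => le_antisymm (fun y hy r hr => by
      obtain ⟨s, hs⟩ := exists_pow_order hl.prime R.isPGroup' hx h0
      exact h.comm_cent hl hs (Commute.zpow_left (hc x hx r hr) s)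
        (Commute.zpow_left (mem_centralizer_singleton_iff.1 hy).symm s))
      (centralizer_le (Set.singleton_subset_iff.2 hx))) h1.isCharacter h2
      (lt_of_lt_of_le (by nlinarith) (Nat.le_of_dvd Nat.card_pos h7))
    exact h.low_of_ppd hp (by omega) hl R h8
  have h7 : n + 1 < l := hbig.resolve_right fun e => hs (e.trans h.dvd_card)
  have h8 : 2 * n + 1 ≤ l := by
    obtain ⟨c, hc⟩ := H27.dvd_sub_one_of_primitive h.prime.two_le h.pos hl.prime hl.dvd hl.min
    have : 2 ≤ c := by
      by_contra h9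
      have : c = 0 ∨ c = 1 := by omega
      rcases this with rfl | rfl <;> omega
    have := Nat.mul_le_mul_left n this
    omega
  rcases small (by omega) hlG hs h1.isCharacter h2 (by omega) with ⟨N, _, hN⟩ | ⟨h9, h10⟩
  · have := isCyclic_of_prime_card hN
    exact h.low_of_ppd hp (by omega) hl N hN.symm.dvd
  · obtain rfl : l = 2 * n + 1 := by omega
    obtain rfl : k = 1 := by nlinarith
    rw [pow_one] at h6
    exact (num_psl h.prime hn hl.prime h10 (fun e => h.cop (e.trans (index_dvd_card _))) h6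
      (by rw [index_mul_card]; exact h.dvd_card)).elim

omit h hn in
theorem low_two (h : Ctx G V p 2) : p ≤ Nat.card (ConjClasses G) ∨ (p = 11 ∧ Nat.card G = 120 ∧
    Nonempty (G ≃* Matrix.SpecialLinearGroup (Fin 2) (ZMod 5))) := by
  classical
  obtain ⟨ψ, k, d, h1, h2, h3, h4, h5, -⟩ := h.char
  have := h.nontrivial
  obtain ⟨v, hv⟩ := exists_ne (0 : V)
  have key : ∀ (B : Subgroup G) [B.Normal] [IsMulCommutative B],
      p ≤ Nat.card (ConjClasses G) ∨ Nat.card B ∣ p - 1 := fun B _ _ =>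
    (h.low_cases hp le_rfl B).imp_right (by
      rintro ⟨k, d, h6, h7, h8, h9⟩
      obtain rfl : k = 1 := by nlinarith
      rwa [pow_one] at h9)
  have fin : ∀ {X : Type} [Group X] [Fintype X] [DecidableEq X] {F : ℕ} (e : G ⧸ center G ≃* X),
      ∑ x : X, (Finset.univ.filter fun y => x = 1 ∨ ∃ i < 6, y = x ^ i).card = F →
      (Nat.card X = 12 ∧ F = 42 ∨ Nat.card X = 24 ∧ F = 90 ∧ 5 ≤ Nat.card (ConjClasses G) ∨
        Nat.card X = 60 ∧ F = 270) → p ≤ Nat.card (ConjClasses G) ∨ (p = 11 ∧ Nat.card X = 60 ∧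
          Nat.card (center G) = 2 ∧ Nat.card (stabilizer G v) = 1) :=
    fun {X} _ _ _ F e hF hX => (key (center G)).elim .inl fun hz => by
      have h6 : (center G).index = Nat.card X := Nat.card_congr e.toEquiv
      exact num_exc h.prime hz hX (fun h7 => h.cop (h7.trans (h6 ▸ index_dvd_card _)))
        (by rw [← h.card_eq hv, ← h6, index_mul_card]) (hF ▸ cls_center e)
  rcases deg_two h1 h2 (h3.trans (by nlinarith)) with ⟨A, _, _, hA⟩ | ⟨⟨e⟩⟩ | ⟨⟨e⟩⟩ | ⟨⟨e⟩⟩
  · refine .inl ((key A).resolve_right fun h6 => ?_)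
    have h7 := Nat.le_of_dvd Nat.card_pos h.dvd_card
    rw [← A.index_mul_card] at h7
    have h8 := Nat.mul_le_mul hA (Nat.le_of_dvd (by omega) h6)
    obtain ⟨r, rfl⟩ : ∃ r, p = r + 1 := ⟨p - 1, by omega⟩
    have : (r + 1) ^ 2 = r * r + 2 * r + 1 := by ring
    have : 0 < r * r := Nat.mul_pos (by omega) (by omega)
    omega
  · refine .inl ((fin e (by decide +kernel) (.inl ⟨card_a4, rfl⟩)).resolve_right fun h6 => ?_)
    have := card_a4
    omega
  · refine .inl ((fin e (by decide +kernel) (.inr (.inl ⟨card_s4, rfl, cls_s4 ▸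
      (cls_congr e).trans (Nat.card_le_card_of_surjective _ (ConjClasses.map_surjective
        (QuotientGroup.mk'_surjective _)))⟩))).resolve_right fun h6 => ?_)
    have := card_s4
    omega
  refine (fin e (by decide +kernel) (.inr (.inr ⟨card_a5, rfl⟩))).imp_right ?_
  rintro ⟨rfl, -, h6, h7⟩
  have h8 : Nat.card G = 120 := by rw [h.card_eq hv, h7]; rfl
  have hk : ∀ g, (e.toMonoidHom.comp (QuotientGroup.mk' _)) g = 1 ↔ g ∈ center G := fun g =>
    (map_eq_one_iff _ e.injective).trans (QuotientGroup.eq_one_iff g)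
  obtain ⟨⟨z, hz⟩, hz1, hz2⟩ := (Nat.card_eq_two_iff' (1 : center G)).1 h6
  refine ⟨rfl, h8, H44.P4.sl25_of (e.toMonoidHom.comp (QuotientGroup.mk' _))
    (e.surjective.comp (QuotientGroup.mk'_surjective _)) (z := z) (fun e => hz1 (Subtype.ext e))
    ((hk z).2 hz) (fun g hg => or_iff_not_imp_left.2 fun e => congrArg Subtype.val
      (hz2 ⟨g, (hk g).1 hg⟩ fun e' => e (congrArg Subtype.val e'))) fun g hg => (hk g).2 ?_⟩
  by_cases g1 : g = 1
  · exact g1 ▸ one_mem _
  have h9 : ∀ w : V, g • w = -w := fun w => by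
    by_contra h10
    have h11 : g • w + w ≠ 0 := fun e => h10 (eq_neg_of_add_eq_zero_left e)
    have h12 := (h.card_eq h11).symm.trans h8
    refine g1 (mem_bot.1 (card_eq_one.1 (show Nat.card (stabilizer G (g • w + w)) = 1 by omega) ▸
      show g • (g • w + w) = g • w + w from ?_))
    rw [smul_add, ← mul_smul, ← sq, hg, one_smul, add_comm]
  exact mem_center_iff.2 fun x => eq_of_smul_eq_smul (α := V) fun w => by
    rw [mul_smul, mul_smul, h9, h9, smul_neg]

omit hp hn in
/-- The class number of a coprime transitive linear group is at least `p` with two exceptions. -/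
theorem low : p ≤ Nat.card (ConjClasses G) ∨ (n = 1 ∧ Nat.card G = p - 1 ∧ IsCyclic G) ∨
    (p = 11 ∧ n = 2 ∧ Nat.card G = 120 ∧
      Nonempty (G ≃* Matrix.SpecialLinearGroup (Fin 2) (ZMod 5))) := by
  have := h.nontrivial
  have h2 := h.prime.two_le
  obtain rfl | hn : n = 1 ∨ 2 ≤ n := by have := h.pos; omega
  · obtain ⟨A, -, hA⟩ := exists_maxAb (⊥ : Subgroup G)
    have := hA.normal
    have := hA.comm
    obtain ⟨E, _, _, _, ⟨D⟩⟩ := h.tr.exists_FD A
    obtain ⟨k, h1, h3, h4, -⟩ := h.field E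
    obtain rfl : k = 1 := Nat.eq_one_of_mul_eq_one_right h4
    have h5 := index_eq_one.1 (Nat.dvd_one.1 (D.index_centralizer_dvd h.prime h3))
    have h6 : A = ⊤ := by
      by_contra h6
      refine hA.not_comm_centralizer (fun e => h6 (e.symm.trans h5)) ⟨⟨fun x y => Subtype.ext
        (comm_of_irreducible (V := V) ∅ (fun W _ => ?_) (fun _ e => e.elim) fun _ e => e.elim)⟩⟩
      have h7 := W.card_addSubgroup_dvd_card
      rw [h.card, pow_one, Nat.dvd_prime h.prime] at h7
      exact h7.imp AddSubgroup.card_eq_one.1 fun e =>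
        AddSubgroup.eq_top_of_card_eq _ (by rw [e, h.card, pow_one])
    subst h6
    have := D.isCyclic
    have h7 := D.card_dvd
    have h8 := h.dvd_card
    rw [card_top, h3] at h7
    rw [pow_one] at h7 h8
    exact .inr (.inl ⟨rfl, Nat.dvd_antisymm h7 h8,
      isCyclic_of_surjective _ topEquiv.surjective⟩)
  by_cases hp : p ≤ 3
  · refine .inl (hp.trans (three_le_cls ((Nat.le_of_dvd Nat.card_pos h.dvd_card).trans' ?_)))
    have := (Nat.pow_le_pow_left h2 2).trans (Nat.pow_le_pow_right h.prime.pos hn)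
    omega
  have hp : 5 ≤ p := by
    have : p ≠ 4 := by rintro rfl; exact absurd h.prime (by norm_num)
    omega
  obtain rfl | hn : n = 2 ∨ 3 ≤ n := by omega
  · exact (h.low_two hp).imp_right fun e => .inr ⟨e.1, rfl, e.2⟩
  left
  by_cases h5 : p = 5 ∧ n = 6
  · obtain ⟨rfl, rfl⟩ := h5
    refine card_le_cls {1, 2, 3, 7, 31} fun r hr => ?_
    have h6 : ∀ q, q.Prime → q ∣ 5 ^ 6 - 1 → ∃ g : G, orderOf g = q := fun q h6 h7 =>
      haveI := Fact.mk h6
      exists_prime_orderOf_dvd_card' q (h7.trans h.dvd_card)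
    simp only [Finset.mem_insert, Finset.mem_singleton] at hr
    rcases hr with rfl | rfl | rfl | rfl | rfl
    · exact ⟨1, orderOf_one⟩
    all_goals exact h6 _ (by norm_num) (by norm_num)
  obtain ⟨l, h6, h7, h8, h9⟩ := Cfsg.Agent.S3430.result p n h2 (by omega) (by omega)
    (by omega) (by omega) h5
  exact h.low_large hp hn ⟨h6, h7, h8⟩ h9

end Ctx

end H34.TL
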