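import Cfsg.Agent.H34.PCLow
import Cfsg.Agent.H34.KgvA
import Cfsg.Agent.H18.PSolv
import Cfsg.Agent.H83.W6Aff
import Cfsg.Agent.H84.TwoPart
import Cfsg.Agent.H35.GWD1
import Cfsg.Agent.H11.QdRank2
import Cfsg.Agent.S2325

/-! `p`-regular classes of `p`-solvable groups with one class of non-trivial `p`-elements. -/

set_option autoImplicit false

namespace H34.TL

open Cfsg H28 H90 Subgroup MulAction
open scoped Pointwise

/-- The number of `p`-regular classes. -/
noncomputable def kp (p : ℕ) (G : Type*) [Group G] : ℕ :=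
  Nat.card {c : ConjClasses G // ∃ g : G, ConjClasses.mk g = c ∧ ¬ p ∣ orderOf g}

variable {G H : Type*} [Group G] [Finite G] [Group H] {p : ℕ} [hp : Fact p.Prime]

theorem kp_ge (π : G →* H) (hs : Function.Surjective π) (hH : ¬ p ∣ Nat.card H)
    (T : Finset (ConjClasses G))
    (hT : ∀ c ∈ T, ∃ g, ConjClasses.mk g = c ∧ ¬ p ∣ orderOf g ∧ π g = 1 ∧ g ≠ 1) :
    Nat.card (ConjClasses H) + T.card ≤ kp p G := by
  have := Finite.of_surjective π hs
  have h1 : ∀ c : ConjClasses H, ∃ g, ConjClasses.mk (π g) = c ∧ ¬ p ∣ orderOf g ∧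
      (π g = 1 → g = 1) := fun c => by
    obtain ⟨x, rfl⟩ := ConjClasses.mk_surjective c
    by_cases hx : x = 1
    · exact ⟨1, by rw [hx, map_one], by simpa using hp.out.ne_one, fun _ => rfl⟩
    obtain ⟨g, rfl⟩ := hs x
    obtain ⟨i, k, h1, h2⟩ := H84.exists_pPart_pow p g
    have h3 : π (g ^ i) = 1 := orderOf_eq_one_iff.1 (Nat.eq_one_of_dvd_coprimes
      ((hp.out.coprime_iff_not_dvd.2 hH).pow_left k)
      (orderOf_dvd_of_pow_eq_one (by rw [← map_pow, h1, map_one])) (orderOf_dvd_natCard _))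
    have h4 : π ((g ^ i)⁻¹ * g) = π g := by rw [map_mul, map_inv, h3, inv_one, one_mul]
    exact ⟨_, by rw [h4], h2, fun e => absurd (h4 ▸ e) hx⟩
  choose s h1 h2 h3 using h1
  have key : ∀ c, ∀ t ∈ T, ConjClasses.mk (s c) ≠ t := fun c t ht e => by
    obtain ⟨g, rfl, -, h4, h5⟩ := hT t ht
    have h6 := ConjClasses.mk_eq_mk_iff_isConj.1 e
    have h7 := π.map_isConj h6
    rw [h4, isConj_one_left] at h7
    rw [h3 c h7, isConj_one_right] at h6
    exact h5 h6
  rw [← Fintype.card_coe, ← Nat.card_eq_fintype_card, ← Nat.card_sum]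
  refine Nat.card_le_card_of_injective (Sum.elim (fun c => ⟨_, s c, rfl, h2 c⟩)
    fun t : T => ⟨t, (hT t t.2).imp fun _ h => ⟨h.1, h.2.1⟩⟩) ?_
  rintro (a | a) (b | b) e
  · rw [← h1 a, ← h1 b, ConjClasses.mk_eq_mk_iff_isConj.2
      (π.map_isConj (ConjClasses.mk_eq_mk_iff_isConj.1 (congrArg Subtype.val e)))]
  · exact absurd (congrArg Subtype.val e) (key a b b.2)
  · exact absurd (congrArg Subtype.val e).symm (key b a a.2)
  · have h4 := congrArg Subtype.val e
    exact congrArg _ (Subtype.ext h4)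

/-- `G = V H` with `V` elementary abelian and the `p'`-group `H` faithful and transitive. -/
structure Aff (p : ℕ) (V H : Subgroup G) (π : G →* H) : Prop where
  normal : V.Normal
  exp : ∀ v ∈ V, v ^ p = 1
  self : centralizer (V : Set G) = V
  compl : IsComplement' V H
  cop : ¬ p ∣ Nat.card H
  ne : V ≠ ⊥
  tr : ∀ v ∈ V, ∀ w ∈ V, v ≠ 1 → w ≠ 1 → ∃ g ∈ H, g * v * g⁻¹ = w
  ker : π.ker = V
  res : ∀ h : H, π h = h

theorem exists_aff (hs : IsPSolvable p G) (hO : pPrimeCore p G = ⊥) (hd : p ∣ Nat.card G)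
    (hc : ∀ x y : G, x ≠ 1 → y ≠ 1 → (∃ k, orderOf x = p ^ k) → (∃ k, orderOf y = p ^ k) →
      IsConj x y) : ∃ (V H : Subgroup G) (π : G →* H), Aff p V H π := by
  have h1 := H18.centralizer_pCore_le hs hO
  have h2 := H2.pCore_isPGroup p G
  set V := pCore p G
  have hV : V.Normal := inferInstance
  obtain ⟨u, hu⟩ := exists_prime_orderOf_dvd_card' p hd
  have hu1 : u ≠ 1 := fun e => hp.out.one_lt.ne (by rw [← hu, e, orderOf_one])
  have h3 : V ≠ ⊥ := fun e => hu1 (mem_bot.1 (e ▸ h1 fun y hy => by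
    rw [e] at hy
    rw [mem_bot.1 hy, one_mul, mul_one]))
  have ho : ∀ {Q : Subgroup G}, IsPGroup p Q → ∀ v ∈ Q, ∃ k, orderOf v = p ^ k := fun hQ v hv =>
    (IsPGroup.iff_orderOf.1 hQ ⟨v, hv⟩).imp fun _ e => (orderOf_mk v hv).symm.trans e
  have : Nontrivial V := (nontrivial_iff_ne_bot _).2 h3
  have := h2.center_nontrivial
  obtain ⟨⟨⟨z, hz⟩, hz1⟩, hz2⟩ := exists_ne (1 : center V)
  have hz3 : z ≠ 1 := fun e => hz2 (Subtype.ext (Subtype.ext e))
  have h4 : ∀ x : G, (∃ k, orderOf x = p ^ k) → x ∈ centralizer (V : Set G) := fun x hx => by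
    by_cases x1 : x = 1
    · exact x1 ▸ one_mem _
    obtain ⟨c, rfl⟩ := isConj_iff.1 (hc z x hz3 x1 (ho h2 z hz) hx)
    exact Normal.conj_mem (H := centralizer (V : Set G)) inferInstance z
      (fun y hy => congrArg Subtype.val (mem_center_iff.1 hz1 ⟨y, hy⟩)) c
  have h5 : centralizer (V : Set G) = V := le_antisymm h1 fun v hv => h4 v (ho h2 v hv)
  obtain ⟨P⟩ : Nonempty (Sylow p G) := inferInstance
  have h6 : ¬ p ∣ V.index := fun e => P.not_dvd_index (e.trans (index_dvd_of_le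
    fun x hx => h1 (h4 x (ho P.isPGroup' x hx))))
  obtain ⟨n, hn⟩ := h2.exists_card_eq
  obtain ⟨H, hH⟩ := exists_right_complement'_of_coprime (N := V)
    (hn ▸ (hp.out.coprime_iff_not_dvd.2 h6).pow_left n)
  refine ⟨V, H, hH.symm.QuotientMulEquiv.toMonoidHom.comp (QuotientGroup.mk' V), hV,
    fun v hv => ?_, h5, hH, hH.symm.index_eq_card ▸ h6, h3, fun v hv w hw v1 w1 => ?_,
    Subgroup.ext fun g => (map_eq_one_iff _ hH.symm.QuotientMulEquiv.injective).trans
      (QuotientGroup.eq_one_iff g), fun h => hH.symm.QuotientMulEquiv.apply_symm_apply h⟩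
  · by_cases v1 : v = 1
    · rw [v1, one_pow]
    obtain ⟨c, rfl⟩ := isConj_iff.1 (hc u v hu1 v1 ⟨1, by rw [hu, pow_one]⟩ (ho h2 v hv))
    rw [conj_pow, ← hu, pow_orderOf_eq_one, mul_one, mul_inv_cancel]
  · obtain ⟨c, rfl⟩ := isConj_iff.1 (hc v w v1 w1 (ho h2 v hv) (ho h2 w hw))
    obtain ⟨⟨a, b⟩, rfl⟩ := hH.2 c
    exact ⟨b, b.2, (conj_V (fun a ha b hb => h5.ge hb a ha) a.2 hv b).symm⟩

namespace Aff

variable {V H : Subgroup G} {π : G →* H} (h : Aff p V H π)
include h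

omit [Finite G] hp in
theorem comm : ∀ a ∈ V, ∀ b ∈ V, a * b = b * a := fun a ha _ hb => h.self.ge hb a ha

omit [Finite G] hp in
theorem surj : Function.Surjective π := fun x => ⟨x, h.res x⟩

omit [Finite G] hp in
theorem isPGroup : IsPGroup p V := fun v => ⟨1, Subtype.ext (by simpa using h.exp v v.2)⟩

omit [Finite G] hp in
theorem eq_one {g : G} (hg : g ∈ H) (hc : ∀ v ∈ V, g * v * g⁻¹ = v) : g = 1 :=
  disjoint_def.1 h.compl.disjoint
    (h.self.le fun y hy => (mul_inv_eq_iff_eq_mul.1 (hc y hy)).symm) hg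

theorem cases : p ≤ Nat.card (ConjClasses H) ∨
    ((∀ g ∈ H, ∀ v ∈ V, g * v * g⁻¹ = v → g = 1 ∨ v = 1) ∧
      ((Nat.card V = p ∧ Nat.card H = p - 1 ∧ IsCyclic H) ∨ (p = 11 ∧ Nat.card V = 121 ∧
        Nat.card H = 120 ∧ Nonempty (H ≃* Matrix.SpecialLinearGroup (Fin 2) (ZMod 5))))) := by
  have := h.normal
  obtain ⟨n, hn⟩ := h.isPGroup.exists_card_eq
  let _ : CommGroup V := { (inferInstance : Group V) with
    mul_comm := fun a b => Subtype.ext (h.comm a a.2 b b.2) }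
  let _ : DistribMulAction H (Additive V) :=
    { smul := fun g v => Additive.ofMul (MulAut.conjNormal (g : G) v.toMul)
      one_smul := fun v => congrArg Additive.ofMul (Subtype.ext (by simp; rfl))
      mul_smul := fun g h v => congrArg Additive.ofMul (Subtype.ext (by
        change ((g : G) * h) * _ * ((g : G) * h)⁻¹ = g * (h * _ * (h : G)⁻¹) * (g : G)⁻¹
        group))
      smul_zero := fun g => congrArg Additive.ofMul (map_one _)
      smul_add := fun g v w => congrArg Additive.ofMul (map_mul _ _ _) }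
  have sm : ∀ (g : H) (v w : Additive V),
      g • v = w ↔ (g : G) * v.toMul * (g : G)⁻¹ = w.toMul := fun g v w =>
    ⟨fun h => congrArg (fun u : Additive V => (u.toMul : G)) h,
      fun h => congrArg Additive.ofMul (Subtype.ext h)⟩
  have : FaithfulSMul H (Additive V) := ⟨fun {g k} e =>
    (inv_mul_eq_one.1 (Subtype.ext (h.eq_one (k⁻¹ * g).2 fun v hv =>
      (sm (k⁻¹ * g) (Additive.ofMul ⟨v, hv⟩) (Additive.ofMul ⟨v, hv⟩)).1
        (by rw [mul_smul, e, inv_smul_smul])))).symm⟩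
  have c : Ctx H (Additive V) p n := ⟨hp.out, Nat.pos_of_ne_zero (by
    rintro rfl
    exact h.ne (card_eq_one.1 hn)), hn, h.cop, fun v w hv hw => by
    obtain ⟨g, hg, e⟩ := h.tr v.toMul v.toMul.2 w.toMul w.toMul.2
      (fun e => hv (congrArg Additive.ofMul (Subtype.ext e)))
      fun e => hw (congrArg Additive.ofMul (Subtype.ext e))
    exact ⟨⟨g, hg⟩, (sm _ _ _).2 e⟩⟩
  have reg : Nat.card H = p ^ n - 1 → ∀ g ∈ H, ∀ v ∈ V, g * v * g⁻¹ = v → g = 1 ∨ v = 1 :=
    fun e g hg v hv e1 => or_iff_not_imp_right.2 fun v1 => by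
      have h1 := c.card_eq (v := Additive.ofMul ⟨v, hv⟩) fun e => v1 (congrArg Subtype.val e)
      have h2 := c.one_lt
      rw [e] at h1
      have h3 := card_eq_one.1 ((Nat.mul_eq_left (by omega)).1 h1.symm)
      have h4 : (⟨g, hg⟩ : H) = 1 := mem_bot.1 (h3.le ((sm ⟨g, hg⟩ _ _).2 e1))
      exact congrArg Subtype.val h4
  rcases c.low with h1 | ⟨rfl, h1, h2⟩ | ⟨rfl, rfl, h1, h2⟩
  · exact .inl h1
  · exact .inr ⟨reg (by rw [h1, pow_one]), .inl ⟨by rw [hn, pow_one], h1, h2⟩⟩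
  · exact .inr ⟨reg h1, .inr ⟨rfl, hn, h1, h2⟩⟩

theorem kp_eq : kp p G = Nat.card (ConjClasses H) := by
  have := h.normal
  refine le_antisymm (Nat.card_le_card_of_surjective (fun c => ⟨ConjClasses.map H.subtype c, by
    obtain ⟨x, rfl⟩ := ConjClasses.mk_surjective c
    exact ⟨x, rfl, fun e => h.cop (e.trans (H.orderOf_dvd_natCard x.2))⟩⟩) ?_)
    (by simpa using kp_ge π h.surj h.cop ∅ (by simp))
  rintro ⟨_, g, rfl, hg⟩
  obtain ⟨⟨a, b⟩, rfl⟩ := h.compl.2 g
  obtain ⟨n, hn⟩ := h.isPGroup.exists_card_eq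
  obtain ⟨u, -, v, hv, h1, h2⟩ := exists_conj_commute h.comm a.2 (g := b) (hn ▸
    (hp.out.coprime_iff_not_dvd.2 fun e => h.cop (e.trans (H.orderOf_dvd_natCard b.2))).pow_left n)
  have h3 : (v * b) ^ orderOf ((a : G) * b) = 1 := by
    have := pow_orderOf_eq_one ((a : G) * b)
    nth_rewrite 1 [h2] at this
    simpa using this
  rw [h1.mul_pow, mul_eq_one_iff_eq_inv] at h3
  obtain rfl : v = 1 := orderOf_eq_one_iff.1 (Nat.eq_one_of_dvd_coprimes
    (hp.out.coprime_iff_not_dvd.2 hg) (orderOf_dvd_of_pow_eq_one (h.exp v hv))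
    (orderOf_dvd_of_pow_eq_one (disjoint_def.1 h.compl.disjoint (V.pow_mem hv _)
      (h3 ▸ H.inv_mem (H.pow_mem b.2 _)))))
  exact ⟨ConjClasses.mk b, Subtype.ext (ConjClasses.mk_eq_mk_iff_isConj.2
    (isConj_iff.2 ⟨u, by rw [one_mul] at h2; exact h2.symm⟩))⟩

omit [Finite G] in
theorem affine (h1 : Nat.card V = p) (h2 : Nat.card H = p - 1) :
    Nonempty (G ≃* affineGroup (ZMod p)) := by
  have := h.normal
  let e : Multiplicative (ZMod p) ≃* V := mulEquivOfPrimeCardEq (p := p) (by simp) h1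
  have hm : ∀ g : G, g * (π g : G)⁻¹ ∈ V := fun g => h.ker.le (by
    rw [MonoidHom.mem_ker, map_mul, map_inv, h.res, mul_inv_cancel])
  let _ : MulAction G V :=
    { smul := fun g v => MulAut.conjNormal g v * ⟨_, hm g⟩
      one_smul := fun v => Subtype.ext (by
        change 1 * (v : G) * 1⁻¹ * (1 * (π 1 : G)⁻¹) = v
        simp)
      mul_smul := fun g k v => Subtype.ext (by
        change g * k * (v : G) * (g * k)⁻¹ * (g * k * (π (g * k) : G)⁻¹) =
          g * (k * v * k⁻¹ * (k * (π k : G)⁻¹)) * g⁻¹ * (g * (π g : G)⁻¹)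
        rw [map_mul, coe_mul]
        group) }
  let e' : V ≃ ZMod p := e.symm.toEquiv.trans Multiplicative.toAdd
  let φ : G →* Equiv.Perm (ZMod p) := e'.permCongrHom.toMonoidHom.comp (toPermHom G V)
  have hφ : ∀ g x, φ g x = (e.symm (MulAut.conjNormal g (e (.ofAdd x)))).toAdd +
      (e.symm ⟨_, hm g⟩).toAdd := fun g x => by
    rw [← toAdd_mul, ← map_mul]
    rfl
  have hr : ∀ g, φ g ∈ affineGroup (ZMod p) := fun g => by
    let f : ZMod p →+ ZMod p := AddMonoidHom.mk'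
      (fun x => (e.symm (MulAut.conjNormal g (e (.ofAdd x)))).toAdd) fun x y => by
        rw [ofAdd_add, map_mul, map_mul, map_mul, toAdd_mul]
    have hf : ∀ x, f x = f 1 * x := fun x => by
      rw [mul_comm, ← smul_eq_mul, ← ZMod.map_smul, smul_eq_mul, mul_one]
    refine ⟨Units.mk0 (f 1) fun e0 => ?_, _, fun x => (hφ g x).trans (congrArg (· + _) (hf x))⟩
    simp [f] at e0
  have hi : Function.Injective φ := (injective_iff_map_eq_one _).2 fun g hg => by
    have h3 : ∀ v : V, g • v = v := fun v => e'.injective (by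
      simpa [φ] using DFunLike.congr_fun hg (e' v))
    have h4 : g * 1 * g⁻¹ * (g * (π g : G)⁻¹) = 1 := congrArg Subtype.val (h3 1)
    have h5 : g = π g := by simpa [mul_inv_eq_one] using h4
    refine h.eq_one (h5 ▸ (π g).2) fun v hv => ?_
    have h6 : g * v * g⁻¹ * (g * (π g : G)⁻¹) = v := congrArg Subtype.val (h3 ⟨v, hv⟩)
    rwa [← h5, mul_inv_cancel, mul_one] at h6
  refine ⟨MulEquiv.ofBijective (φ.codRestrict _ hr) ((Nat.bijective_iff_injective_and_card _).2
    ⟨fun a b e => hi (congrArg Subtype.val e), ?_⟩)⟩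
  rw [H83.w6_card_affine, Nat.card_zmod, ← h.compl.card_mul_card, h1, h2, mul_comm]

omit [Finite G] hp in
theorem frob (reg : ∀ g ∈ H, ∀ v ∈ V, g * v * g⁻¹ = v → g = 1 ∨ v = 1) (h1 : H ≠ ⊥) :
    IsFrobeniusComplement H := by
  refine ⟨h1, fun e => h.ne (disjoint_top.1 (e ▸ h.compl.disjoint)), fun g hg =>
    eq_bot_iff.2 fun x hx => ?_⟩
  obtain ⟨⟨a, b⟩, rfl⟩ := h.compl.2 g
  obtain ⟨h2, y, hy, rfl⟩ := hx
  change (a : G) * b * y * ((a : G) * b)⁻¹ ∈ H at h2
  change (a : G) * b * y * ((a : G) * b)⁻¹ = 1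
  have h3 : π a = 1 := h.ker.ge a.2
  have h4 : (π ((a : G) * b * y * ((a : G) * b)⁻¹) : G) = a * b * y * ((a : G) * b)⁻¹ :=
    congrArg Subtype.val (h.res ⟨_, h2⟩)
  have h5 : (π y : G) = y := congrArg Subtype.val (h.res ⟨y, hy⟩)
  have h6 : (π b : G) = b := congrArg Subtype.val (h.res b)
  simp only [map_mul, map_inv, h3, one_mul, coe_mul, coe_inv, h5, h6] at h4
  rcases reg (b * y * (b : G)⁻¹) (H.mul_mem (H.mul_mem b.2 hy) (H.inv_mem b.2)) a a.2
    (mul_inv_eq_iff_eq_mul.2 (by nth_rewrite 1 [h4]; group)) with h7 | h7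
  · rw [← h4, h7]
  · exact absurd (by change (a : G) * b ∈ H; rw [h7, one_mul]; exact b.2) hg

end Aff

theorem cls_sl25 (e : H ≃* Matrix.SpecialLinearGroup (Fin 2) (ZMod 5)) :
    Nat.card (ConjClasses H) = 9 := by
  have : Fact (Nat.Prime 5) := ⟨by norm_num⟩
  have := Finite.of_equiv _ e.symm.toEquiv
  have h1 := Cfsg.Agent.S2325.result (F := ZMod 5) (by decide)
  rw [ZMod.card] at h1
  exact le_antisymm ((cls_congr e.symm).trans h1.le) (h1.ge.trans (cls_congr e))

omit hp in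
theorem sq_of_cls (Z : Subgroup G) [Z.Normal] (hZ : Z ≠ ⊥)
    (h : Nat.card (ConjClasses G) ≤ Nat.card (ConjClasses (G ⧸ Z)) + 1) :
    ∃ d, d ^ 2 + Z.index = Nat.card G := by
  classical
  have h1 := Nat.card_congr (Equiv.sumCompl fun χ : IrrCharacter G => Z ≤ charKer (χ : G → ℂ))
  rw [Nat.card_sum, ← Nat.card_congr (irrQuotientEquiv Z), card_irr_eq_card_conjClasses,
    card_irr_eq_card_conjClasses] at h1
  have h2 := Finite.card_le_one_iff_subsingleton.1
    (show Nat.card {χ : IrrCharacter G // ¬ Z ≤ charKer (χ : G → ℂ)} ≤ 1 by omega)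
  rcases isEmpty_or_nonempty {χ : IrrCharacter G // ¬ Z ≤ charKer (χ : G → ℂ)} with h3 | ⟨⟨χ⟩⟩
  · have h4 := H35.card_nonker_mul Z (d := 0) fun ζ h4 h5 => h3.elim ⟨⟨ζ, h4⟩, h5⟩
    rw [← Z.index_mul_card] at h4
    exact absurd (card_eq_one.1 ((Nat.mul_eq_left Z.index_ne_zero_of_finite).1
      (by simpa using h4.symm))) hZ
  · have h4 := H35.card_nonker_mul Z (d := charDegree χ.1.1) fun ζ h4 h5 => by
      rw [Subsingleton.elim χ ⟨⟨ζ, h4⟩, h5⟩]
      exact h4.cast_charDegree.symm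
    have : Unique {χ : IrrCharacter G // ¬ Z ≤ charKer (χ : G → ℂ)} := uniqueOfSubsingleton χ
    rw [Nat.card_unique, one_mul] at h4
    exact ⟨_, h4⟩

theorem eleven (h11 : p = 11) (O : Subgroup G) [O.Normal] (hO : ¬ p ∣ Nat.card O) (h1 : O ≠ ⊥)
    {V H : Subgroup (G ⧸ O)} {π : G ⧸ O →* H} (h : Aff p V H π) (hV : Nat.card V = 121)
    (hH : Nat.card H = 120) (e : H ≃* Matrix.SpecialLinearGroup (Fin 2) (ZMod 5)) :
    p ≤ kp p G := by
  classical
  subst h11
  let θ := π.comp (QuotientGroup.mk' O)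
  have hθ : Function.Surjective θ := h.surj.comp (QuotientGroup.mk'_surjective O)
  have h9 := cls_sl25 e
  by_contra hk
  have hc : ∀ x ∈ O, ∀ y ∈ O, x ≠ 1 → y ≠ 1 → IsConj x y := fun x hx y hy x1 y1 => by
    by_contra h2
    have h3 : ∀ x ∈ O, x ≠ 1 → ∃ g, ConjClasses.mk g = ConjClasses.mk x ∧ ¬ 11 ∣ orderOf g ∧
        θ g = 1 ∧ g ≠ 1 := fun x hx x1 => ⟨x, rfl, fun e => hO (e.trans (O.orderOf_dvd_natCard hx)),
      (congrArg π ((QuotientGroup.eq_one_iff x).2 hx)).trans π.map_one, x1⟩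
    have := kp_ge θ hθ h.cop {ConjClasses.mk x, ConjClasses.mk y} fun c hc => by
      rcases Finset.mem_insert.1 hc with rfl | hc
      · exact h3 x hx x1
      · exact Finset.mem_singleton.1 hc ▸ h3 y hy y1
    rw [Finset.card_pair fun e => h2 (ConjClasses.mk_eq_mk_iff_isConj.1 e)] at this
    omega
  have : Nontrivial O := (nontrivial_iff_ne_bot _).2 h1
  obtain ⟨r, hr, h2⟩ := Nat.exists_prime_and_dvd (Finite.one_lt_card (α := O)).ne'
  have := Fact.mk hr
  obtain ⟨⟨u, hu⟩, hu1⟩ := exists_prime_orderOf_dvd_card' r h2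
  rw [orderOf_mk] at hu1
  have hP : IsPGroup r O := fun x => ⟨1, Subtype.ext (by
    by_cases x1 : (x : G) = 1
    · simp [x1]
    obtain ⟨c, h3⟩ := isConj_iff.1 (hc u hu x x.2 (fun e => hr.one_lt.ne (by
      rw [← hu1, e, orderOf_one])) x1)
    rw [pow_one, coe_pow, ← h3, conj_pow, ← hu1, pow_orderOf_eq_one]
    simp)⟩
  have := hP.center_nontrivial
  obtain ⟨⟨⟨z, hz⟩, hz1⟩, hz2⟩ := exists_ne (1 : center O)
  have hab : O ≤ centralizer (O : Set G) := fun x hx => by
    by_cases x1 : x = 1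
    · exact x1 ▸ one_mem _
    obtain ⟨c, rfl⟩ := isConj_iff.1 (hc z hz x hx (fun e => hz2 (Subtype.ext (Subtype.ext e))) x1)
    exact Normal.conj_mem (H := centralizer (O : Set G)) inferInstance z
      (fun y hy => congrArg Subtype.val (mem_center_iff.1 hz1 ⟨y, hy⟩)) c
  let ψ : G ⧸ O →* MulAut O := QuotientGroup.lift O MulAut.conjNormal fun x hx =>
    MulEquiv.ext fun y => Subtype.ext (mul_inv_eq_iff_eq_mul.2 (hab hx y y.2).symm)
  let _ : CommGroup O := { (inferInstance : Group O) with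
    mul_comm := fun a b => Subtype.ext (hab b.2 a a.2) }
  let _ : DistribMulAction (G ⧸ O) (Additive O) :=
    { smul := fun g v => Additive.ofMul (ψ g v.toMul)
      one_smul := fun v => congrArg Additive.ofMul (DFunLike.congr_fun ψ.map_one _)
      mul_smul := fun g k v => congrArg Additive.ofMul (DFunLike.congr_fun (ψ.map_mul g k) _)
      smul_zero := fun g => congrArg Additive.ofMul (map_one _)
      smul_add := fun g v w => congrArg Additive.ofMul (map_mul _ _ _) }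
  have tr : TransNZ (G ⧸ O) (Additive O) := fun v w hv hw => by
    obtain ⟨c, h3⟩ := isConj_iff.1 (hc _ v.toMul.2 _ w.toMul.2
      (fun e => hv (congrArg Additive.ofMul (Subtype.ext e)))
      fun e => hw (congrArg Additive.ofMul (Subtype.ext e)))
    exact ⟨c, congrArg Additive.ofMul (Subtype.ext h3)⟩
  have := h.normal
  have : IsMulCommutative V := ⟨⟨fun a b => Subtype.ext (h.comm a a.2 b b.2)⟩⟩
  obtain ⟨E, _, _, _, ⟨D⟩⟩ := tr.exists_FD V
  obtain ⟨v, hv, v1⟩ : ∃ v : V, D.ι v = 1 ∧ v ≠ 1 := by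
    by_contra! h3
    obtain ⟨g, hg⟩ := (isCyclic_of_injective_ringHom ((Units.coeHom E).comp D.ι)
      (Units.val_injective.comp ((injective_iff_map_eq_one _).2 h3))).exists_generator
    have h4 := orderOf_dvd_of_pow_eq_one (x := g) (Subtype.ext (h.exp g g.2))
    rw [orderOf_eq_card_of_forall_mem_zpowers hg, hV] at h4
    omega
  have hψ : V ≤ ψ.ker := fun w hw => by
    by_cases w1 : w = 1
    · exact w1 ▸ one_mem _
    obtain ⟨g, -, rfl⟩ := h.tr v v.2 w hw (fun e => v1 (Subtype.ext e)) w1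
    refine Normal.conj_mem inferInstance _ (MulEquiv.ext fun y => ?_) g
    have h3 := D.smul_eq v (Additive.ofMul y)
    rw [hv, Units.val_one, one_smul] at h3
    exact congrArg Additive.toMul h3
  have tr' : TransNZ H (Additive O) := fun v w hv hw => by
    obtain ⟨c, rfl⟩ := tr v w hv hw
    obtain ⟨⟨a, b⟩, rfl⟩ := h.compl.2 c
    refine ⟨b, ?_⟩
    change _ = ((a : G ⧸ O) * b) • v
    rw [mul_smul]
    exact congrArg Additive.ofMul (DFunLike.congr_fun (hψ a.2) _).symm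
  have h3 : Nat.card O - 1 ∣ 120 := hH ▸ tr'.card_sub_one_dvd
  have h4 : Nat.card O ≠ 31 := fun e1 => by
    have : Fact (Nat.Prime 31) := ⟨by norm_num⟩
    have : Fact (Nat.Prime 5) := ⟨by norm_num⟩
    have := isCyclic_of_prime_card e1
    have h5 := Abelianization.commutator_subset_ker ((IsCyclic.mulAutMulEquiv O).toMonoidHom.comp
      ((ψ.comp H.subtype).comp e.symm.toMonoidHom))
    rw [H11.commutator_sl_eq_top (by norm_num)] at h5
    obtain ⟨v, hv⟩ := exists_ne (0 : Additive O)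
    have h6 := Nat.card_le_card_of_injective (β := Bool) (fun w : Additive O => decide (w = 0))
      fun a b e2 => by
        by_cases a0 : a = 0
        · simpa [a0, eq_comm] using e2
        have key : ∀ w : Additive O, w ≠ 0 → v = w := fun w hw => by
          obtain ⟨c, rfl⟩ := tr' v w hv hw
          have h7 := (map_eq_one_iff _ (IsCyclic.mulAutMulEquiv O).injective).1
            (h5 (mem_top (e c)))
          have h8 : ψ c = 1 := by simpa using h7
          exact congrArg Additive.ofMul (DFunLike.congr_fun h8 _).symm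
        rw [← key a a0, ← key b (by simpa [a0] using e2)]
    change Nat.card O ≤ _ at h6
    rw [e1] at h6
    simp at h6
  have hG : Nat.card G = Nat.card O * 120 * 11 ^ 2 := by
    rw [← O.card_mul_index, index_eq_card, ← h.compl.card_mul_card, hV, hH]
    ring
  obtain ⟨P⟩ : Nonempty (Sylow 11 G) := inferInstance
  have hPk : (P : Subgroup G) ≤ θ.ker := fun x hx => by
    obtain ⟨k, h5⟩ := P.isPGroup' ⟨x, hx⟩
    exact orderOf_eq_one_iff.1 (Nat.eq_one_of_dvd_coprimes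
      ((hp.out.coprime_iff_not_dvd.2 h.cop).pow_left k) (orderOf_dvd_of_pow_eq_one (by
        rw [← map_pow, show x ^ 11 ^ k = 1 from congrArg Subtype.val h5, map_one]))
      (orderOf_dvd_natCard _))
  have : Group.IsNilpotent V := h.isPGroup.isNilpotent
  have : Group.IsNilpotent θ.ker := Subgroup.isNilpotent_of_ker_le_center
    (((QuotientGroup.mk' O).comp θ.ker.subtype).codRestrict V fun x => h.ker.le x.2)
    fun x hx => mem_center_iff.2 fun y => by
      have h5 := congrArg Subtype.val (DFunLike.congr_fun (hψ (h.ker.le y.2))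
        ⟨x, (QuotientGroup.eq_one_iff _).1 (congrArg Subtype.val hx)⟩)
      exact Subtype.ext (mul_inv_eq_iff_eq_mul.1 h5)
  have h5 : ((P.subtype hPk : Sylow 11 θ.ker) : Subgroup θ.ker).Normal :=
    Sylow.normal_of_normalizerCondition Group.normalizerCondition_of_isNilpotent _
  have := (P.subtype hPk).characteristic_of_normal h5
  have : (P : Subgroup G).Normal := by
    rw [← map_subgroupOf_eq_of_le hPk]
    exact inferInstanceAs (((P.subtype hPk : Sylow 11 θ.ker) : Subgroup θ.ker).map _).Normal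
  have h6 : (P : Subgroup G).index = Nat.card O * 120 := by
    obtain ⟨j, hj⟩ := P.isPGroup'.exists_card_eq
    have h7 := P.pow_dvd_card_of_pow_dvd_card (n := 2) (hG ▸ Dvd.intro_left _ rfl)
    have h8 : Nat.card P ∣ 11 ^ 2 := (hj ▸ (hp.out.coprime_iff_not_dvd.2 (by
      rw [hp.out.dvd_mul]
      omega)).pow_left j : (Nat.card P).Coprime (Nat.card O * 120)).dvd_of_dvd_mul_left
        (hG ▸ card_subgroup_dvd_card _)
    rw [← (P : Subgroup G).index_mul_card, Nat.dvd_antisymm h8 h7] at hG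
    omega
  let θ' : G ⧸ (P : Subgroup G) →* H := QuotientGroup.lift _ θ hPk
  have hθ' : Function.Surjective θ' := fun x => by
    obtain ⟨g, rfl⟩ := hθ x
    exact ⟨g, rfl⟩
  have e' := QuotientGroup.quotientKerEquivOfSurjective θ' hθ'
  have h7 : θ'.ker.index = 120 := (Nat.card_congr e'.toEquiv).trans hH
  have h8 := kp_ge _ (QuotientGroup.mk'_surjective (P : Subgroup G)) P.not_dvd_index ∅ (by simp)
  have h10 := Finite.one_lt_card (α := O)
  obtain ⟨d, hd⟩ := sq_of_cls θ'.ker (fun e => by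
    rw [e, index_bot, ← index_eq_card] at h7
    omega) (by
      have := cls_congr e'
      omega)
  rw [h7, ← index_eq_card, h6] at hd
  obtain ⟨c, h11⟩ : ∃ c, Nat.card O = c + 1 := ⟨Nat.card O - 1, by omega⟩
  rw [h11] at h3 h4 hd hO h10
  have h12 := Nat.le_of_dvd (by norm_num) h3
  have h13 : d ≤ 120 := by
    rw [Nat.add_sub_cancel] at h12
    nlinarith
  have h14 : 30 ∣ d := by
    have h15 : ∀ q : ℕ, q.Prime → q ∣ 120 → q ∣ d := fun q h15 h16 =>
      h15.dvd_of_dvd_pow (n := 2) (h16.trans ⟨c, by omega⟩)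
    have := h15 2 (by norm_num) (by norm_num)
    have := h15 3 (by norm_num) (by norm_num)
    have := h15 5 (by norm_num) (by norm_num)
    omega
  obtain ⟨t, rfl⟩ := h14
  have : t ≤ 4 := by omega
  interval_cases t <;> omega

theorem main (hs : IsPSolvable p G) (hd : p ∣ Nat.card G)
    (hc : ∀ x y : G, x ≠ 1 → y ≠ 1 → (∃ k, orderOf x = p ^ k) → (∃ k, orderOf y = p ^ k) →
      IsConj x y) : p ≤ kp p G ∨ (kp p G = p - 1 ∧ Nonempty (G ≃* affineGroup (ZMod p))) ∨
      (p = 11 ∧ kp p G = 9 ∧ Nat.card G = 121 * 120 ∧ ∃ H : Subgroup G, IsFrobeniusComplement H ∧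
        Nonempty (H ≃* Matrix.SpecialLinearGroup (Fin 2) (ZMod 5))) := by
  have cyc : ∀ {X : Type _} [Group X] [IsCyclic X], Nat.card (ConjClasses X) = Nat.card X :=
    fun {X} _ _ => (Nat.card_congr (Equiv.ofBijective ConjClasses.mk
      (@ConjClasses.mk_bijective X (IsCyclic.commGroup (α := X)).toCommMonoid))).symm
  by_cases hO : pPrimeCore p G = ⊥
  · obtain ⟨V, H, π, h⟩ := exists_aff hs hO hd hc
    rw [h.kp_eq]
    rcases h.cases with h1 | ⟨reg, ⟨h1, h2, h3⟩ | ⟨h1, h2, h3, ⟨e⟩⟩⟩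
    · exact .inl h1
    · exact .inr (.inl ⟨cyc.trans h2, h.affine h1 h2⟩)
    · exact .inr (.inr ⟨h1, cls_sl25 e, by rw [← h.compl.card_mul_card, h2, h3], H,
        h.frob reg fun e => by rw [e, card_bot] at h3; omega, ⟨e⟩⟩)
  left
  have h0 := H2.not_dvd_card_pPrimeCore p G
  have lift : ∀ x : G ⧸ pPrimeCore p G, x ≠ 1 → (∃ k, orderOf x = p ^ k) →
      ∃ g : G, x = g ∧ g ≠ 1 ∧ ∃ k, orderOf g = p ^ k := fun x x1 ⟨k, hk⟩ => by
    obtain ⟨g, rfl⟩ := QuotientGroup.mk_surjective x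
    obtain ⟨i, j, h1, h2⟩ := H84.exists_pPart_pow p g
    have h3 : (g : G ⧸ pPrimeCore p G) = (g ^ i : G) := (QuotientGroup.eq.2 ((QuotientGroup.eq_one_iff _).1
      (orderOf_eq_one_iff.1 (Nat.eq_one_of_dvd_coprimes
        ((hp.out.coprime_iff_not_dvd.2 h2).pow_left k) (hk ▸ orderOf_dvd_of_mem_zpowers
          (mul_mem (inv_mem (pow_mem (mem_zpowers _) i)) (mem_zpowers _)))
        (orderOf_map_dvd (QuotientGroup.mk' _) _))))).symm
    obtain ⟨l, -, hl⟩ := (Nat.dvd_prime_pow hp.out).1 (orderOf_dvd_of_pow_eq_one h1)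
    exact ⟨_, h3, fun e => x1 (by rw [h3, e]; rfl), l, hl⟩
  obtain ⟨V, H, π, h⟩ := exists_aff (H18.isPSolvable_quotient hs (pPrimeCore p G))
    (H2.pPrimeCore_quotient_pPrimeCore p G) (((hp.out.dvd_mul).1
      ((pPrimeCore p G).card_mul_index ▸ hd)).resolve_left h0) fun x y x1 y1 hx hy => by
      obtain ⟨g, rfl, h1, h2⟩ := lift x x1 hx
      obtain ⟨k, rfl, h3, h4⟩ := lift y y1 hy
      exact (QuotientGroup.mk' _).map_isConj (hc g k h1 h3 h2 h4)
  obtain ⟨⟨o, ho⟩, o1⟩ := ne_bot_iff_exists_ne_one.1 hO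
  have h1 := kp_ge (π.comp (QuotientGroup.mk' _)) (h.surj.comp (QuotientGroup.mk'_surjective _))
    h.cop {ConjClasses.mk o} fun c hc => ⟨o, (Finset.mem_singleton.1 hc).symm,
      fun e => h0 (e.trans (orderOf_dvd_natCard _ ho)),
      (congrArg π ((QuotientGroup.eq_one_iff o).2 ho)).trans π.map_one,
      fun e => o1 (Subtype.ext e)⟩
  rw [Finset.card_singleton] at h1
  rcases h.cases with h2 | ⟨-, ⟨-, h2, h3⟩ | ⟨h2, h3, h4, ⟨e⟩⟩⟩
  · omega
  · rw [cyc] at h1
    omega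
  · exact eleven h2 _ h0 hO h h3 h4 e

end H34.TL
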