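import Cfsg.Agent.Base
import Cfsg.Agent.H66.CC
import Cfsg.Prelude.Def_Amalgam
import Cfsg.Prelude.Def_Classical
import Cfsg.Prelude.Def_Sz
import Cfsg.Prelude.Def_Transfer
import Mathlib.GroupTheory.SpecificGroups.Alternating
import Mathlib.LinearAlgebra.Matrix.ProjectiveSpecialLinearGroup

/-! Rows S3193, S3194 (simple groups with four or five centraliser orders): the slots.
Proofs: `blueprints/R4.md`. -/

set_option autoImplicit false
set_option linter.unusedSectionVars false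

namespace H34.R4

open Cfsg Subgroup

universe u

section Defs

variable {G : Type*} [Group G]

/-- `C(g)` -/
abbrev cz (g : G) : Subgroup G := centralizer {g}
/-- `|C(g)|` -/
noncomputable abbrev cc (g : G) : ℕ := Nat.card (cz g)
/-- `|C(g)|` is maximal for divisibility. -/
def Mx (g : G) : Prop := ∀ h : G, h ≠ 1 → cc g ∣ cc h → cc h = cc g
/-- `O₂(C(t))` -/
abbrev R2 (t : G) : Subgroup G := pCoreOf 2 (cz t)

variable (G)

/-- The even centraliser orders that are not maximal are all equal to `d`. -/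
def One (d : ℕ) : Prop := ∀ g : G, g ≠ 1 → Even (cc g) → Mx g ∨ cc g = d
/-- Two different even centraliser orders are not maximal. -/
def Two : Prop := ∃ g h g' h' : G, h ≠ 1 ∧ h' ≠ 1 ∧ cz g < cz h ∧ cz g' < cz h' ∧
  Even (cc g) ∧ Even (cc g') ∧ cc g ≠ cc g'
/-- The number of centraliser orders. -/
noncomputable def rk : ℕ := Set.ncard {m : ℕ | ∃ x : G, x ≠ 1 ∧ m = cc x}
/-- All non-central elements of odd order have centraliser order `d`. -/
def OddC (d : ℕ) : Prop := ∀ y : G, Odd (orderOf y) → y ∉ center G → cc y = d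
/-- No `2`-central involution has a `2`-closed centraliser. -/
def NCl : Prop := ∀ (S : Sylow 2 G) (t : G), orderOf t = 2 → (S : Subgroup G) ≤ cz t →
  ¬ ((S : Subgroup G).subgroupOf (cz t)).Normal
/-- The elements of a Sylow `2`-subgroup outside `O₂(C(t))`. -/
def Out (d : ℕ) : Prop := ∀ (S : Sylow 2 G) (t : G), orderOf t = 2 → (S : Subgroup G) ≤ cz t →
  Mx t ∧ OddC (cz t) d ∧ (∃ g ∈ (S : Subgroup G), g ∉ R2 t) ∧
    ∀ g ∈ (S : Subgroup G), g ∉ R2 t → Mx g ∧ cc g = cc t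
/-- The three local outcomes. -/
def Loc : Prop := ¬ NCl G ∨ ((∃ S : Sylow 2 G, IsMulCommutative (S : Subgroup G)) ∧
  ∀ t : G, orderOf t = 2 → Group.IsSolvable (cz t)) ∨
  ∀ t : G, orderOf t = 2 → HasNormalPComplement 2 (cz t)
/-- The list. -/
def Lst : Prop :=
  (∃ (F : Type) (_ : Field F) (_ : Fintype F), 3 < Fintype.card F ∧
    Nonempty (G ≃* Matrix.ProjectiveSpecialLinearGroup (Fin 2) F)) ∨
  Lie.IsoSuzuki G ∨ Nonempty (G ≃* alternatingGroup (Fin 7)) ∨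
  (∃ (F : Type) (_ : Field F) (_ : Fintype F) (n : ℕ), 2 ≤ n ∧ Fintype.card F = 2 ^ n ∧
    (Nonempty (G ≃* Matrix.ProjectiveSpecialLinearGroup (Fin 3) F) ∨ Nonempty (G ≃* PSp 2 F))) ∨
  ∃ (F : Type) (_ : Field F) (_ : Fintype F) (n : ℕ), 2 ≤ n ∧ Fintype.card F = (2 ^ n) ^ 2 ∧
    Nonempty (G ≃* PSU 3 F (2 ^ n))
/-- An exact coprime factorisation by two centralisers. -/
def Fac (x y : G) : Prop := x ≠ 1 ∧ y ≠ 1 ∧ (cc x).Coprime (cc y) ∧ cc x * cc y = Nat.card G ∧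
  ∀ k ∈ cz x, k ≠ 1 → cc k = cc x

end Defs

/-- A statement on finite groups. -/
def AllG (P : ∀ (G : Type u) [Group G], Prop) : Prop := ∀ (G : Type u) [Group G] [Finite G], P G
/-- A statement on finite non-abelian simple groups. -/
def AllS (P : ∀ (G : Type u) [Group G], Prop) : Prop :=
  ∀ (G : Type u) [Group G] [Finite G] [IsSimpleGroup G], ¬ IsMulCommutative G → P G
/-- A statement on finite fields. -/
def AllF (P : ∀ (F : Type) [Field F], ℕ → Prop) : Prop :=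
  ∀ (F : Type) [Field F] [Fintype F], P F (Fintype.card F)

def JobTW : Prop := AllG.{u} fun X _ => ∀ d, OddC X d → Group.IsSolvable X ∧
  ((∀ z ∈ center X, Odd (orderOf z) → z = 1) → ∃ a, Nat.card X ∣ d * 2 ^ a)
def JobAB : Prop := AllG.{u} fun X _ => Group.IsSolvable X → ∀ g : X, (∃ k, g ^ 2 ^ k = 1) →
  (∀ q : ℕ, q.Prime → q ≠ 2 → ∃ (w : X) (Q : Subgroup X), IsPGroup q Q ∧ w ∈ Q ∧ Q ≤ cz g ∧
    Q ≤ cz w ∧ ¬ q ∣ Q.relIndex (cz w)) → g ∈ pCore 2 X
def JobOut : Prop := JobTW.{u} → JobAB.{u} → AllG.{u} fun G _ => ∀ d, One G d → NCl G → Out G d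
def JobL1 : Prop := AllG.{u} fun G _ => ∀ d, Out G d → ∀ S : Sylow 2 G,
  IsMulCommutative (S : Subgroup G) ∨ ∀ t : G, orderOf t = 2 → (S : Subgroup G) ≤ cz t →
    ∀ g ∈ (S : Subgroup G), g ∉ R2 t → g * g = 1
def JobL2 : Prop := AllG.{u} fun X _ => ∀ d, OddC X d → ∀ S : Sylow 2 X,
  ¬ IsMulCommutative (S : Subgroup X) → (∃ g ∈ (S : Subgroup X), g ∉ pCore 2 X) →
  (∀ g ∈ (S : Subgroup X), g ∉ pCore 2 X → g * g = 1) →
  HasNormalPComplement 2 X ∧ ∀ r ∈ pCore 2 X, r * r = 1 → (S : Subgroup X) ≤ cz r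
def JobLoc : Prop := JobTW.{u} → JobL1.{u} → JobL2.{u} →
  AllG.{u} fun G _ => ∀ d, (NCl G → Out G d) → Loc G
def JobLst : Prop := AllS.{u} fun G _ => Loc G → Lst G
def JobA7 : Prop := Two (alternatingGroup (Fin 7))
def JobL3 : Prop := AllF fun F _ q => ∀ n, 3 ≤ n → q = 2 ^ n →
  Two (Matrix.ProjectiveSpecialLinearGroup (Fin 3) F)
def JobL34 : Prop := AllF fun F _ q => q = 4 →
  5 ≤ rk (Matrix.ProjectiveSpecialLinearGroup (Fin 3) F)
def JobU3 : Prop := AllF fun F _ q => ∀ n, 2 ≤ n → q = (2 ^ n) ^ 2 → Two (PSU 3 F (2 ^ n))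
def JobSp : Prop := AllF fun F _ q => ∀ n, 2 ≤ n → q = 2 ^ n → Two (PSp 2 F)
def JobSz : Prop := AllF fun F _ q => ∀ m, 1 ≤ m → q = 2 ^ (2 * m + 1) →
  5 ≤ rk (Lie.Sz F (2 ^ (m + 1)))
def JobP2 : Prop := AllF fun F _ q => 3 < q →
  rk (Matrix.ProjectiveSpecialLinearGroup (Fin 2) F) = if Odd q ∧ 7 ≤ q then 4 else 3
def JobK2 : Prop := AllS.{u} fun G _ => rk G = 4 → (∃ d, One G d) ∨ ∃ x y : G, Fac G x y
def JobF1 : Prop := AllS.{u} fun G _ => ∀ x y : G, Fac G x y →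
  H66.IsCC (cz x) ∧ ¬ IsPrimePow (cc x)
def JobF2 : Prop := AllS.{u} fun G _ => ∀ x y : G, Fac G x y → H66.IsCC (cz x) →
  IsPrimePow (cc x)

section Kit

variable {G : Type*} [Group G]

theorem mem_cz {g h : G} : h ∈ cz g ↔ Commute h g := mem_centralizer_singleton_iff
theorem self_mem (g : G) : g ∈ cz g := mem_cz.2 (Commute.refl g)
theorem cz_le_pow (g : G) (k : ℕ) : cz g ≤ cz (g ^ k) := fun _ h => mem_cz.2 ((mem_cz.1 h).pow_right k)
theorem cc_dvd {g h : G} (e : cz g ≤ cz h) : cc g ∣ cc h := card_dvd_of_le e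
theorem ord_dvd {g h : G} (e : h ∈ cz g) : orderOf h ∣ cc g := (cz g).orderOf_dvd_natCard e

variable [Finite G]

theorem cz_eq {g h : G} (e : cz g ≤ cz h) (e' : cc h = cc g) : cz g = cz h :=
  eq_of_le_of_card_ge e e'.le
theorem Mx.cz_eq {g h : G} (m : Mx g) (h1 : h ≠ 1) (e : cz g ≤ cz h) : cz g = cz h :=
  R4.cz_eq e (m h h1 (cc_dvd e))
theorem cz_mul {a b : G} (h : Commute a b) (hc : (orderOf a).Coprime (orderOf b)) :
    cz (a * b) = cz a ⊓ cz b := by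
  have k : ∀ {a b : G}, Commute a b → (orderOf a).Coprime (orderOf b) → cz (a * b) ≤ cz a :=
    fun {a b} h hc g hg => by
      obtain ⟨m, hm⟩ := exists_pow_eq_self_of_coprime (x := a) hc.symm
      have := cz_le_pow (a * b) (orderOf b * m) hg
      rwa [pow_mul, h.mul_pow, pow_orderOf_eq_one, mul_one, hm] at this
  exact le_antisymm (le_inf (k h hc) (h.eq ▸ k h.symm hc.symm)) fun g hg =>
    mem_cz.2 ((mem_cz.1 hg.1).mul_right (mem_cz.1 hg.2))
theorem One.not_two {d : ℕ} (h : One G d) : ¬ Two G := by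
  rintro ⟨g, a, g', a', a1, a2, l1, l2, e1, e2, ne⟩
  have k : ∀ {g a : G}, a ≠ 1 → cz g < cz a → Even (cc g) → cc g = d := fun {g a} a1 l e =>
    (h g (fun g1 => l.not_ge (g1 ▸ fun x _ => mem_cz.2 (Commute.one_right x))) e).resolve_left
      fun m => l.ne (m.cz_eq a1 l.le)
  exact ne ((k a1 l1 e1).trans (k a2 l2 e2).symm)
/-- The usual way to get `Two`. -/
theorem two_of {g w t y v : G} (h1 : g * g ≠ 1) (h2 : Commute w (g * g)) (h3 : ¬ Commute w g)
    (h4 : ∀ z, Commute z g → Odd (orderOf z) → z = 1) (h5 : orderOf t = 2) (h6 : Odd (orderOf y))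
    (h7 : Commute t y) (h8 : Commute v t) (h9 : ¬ Commute v y) : Two G := by
  have c := cz_mul h7 (h5 ▸ Nat.coprime_two_left.2 h6)
  refine ⟨g, g * g, t * y, t, h1, fun e => by simp [e] at h5,
    (sq g ▸ cz_le_pow g 2).lt_of_ne fun e => h3 (mem_cz.1 (e ▸ mem_cz.2 h2)),
    (c ▸ inf_le_left).lt_of_ne fun e => h9 (mem_cz.1 (c.le (e ▸ mem_cz.2 h8)).2), ?_,
    even_iff_two_dvd.2 (h5 ▸ ord_dvd (c.ge ⟨self_mem t, mem_cz.2 h7⟩)), fun e => ?_⟩
  · refine (Nat.not_odd_iff_even.1 fun o => h1 ?_).trans_dvd (ord_dvd (self_mem g))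
    rw [h4 g (Commute.refl g) o, mul_one]
  · obtain ⟨p, p1, p2⟩ := Nat.exists_prime_and_dvd (n := orderOf y) fun e =>
      h9 (orderOf_eq_one_iff.1 e ▸ Commute.one_right v)
    have := Fact.mk p1
    obtain ⟨z, hz⟩ := exists_prime_orderOf_dvd_card' (G := cz g) p
      (p2.trans (e ▸ ord_dvd (c.ge ⟨mem_cz.2 h7.symm, self_mem y⟩) : _ ∣ cc g))
    rw [← orderOf_coe] at hz
    rw [h4 z (mem_cz.1 z.2) (hz ▸ h6.of_dvd_nat p2), orderOf_one] at hz
    exact p1.one_lt.ne hz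
theorem le_rk (s : Finset ℕ) (h : ∀ m ∈ s, ∃ x : G, x ≠ 1 ∧ m = cc x) : s.card ≤ rk G := by
  rw [← Set.ncard_coe_finset]
  exact Set.ncard_le_ncard h ((Set.finite_range (cc (G := G))).subset fun _ ⟨x, _, e⟩ => ⟨x, e.symm⟩)
theorem ncard_index (hZ : center G = ⊥) :
    Set.ncard {m : ℕ | ∃ x : G, x ∉ center G ∧ m = (centralizer ({x} : Set G)).index} = rk G := by
  have k : ∀ x : G, Nat.card G / cc x = (cz x).index := fun x =>
    Nat.div_eq_of_eq_mul_left Nat.card_pos (cz x).index_mul_card.symm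
  have i : Set.InjOn (fun m => Nat.card G / m) {m : ℕ | ∃ x : G, x ≠ 1 ∧ m = cc x} := by
    rintro _ ⟨x, -, rfl⟩ _ ⟨y, -, rfl⟩ e
    have h := (cz x).index_mul_card.trans (cz y).index_mul_card.symm
    rw [← k, ← k, show Nat.card G / cc x = Nat.card G / cc y from e, k] at h
    exact Nat.eq_of_mul_eq_mul_left (Nat.pos_of_ne_zero index_ne_zero_of_finite) h
  rw [rk, ← i.ncard_image, hZ]
  congr 1
  ext m
  exact ⟨fun ⟨x, h, e⟩ => ⟨_, ⟨x, h, rfl⟩, (k x).trans e.symm⟩,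
    fun ⟨_, ⟨x, h, rfl⟩, e⟩ => ⟨x, h, e.symm.trans (k x)⟩⟩

omit [Finite G] in
theorem cz_map {H : Type*} [Group H] (e : G ≃* H) (g : G) : cz (e g) = (cz g).map e.toMonoidHom := by
  ext x
  obtain ⟨x, rfl⟩ := e.surjective x
  rw [mem_cz, ← MulEquiv.coe_toMonoidHom, mem_map_iff_mem e.injective, mem_cz]
  exact ⟨fun h => e.injective (by simpa using h.eq), fun h => h.map e.toMonoidHom⟩
omit [Finite G] in
theorem cc_map {H : Type*} [Group H] (e : G ≃* H) (g : G) : cc (e g) = cc g := by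
  rw [cc, cz_map, card_map_of_injective e.injective]
omit [Finite G] in
theorem rk_congr {H : Type*} [Group H] (e : G ≃* H) : rk G = rk H := by
  rw [rk, rk]
  congr 1
  ext m
  exact ⟨fun ⟨x, h, m⟩ => ⟨e x, by simpa using h, m.trans (cc_map e x).symm⟩,
    fun ⟨x, h, m⟩ => ⟨e.symm x, by simpa using h, m.trans (cc_map e.symm x).symm⟩⟩
omit [Finite G] in
theorem Two.map {H : Type*} [Group H] (e : G ≃* H) (h : Two G) : Two H := by
  obtain ⟨g, a, g', a', a1, a2, l1, l2, e1, e2, ne⟩ := h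
  refine ⟨e g, e a, e g', e a', by simpa using a1, by simpa using a2, ?_, ?_, by rwa [cc_map],
    by rwa [cc_map], by rwa [cc_map, cc_map]⟩ <;>
  rwa [cz_map, cz_map, map_lt_map_iff_of_injective e.injective]

end Kit

end H34.R4
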