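import Mathlib
import Cfsg.Agent.Base
import Cfsg.Agent.H52.RCSpec

/-! Slot Y2a of tower RC (S3860). -/

set_option autoImplicit false

namespace H34.RCY2a
open Subgroup H52.RC
universe u

theorem inv_conj_of_Cs {G : Type u} [Group G] {k g y : G} (hk : k ∈ Cs y) (hg : Inv g y) :
    Inv (k * g * k⁻¹) y := by
  have hk' : k⁻¹ ∈ Cs y := inv_mem hk
  unfold H52.RC.Inv at *
  have e : k * g * k⁻¹ * y * (k * g * k⁻¹)⁻¹ = k * (g * (k⁻¹ * y * k⁻¹⁻¹) * g⁻¹) * k⁻¹ := by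
    group
  rcases mem_Cs.1 hk' with h | h
  · have h2 : k * y * k⁻¹ = y := by
      calc k * y * k⁻¹ = k * (k⁻¹ * y * k⁻¹⁻¹) * k⁻¹ := by rw [h]
        _ = y := by group
    rw [e, h, hg]
    calc k * y⁻¹ * k⁻¹ = (k * y * k⁻¹)⁻¹ := by group
      _ = y⁻¹ := by rw [h2]
  · unfold H52.RC.Inv at h
    have h2 : k * y * k⁻¹ = y⁻¹ := by
      have : k * y⁻¹ * k⁻¹ = y := by
        calc k * y⁻¹ * k⁻¹ = k * (k⁻¹ * y * k⁻¹⁻¹) * k⁻¹ := by rw [h]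
          _ = y := by group
      calc k * y * k⁻¹ = (k * y⁻¹ * k⁻¹)⁻¹ := by group
        _ = y⁻¹ := by rw [this]
    rw [e, h]
    have h3 : g * y⁻¹ * g⁻¹ = y := by
      calc g * y⁻¹ * g⁻¹ = (g * y * g⁻¹)⁻¹ := by group
        _ = y := by rw [hg, inv_inv]
    rw [h3, h2]

theorem pg_zpowers {G : Type u} [Group G] {t : G} (ht : P2 t) : IsPGroup 2 (zpowers t) := by
  obtain ⟨n, hn⟩ := ht
  intro ⟨x, hx⟩
  obtain ⟨i, rfl⟩ := mem_zpowers_iff.1 hx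
  refine ⟨n, Subtype.ext ?_⟩
  change (t ^ i) ^ 2 ^ n = 1
  rw [← zpow_natCast, ← zpow_mul, mul_comm, zpow_mul, zpow_natCast, hn, one_zpow]

theorem jobY2a : JobY2a.{u} := by
  intro hKA _ hLC hLZ hHYP G _ _ m L _ hSt v hv hn2 g y hgv hgy hvy hodd
  by_contra hy1
  obtain ⟨_, hKA2, _, _, _, _, hKA7, hKA8, hKA9⟩ := hKA G
  obtain ⟨_, _, _, hv4⟩ := hLZ G m L hSt
  obtain ⟨hP2, hvc, hvm, _, _, hct, hsyl, _, htwo⟩ := hv4 v hv
  obtain ⟨hm, _⟩ := (hLC G m hSt.1).1 v y g hP2 hvc hodd hy1 hvy hgv hgy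
  have hvK : zpowers v ≤ C1 v ⊓ C1 y := by
    rw [zpowers_le]
    exact ⟨mem_C1.2 (Commute.refl v), mem_C1.2 hvy⟩
  obtain ⟨T, hvT, hT, hTc⟩ := hKA7 (C1 v ⊓ C1 y) (zpowers v) (pg_zpowers hP2) hvK
  rw [hm] at hTc
  have hvT' : v ∈ T := hvT (mem_zpowers v)
  have hC1Ct : C1 v ≤ Ct L v := by
    intro c hc
    rw [mem_Ct, (mem_C1.1 hc).eq]
    simp
  have hTK : T ≤ Ct L v ⊓ Cs y := by
    intro t ht
    refine ⟨hC1Ct (hT.1 ht).1, mem_Cs.2 (Or.inl ?_)⟩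
    rw [(mem_C1.1 (hT.1 ht).2).eq]; group
  obtain ⟨T1, hTT1, hT1, _⟩ := hKA7 (Ct L v ⊓ Cs y) T hT.2.1 hTK
  obtain ⟨k, _, hk2, hkinv⟩ := hKA2 g
  have hgK : zpowers (g ^ k) ≤ Ct L v ⊓ Cs y := by
    rw [zpowers_le]
    refine pow_mem (mem_inf.2 ⟨?_, mem_Cs.2 (Or.inr hgy)⟩) k
    rw [mem_Ct, hgv]
    have : v⁻¹ * v⁻¹ = (v ^ 2)⁻¹ := by rw [pow_two]; group
    rw [this]
    exact inv_mem hv.2.2.1
  obtain ⟨c, hc, hcs⟩ := (hKA8 _ T1 hT1).2.2 (zpowers (g ^ k)) (pg_zpowers hk2) hgK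
  have hs1 : c * g ^ k * c⁻¹ ∈ T1 := hcs _ (mem_zpowers _)
  have hsinv : Inv (c * g ^ k * c⁻¹) y := inv_conj_of_Cs hc.2 (hkinv y hgy)
  obtain ⟨P, hT1P, hP, _⟩ := hKA7 (Ct L v) T1 hT1.2.1 (hT1.1.trans inf_le_left)
  obtain ⟨hPc, hPcard⟩ := hsyl P hP
  have hTP : T ≤ P := hTT1.trans hT1P
  have hTeq : T = P ⊓ C1 v := by
    refine eq_of_le_of_card_ge (le_inf hTP (hT.1.trans inf_le_left)) ?_
    rw [hPc, hTc]
  have hsq : ∀ p ∈ P, p ^ 2 ∈ T := by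
    intro p hp
    rw [hTeq]
    exact ⟨pow_mem hp 2, mem_C1.2 (hct p (hP.1 hp)).2.2.1⟩
  have hcen : ∀ t ∈ centralizer (T : Set G), P2 t → t ∈ T := by
    intro t ht ht2
    have hn : zpowers t ≤ normalizer (T : Set G) := by
      rw [zpowers_le]
      exact centralizer_le_normalizer _ ht
    have hpg : IsPGroup 2 (zpowers t ⊔ T : Subgroup G) :=
      IsPGroup.to_sup_of_normal_right' (pg_zpowers ht2) hT.2.1 hn
    have hle : zpowers t ⊔ T ≤ C1 v := by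
      refine sup_le ?_ (hT.1.trans inf_le_left)
      rw [zpowers_le]
      exact mem_C1.2 (mem_centralizer_iff.1 ht v hvT').symm
    have h1 := (hKA9 _ _ hpg hle).1
    rw [hvm, ← hTc] at h1
    have h2 : T = zpowers t ⊔ T := eq_of_le_of_card_ge le_sup_right h1
    rw [h2]
    exact mem_sup_left (mem_zpowers t)
  have hyc : y ∈ centralizer (T : Set G) := by
    rw [mem_centralizer_iff]
    intro t ht
    exact (mem_C1.1 (hT.1 ht).2).eq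
  have hb := hHYP G m hSt.1 P T y _ hP.2.1 hTP hsq hcen hodd hy1 hyc (hT1P hs1) hsinv
  rw [hPcard, pow_succ] at hb
  exact hn2 (htwo.2 (Nat.le_of_mul_le_mul_left hb (by positivity)))

end H34.RCY2a
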