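/- SPIN tower: the steps `Span` and `Intg`. -/
import Cfsg.Agent.H2.SpSpec

set_option autoImplicit false

namespace H34.SpSpan
open H2.Sp MvPolynomial

/-- Products of `q`'s of total degree `e`. -/
noncomputable def U (e : ℤ) : Submodule ℚ Γ :=
  Submodule.span ℚ {f | ∃ L : List ℕ, (L.sum : ℤ) = e ∧ f = (L.map q).prod}

theorem U_mul {a b : ℤ} {f g : Γ} (hf : f ∈ U a) (hg : g ∈ U b) : f * g ∈ U (a + b) := by
  have := Submodule.mul_mem_mul hf hg
  rw [U, U, Submodule.span_mul_span] at this
  refine Submodule.span_mono ?_ this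
  rintro _ ⟨_, ⟨L, rfl, rfl⟩, _, ⟨L', rfl, rfl⟩, rfl⟩
  exact ⟨L ++ L', by simp, by simp⟩

theorem U_neg {e : ℤ} (he : e < 0) {f : Γ} (hf : f ∈ U e) : f = 0 := by
  have : U e = ⊥ := Submodule.span_eq_bot.2 (by rintro _ ⟨L, h, -⟩; omega)
  rwa [this] at hf

theorem qz_mem (a : ℤ) : qz a ∈ U a := by
  unfold qz
  split_ifs with h
  · exact Submodule.subset_span ⟨[a.toNat], by simpa using h, by simp⟩
  · exact zero_mem _

theorem qz_nat (n : ℕ) : qz n = q n := by simp [qz]

theorem coeff_zero_S (f : Γ) : (S f).coeff 0 = f := by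
  have : (Polynomial.constantCoeff : Polynomial Γ →+* Γ).comp (S : Γ →+* Polynomial Γ) =
      RingHom.id Γ := by
    apply MvPolynomial.ringHom_ext
    · intro r
      have := S.commutes r
      simp only [RingHom.comp_apply, RingHom.coe_coe, RingHom.id_apply]
      rw [show (C r : Γ) = algebraMap ℚ Γ r from rfl, this]
      simp [Polynomial.algebraMap_apply]
    · intro i
      simp [S, Polynomial.coeff_monomial]
  exact congrArg (fun h : Γ →+* Γ => h f) this

theorem coeff_S_mem (K : Kit) {e : ℤ} {f : Γ} (hf : f ∈ U e) (j : ℕ) :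
    (S f).coeff j ∈ U (e - j) := by
  induction hf using Submodule.span_induction generalizing j with
  | mem f hf =>
    obtain ⟨L, rfl, rfl⟩ := hf
    induction L generalizing j with
    | nil =>
      simp only [List.map_nil, List.prod_nil, map_one, Polynomial.coeff_one]
      split_ifs with h
      · exact Submodule.subset_span ⟨[], by simp [h], by simp⟩
      · exact zero_mem _
    | cons n L ih =>
      rw [List.map_cons, List.prod_cons, map_mul, Polynomial.coeff_mul]
      refine sum_mem fun x hx => ?_
      have h1 : (S (q n)).coeff x.1 ∈ U (n - x.1) := by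
        rw [K.S_q]
        split_ifs with h
        · simpa [h, qz_nat] using qz_mem n
        · exact zsmul_mem (qz_mem _) _
      have := U_mul h1 (ih x.2)
      have hx' := Finset.HasAntidiagonal.mem_antidiagonal.1 hx
      convert this using 2
      rw [← hx']; push_cast [List.sum_cons]; ring
  | zero => simp
  | add f g _ _ hf hg => rw [map_add, Polynomial.coeff_add]; exact add_mem (hf j) (hg j)
  | smul c f _ hf => rw [map_smul, Polynomial.coeff_smul]; exact Submodule.smul_mem _ c (hf j)

theorem jobSpan (K : Kit) (hS : Str) : Span := by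
  set W := Submodule.span ℚ {f | ∃ l, Good l ∧ f = Q l} with hW
  have hφ : ∀ (a : ℤ) f, f ∈ W → φ a f ∈ W := by
    intro a f hf
    induction hf using Submodule.span_induction with
    | mem f hf =>
      obtain ⟨l, -, rfl⟩ := hf
      rw [← Q_cons]
      rcases hS (a :: l) with h | ⟨l', c, hl, -, h, -⟩
      · rw [h]; exact zero_mem _
      · rw [h]; exact Submodule.smul_mem _ c (Submodule.subset_span ⟨l', hl, rfl⟩)
    | zero => simp
    | add f g _ _ hf hg => rw [map_add]; exact add_mem hf hg
    | smul c f _ hf => rw [map_smul]; exact Submodule.smul_mem _ c hf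
  have P : ∀ d : ℕ, ∀ f ∈ U d, f ∈ W ∧ ∀ k, q k * f ∈ W := by
    intro d
    induction d using Nat.strong_induction_on with
    | _ d ih =>
      have h1 : ∀ f ∈ U d, f ∈ W := by
        refine Submodule.span_le.2 ?_
        rintro _ ⟨L, hL, rfl⟩
        induction L with
        | nil => exact Submodule.subset_span ⟨[], ⟨List.nodup_nil, by simp [Pos]⟩, rfl⟩
        | cons n L ihL =>
          rw [List.map_cons, List.prod_cons]
          rw [List.sum_cons] at hL
          rcases Nat.eq_zero_or_pos n with rfl | hn
          · rw [q_zero, one_mul]; exact ihL (by simpa using hL)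
          · exact (ih L.sum (by omega) _ (Submodule.subset_span ⟨L, rfl, rfl⟩)).2 n
      refine fun f hf => ⟨h1 f hf, fun k => ?_⟩
      have h2 := hφ k f (h1 f hf)
      rw [φ_apply, Polynomial.sum_over_range _ (by simp), Finset.sum_range_succ',
        coeff_zero_S] at h2
      have h3 : ∑ j ∈ Finset.range (S f).natDegree,
          qz (k + (j + 1 : ℕ)) * (S f).coeff (j + 1) ∈ W := by
        refine sum_mem fun j _ => ?_
        have h4 := coeff_S_mem K hf (j + 1)
        rcases lt_or_ge d (j + 1) with h | h
        · rw [U_neg (by omega) h4, mul_zero]; exact zero_mem _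
        · rw [← Nat.cast_sub h] at h4
          rw [← Nat.cast_add, qz_nat]
          exact (ih _ (by omega) _ h4).2 _
      have := sub_mem h2 h3
      simpa [qz_nat] using this
  intro m α
  refine (P (List.ofFn α).sum _ (Submodule.subset_span ⟨List.ofFn α, rfl, ?_⟩)).1
  rw [List.map_ofFn, List.prod_ofFn]; rfl

/-- The lattice spanned by the `gq k`. -/
noncomputable def G : Submodule ℤ Γ := Submodule.span ℤ (Set.range gq)

theorem gq_mem (k : ℕ) : gq k ∈ G := Submodule.subset_span ⟨k, rfl⟩

theorem two_qz_mem (a : ℤ) : (2 : ℤ) • qz a ∈ G := by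
  unfold qz
  split_ifs with h
  · by_cases h0 : a.toNat = 0
    · have := gq_mem 0
      rw [h0, q_zero]
      simpa [gq] using this
    · have := gq_mem a.toNat
      rw [gq, if_neg h0] at this
      exact zsmul_mem this _
  · simp

theorem coeff_S_G (K : Kit) {f : Γ} (hf : f ∈ G) (j : ℕ) : (S f).coeff j ∈ G := by
  induction hf using Submodule.span_induction with
  | mem f hf =>
    obtain ⟨k, rfl⟩ := hf
    by_cases hj : j = 0
    · rw [hj, coeff_zero_S]; exact gq_mem k
    · unfold gq
      split_ifs with h
      · rw [map_ofNat, show (2 : Polynomial Γ) = Polynomial.C 2 from rfl, Polynomial.coeff_C,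
          if_neg hj]
        exact zero_mem _
      · rw [K.S_q, if_neg hj, mul_comm, mul_smul]
        exact zsmul_mem (two_qz_mem _) _
  | zero => simp
  | add f g _ _ hf hg => rw [map_add, Polynomial.coeff_add]; exact add_mem hf hg
  | smul c f _ hf =>
    rw [map_zsmul, Polynomial.coeff_smul]; exact Submodule.smul_mem _ c hf

theorem coeff_S_pow (K : Kit) (n : ℕ) {f : Γ} (hf : f ∈ G ^ n) (j : ℕ) :
    (S f).coeff j ∈ G ^ n := by
  induction n generalizing f j with
  | zero =>
    rw [pow_zero, Submodule.mem_one] at hf ⊢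
    obtain ⟨c, rfl⟩ := hf
    rw [eq_intCast, map_intCast, ← Polynomial.C_eq_intCast, Polynomial.coeff_C]
    split_ifs
    · exact ⟨c, by simp⟩
    · exact ⟨0, by simp⟩
  | succ n ih =>
    rw [pow_succ] at hf ⊢
    induction hf using Submodule.mul_induction_on' generalizing j with
    | mem_mul_mem a ha b hb =>
      rw [map_mul, Polynomial.coeff_mul]
      exact sum_mem fun x _ => Submodule.mul_mem_mul (ih ha _) (coeff_S_G K hb _)
    | add f _ g _ hf hg => rw [map_add, Polynomial.coeff_add]; exact add_mem (hf j) (hg j)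

theorem pow_le (n : ℕ) : G ^ n ≤ Submodule.span ℤ {f | ∃ α : Fin n → ℕ, f = ∏ j, gq (α j)} := by
  induction n with
  | zero =>
    rw [pow_zero, Submodule.one_le]
    exact Submodule.subset_span ⟨Fin.elim0, by simp⟩
  | succ n ih =>
    rw [pow_succ']
    refine (mul_le_mul_right ih _).trans ?_
    rw [G, Submodule.span_mul_span]
    refine Submodule.span_mono ?_
    rintro _ ⟨_, ⟨k, rfl⟩, _, ⟨α, rfl⟩, rfl⟩
    exact ⟨Fin.cons k α, by simp [Fin.prod_univ_succ]⟩

theorem jobIntg (K : Kit) : Intg := by
  intro l hl
  refine pow_le _ ?_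
  induction l with
  | nil => rw [Q_nil, List.length_nil, pow_zero]; exact Submodule.one_le.1 le_rfl
  | cons a l ih =>
    have ha : 0 < a := hl a (by simp)
    have := ih fun b hb => hl b (by simp [hb])
    rw [Q_cons, φ_apply, List.length_cons, pow_succ']
    refine sum_mem fun j _ => Submodule.mul_mem_mul ?_ (coeff_S_pow K _ this j)
    have h := gq_mem (a + j).toNat
    rw [gq, if_neg (by omega)] at h
    rwa [qz, if_pos (by omega)]

end H34.SpSpan
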