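import Cfsg.Agent.H34.TLTwo
import Cfsg.Agent.H28.BrauerLeonard
import Cfsg.Agent.H87.LinD
import Cfsg.Agent.H88.Moebius

/-! Coprime transitive linear groups: large primitive prime divisors. -/

set_option autoImplicit false

namespace H34.TL

open Cfsg H28 H90 Module Subgroup MulAction

universe u

theorem exists_pow_order {G : Type*} [Group G] [Finite G] {l : ℕ} (hl : l.Prime) {R : Subgroup G}
    (hR : IsPGroup l R) {g : G} (hg : g ∈ R) (h1 : g ≠ 1) : ∃ s : ℤ, orderOf (g ^ s) = l := by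
  have := Fact.mk hl
  obtain ⟨i, hi⟩ := IsPGroup.iff_orderOf.1 hR ⟨g, hg⟩
  rw [orderOf_mk] at hi
  obtain ⟨⟨_, s, rfl⟩, hu⟩ := exists_prime_orderOf_dvd_card' (G := zpowers g) l (by
    rw [Nat.card_zpowers, hi]
    exact dvd_pow_self _ fun h0 => h1 (orderOf_eq_one_iff.1 (by rw [hi, h0, pow_zero])))
  exact ⟨s, (orderOf_coe _).trans hu⟩

theorem small {H : Type*} [Group H] [Finite H] {l : ℕ} [hl : Fact l.Prime] (h2 : l ≠ 2)
    (h1 : l ∣ Nat.card H) (h3 : ¬ l ^ 2 ∣ Nat.card H) {χ : H → ℂ} (hχ : IsCharacter H χ)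
    (hf : charKer χ = ⊥) (hd : 2 * charDegree χ + 1 ≤ l) :
    (∃ N : Sylow l H, (N : Subgroup H).Normal ∧ Nat.card N = l) ∨
      (2 * charDegree χ + 1 = l ∧ 2 * (center H).index = l * (l ^ 2 - 1)) := by
  obtain ⟨P, hP⟩ := H87.exists_sylow_card h1 h3
  by_cases hn : (P : Subgroup H).Normal
  · exact .inl ⟨P, hn, hP⟩
  obtain ⟨h4, h5⟩ := H87.brauer_half hP hn hχ hf hd
  obtain ⟨e⟩ := h5 (ZMod l) (ZMod.card l)
  have := H88.two_mul_card_psl_two (F := ZMod l) (by rw [ZMod.card]; exact hl.out.odd_of_ne_two h2)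
  rw [ZMod.card, ← Nat.card_congr e.toEquiv] at this
  exact .inr ⟨h4, this⟩

theorem num_big {p n : ℕ} (hp : 5 ≤ p) (hn : 5 ≤ n) :
    2 * n * (n + 1) * (2 * n + 1) * (p - 1) + 1 < p ^ n := by
  induction n, hn using Nat.le_induction with
  | base =>
    rcases hp.eq_or_lt with rfl | h
    · norm_num
    · have : 6 ^ 4 * p ≤ p ^ 4 * p := Nat.mul_le_mul_right _ (Nat.pow_le_pow_left h 4)
      rw [pow_succ p 4]
      omega
  | succ n hn ih =>
    have h1 : 2 * (n + 1) * (n + 1 + 1) * (2 * (n + 1) + 1) ≤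
        5 * (2 * n * (n + 1) * (2 * n + 1)) := by
      have : (n + 2) * (2 * n + 3) ≤ 5 * (n * (2 * n + 1)) := by nlinarith
      nlinarith [Nat.mul_le_mul_left (2 * (n + 1)) this]
    have h2 := Nat.mul_le_mul_right (p - 1) h1
    have h3 := Nat.mul_le_mul_left (p ^ n) hp
    rw [pow_succ]
    rw [mul_assoc 5] at h2
    omega

theorem num_psl {p n x z : ℕ} (hp : p.Prime) (hn : 3 ≤ n) (hl : (2 * n + 1).Prime)
    (hx : 2 * x = (2 * n + 1) * ((2 * n + 1) ^ 2 - 1)) (hpx : ¬ p ∣ x) (hz : z ∣ p - 1)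
    (h : p ^ n - 1 ∣ x * z) : False := by
  have h1 : x = 2 * n * (n + 1) * (2 * n + 1) := by
    rw [show (2 * n + 1) ^ 2 = 4 * n * (n + 1) + 1 by ring, Nat.add_sub_cancel] at hx
    nlinarith
  have h2 : p ≠ 2 := by
    rintro rfl
    exact hpx ⟨n * (n + 1) * (2 * n + 1), by rw [h1]; ring⟩
  have h3 : p ≠ 3 := by
    rintro rfl
    refine hpx (h1 ▸ ?_)
    obtain h | h | h : 3 ∣ n ∨ 3 ∣ n + 1 ∨ 3 ∣ 2 * n + 1 := by
      obtain h | h | h : n % 3 = 0 ∨ n % 3 = 1 ∨ n % 3 = 2 := by omega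
      exacts [.inl (by omega), .inr (.inr (by omega)), .inr (.inl (by omega))]
    · exact ((h.mul_left 2).mul_right _).mul_right _
    · exact (h.mul_left _).mul_right _
    · exact h.mul_left _
  have h4 : p ≠ 4 := by rintro rfl; norm_num at hp
  have h5 : 5 ≤ p := by have := hp.two_le; omega
  have h6 : p ^ n - 1 ∣ x * (p - 1) := h.trans (Nat.mul_dvd_mul_left _ hz)
  obtain rfl | rfl | h7 : n = 3 ∨ n = 4 ∨ 5 ≤ n := by omega
  · obtain ⟨r, rfl⟩ : ∃ r, p = r + 1 := ⟨p - 1, by omega⟩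
    rw [show (r + 1) ^ 3 = (r * r + 3 * r + 3) * r + 1 by ring, Nat.add_sub_cancel,
      Nat.add_sub_cancel, h1] at h6
    have h8 := Nat.dvd_of_mul_dvd_mul_right (by omega) h6
    have h9 := Nat.le_of_dvd (by norm_num) h8
    have : r ≤ 12 := by nlinarith
    have : 4 ≤ r := by omega
    interval_cases r <;> omega
  · norm_num at hl
  · have h8 := Nat.le_of_dvd (Nat.mul_pos (by rw [h1]; positivity) (by omega)) h6
    have := num_big h5 h7
    rw [← h1] at this
    omega

variable {G : Type u} {V : Type*} [Group G] [AddCommGroup V] [DistribMulAction G V]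
  [Finite V] [Finite G] [FaithfulSMul G V]

namespace Ctx

variable {p n l : ℕ} (h : Ctx G V p n)
include h

theorem good_of_ppd (hl : Ppd p n l) (B : Subgroup G) [B.Normal] [IsMulCommutative B]
    (hB : l ∣ Nat.card B) {v : V} (hv : v ≠ 0) : Good G v := (h.cases B hv).resolve_right (by
  rintro ⟨A, E, _, _, _, D, k, -, -, h1, h2, -, h3, -, h4⟩
  exact hl.min k h2 (by nlinarith) (hB.trans h4))

theorem card_dvd_of_ppd (hl : Ppd p n l) {R : Subgroup G} (hR : IsPGroup l R) :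
    Nat.card R ∣ p ^ n - 1 := by
  have := H11.card_dvd_ncard_of_free (H := R) ({0}ᶜ : Set V)
    (fun g w hw => (smul_ne_zero_iff_ne (g : G)).2 hw) fun g w hw e => Subtype.ext (by
      by_contra h1
      obtain ⟨s, hs⟩ := exists_pow_order hl.prime hR g.2 h1
      exact hw (hl.fpf h.prime h.card hs ((stabilizer G w).zpow_mem e s)))
  rwa [Set.ncard_compl, Set.ncard_singleton, h.card] at this

theorem not_sq (hl : Ppd p n l) (h2 : ¬ l ^ 2 ∣ p ^ n - 1) : ¬ l ^ 2 ∣ Nat.card G := fun h3 => by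
  have := Fact.mk hl.prime
  obtain ⟨R, hR⟩ := Sylow.exists_subgroup_card_pow_prime l h3
  exact h2 (hR ▸ h.card_dvd_of_ppd hl (IsPGroup.of_card hR))

omit [Finite G] in
theorem comm_cent (hl : Ppd p n l) {u a b : G} (hu : orderOf u = l) (ha : Commute u a)
    (hb : Commute u b) : a * b = b * a :=
  comm_of_irreducible (V := V) _ (hl.irreducible h.prime h.card hu)
    (fun _ ⟨s, hs⟩ => hs ▸ ha.zpow_left s) fun _ ⟨s, hs⟩ => hs ▸ hb.zpow_left s

theorem large (hn : 3 ≤ n) (hl : Ppd p n l) (hbig : n + 1 < l ∨ l ^ 2 ∣ p ^ n - 1) {v : V}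
    (hv : v ≠ 0) : Good G v := by
  obtain ⟨ψ, k, d, h1, h2, h3, h4, h5, h6⟩ := h.char
  have := Fact.mk hl.prime
  have hd : d ≤ n := by nlinarith
  have hlt := hl.lt h.prime.pos h.pos
  have hlG : l ∣ Nat.card G := hl.dvd.trans h.dvd_card
  by_cases hs : l ^ 2 ∣ Nat.card G
  · obtain ⟨R⟩ : Nonempty (Sylow l G) := inferInstance
    have h7 : l ^ 2 ∣ Nat.card R := R.pow_dvd_card_of_pow_dvd_card hs
    have h8 : l ∣ Nat.card R := (dvd_pow_self l two_ne_zero).trans h7
    have : Nontrivial R := Finite.one_lt_card_iff_nontrivial.1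
      (lt_of_lt_of_le hl.prime.one_lt (Nat.le_of_dvd Nat.card_pos h8))
    have := R.isPGroup'.center_nontrivial
    obtain ⟨⟨⟨z, hz⟩, hz1⟩, hz2⟩ := exists_ne (1 : center R)
    obtain ⟨s, hs⟩ := exists_pow_order hl.prime R.isPGroup' hz
      fun e => hz2 (Subtype.ext (Subtype.ext e))
    have hc : ∀ a ∈ (R : Subgroup G), ∀ b ∈ (R : Subgroup G), a * b = b * a := fun a ha b hb =>
      h.comm_cent hl hs (Commute.zpow_left (congrArg Subtype.val
        (mem_center_iff.1 hz1 ⟨a, ha⟩)).symm s) (Commute.zpow_left (congrArg Subtype.val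
          (mem_center_iff.1 hz1 ⟨b, hb⟩)).symm s)
    have : IsMulCommutative R := ⟨⟨fun a b => Subtype.ext (hc a a.2 b b.2)⟩⟩
    have := sylow_normal_of_small_degree R (fun x hx h0 => le_antisymm (fun y hy r hr => by
      obtain ⟨s, hs⟩ := exists_pow_order hl.prime R.isPGroup' hx h0
      exact h.comm_cent hl hs (Commute.zpow_left (hc x hx r hr) s)
        (Commute.zpow_left (mem_centralizer_singleton_iff.1 hy).symm s))
      (centralizer_le (Set.singleton_subset_iff.2 hx))) h1.isCharacter h2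
      (lt_of_lt_of_le (by nlinarith) (Nat.le_of_dvd Nat.card_pos h7))
    exact h.good_of_ppd hl R h8 hv
  have h7 : n + 1 < l := hbig.resolve_right fun e => hs (e.trans h.dvd_card)
  have h8 : 2 * n + 1 ≤ l := by
    obtain ⟨c, hc⟩ := H27.dvd_sub_one_of_primitive h.prime.two_le h.pos hl.prime hl.dvd hl.min
    have : 2 ≤ c := by
      by_contra h9
      have : c = 0 ∨ c = 1 := by omega
      rcases this with rfl | rfl <;> omega
    have := Nat.mul_le_mul_left n this
    omega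
  rcases small (by omega) hlG hs h1.isCharacter h2 (by omega) with ⟨N, _, hN⟩ | ⟨h9, h10⟩
  · have := isCyclic_of_prime_card hN
    exact h.good_of_ppd hl N hN.symm.dvd hv
  · obtain rfl : l = 2 * n + 1 := by omega
    obtain rfl : k = 1 := by nlinarith
    rw [pow_one] at h6
    exact (num_psl h.prime hn hl.prime h10 (fun e => h.cop (e.trans (index_dvd_card _))) h6
      (by rw [index_mul_card]; exact h.dvd_card)).elim

end Ctx

end H34.TL
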