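import Cfsg.Agent.H34.TLSemi
import Cfsg.Agent.S4473
import Cfsg.Agent.H24.ClassCount

/-! Coprime transitive linear groups of dimension two. -/

set_option autoImplicit false

namespace H34.TL

open Cfsg H28 H90 H61 Module Subgroup MulAction Cfsg.Agent.S4473

universe u

theorem card_a4 : Nat.card (alternatingGroup (Fin 4)) = 12 := by
  rw [Nat.card_eq_fintype_card, card_alternatingGroup]; rfl

theorem card_s4 : Nat.card (Equiv.Perm (Fin 4)) = 24 := by
  rw [Nat.card_perm, Nat.card_eq_fintype_card, Fintype.card_fin]; rfl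

theorem card_a5 : Nat.card (alternatingGroup (Fin 5)) = 60 := by
  rw [Nat.card_eq_fintype_card, card_alternatingGroup]; rfl

theorem cls_s4 : Nat.card (ConjClasses (Equiv.Perm (Fin 4))) = 5 := by
  have h := sum_card_centralizer (G := Equiv.Perm (Fin 4))
  rw [card_s4] at h
  simp only [Nat.card_eq_fintype_card, Fintype.card_subtype, mem_centralizer_singleton_iff] at h
  rw [show ∑ g : Equiv.Perm (Fin 4), (Finset.univ.filter fun x => x * g = g * x).card = 120 by
    decide +kernel] at h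
  rw [Nat.card_eq_fintype_card]
  omega

theorem cls_a4 : Nat.card (ConjClasses (alternatingGroup (Fin 4))) = 4 := by
  have h := sum_card_centralizer (G := alternatingGroup (Fin 4))
  rw [card_a4] at h
  simp only [Nat.card_eq_fintype_card, Fintype.card_subtype, mem_centralizer_singleton_iff] at h
  rw [show ∑ g : alternatingGroup (Fin 4), (Finset.univ.filter fun x => x * g = g * x).card = 48 by
    decide +kernel] at h
  rw [Nat.card_eq_fintype_card]
  omega

theorem cls_a5 : Nat.card (ConjClasses (alternatingGroup (Fin 5))) = 5 := by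
  have h := sum_card_centralizer (G := alternatingGroup (Fin 5))
  rw [card_a5] at h
  simp only [Nat.card_eq_fintype_card, Fintype.card_subtype, mem_centralizer_singleton_iff] at h
  rw [show ∑ g : alternatingGroup (Fin 5), (Finset.univ.filter fun x => x * g = g * x).card = 300 by
    decide +kernel] at h
  rw [Nat.card_eq_fintype_card]
  omega

theorem cls_congr {X Y : Type*} [Group X] [Group Y] [Finite X] (e : X ≃* Y) :
    Nat.card (ConjClasses Y) ≤ Nat.card (ConjClasses X) :=
  Nat.card_le_card_of_surjective _ (ConjClasses.map_surjective (f := e.toMonoidHom) e.surjective)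

theorem deg_two {G : Type*} [Group G] [Finite G] {χ : G → ℂ} (hχ : IsIrrCharacter G χ)
    (hf : charKer χ = ⊥) (h2 : charDegree χ ≤ 2) :
    (∃ A : Subgroup G, A.Normal ∧ IsMulCommutative A ∧ A.index ≤ 2) ∨
      Nonempty (G ⧸ center G ≃* alternatingGroup (Fin 4)) ∨
      Nonempty (G ⧸ center G ≃* Equiv.Perm (Fin 4)) ∨
      Nonempty (G ⧸ center G ≃* alternatingGroup (Fin 5)) := by
  by_cases h1 : charDegree χ = 1
  · have h3 := hχ.charDegree_eq_one_iff.1 h1
    rw [hf, le_bot_iff, commutator_def, commutator_eq_bot_iff_le_centralizer] at h3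
    exact .inl ⟨⊤, inferInstance, le_centralizer_iff_isMulCommutative.1 h3, by simp⟩
  obtain ⟨φ, hφ⟩ := exists_pgl hχ hf (by have := hχ.charDegree_pos; omega)
  have : Finite φ.range := Finite.of_surjective _ φ.rangeRestrict_surjective
  obtain ⟨p, hp1, hp⟩ := Nat.exists_infinite_primes (Nat.card φ.range + 1)
  have hd : ¬ p ∣ Nat.card φ.range := fun h => by
    have := Nat.le_of_dvd Nat.card_pos h
    omega
  have h := hur_fin φ.range hp hd
  have hk : φ.rangeRestrict.ker ≤ center G := by rw [MonoidHom.ker_rangeRestrict, hφ]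
  have hc : ∀ x, IsMulCommutative ((stabilizer φ.range x).comap φ.rangeRestrict) := fun x =>
    haveI := h.isCyclic_stabilizer (h.Q_eq_bot_of_not_dvd hd x)
    ⟨⟨fun a b => Subtype.ext (comm_of_cyc _ hk _ a a.2 b b.2)⟩⟩
  let e₀ : G ⧸ center G ≃* φ.range :=
    (QuotientGroup.quotientMulEquivOfEq hφ.symm).trans (QuotientGroup.quotientKerEquivRange φ)
  rcases h.classify with ⟨x, hx⟩ | ⟨x, y, hxy, -, h1, w, hw, -⟩ | ⟨-, ⟨e⟩⟩ | ⟨-, ⟨e⟩⟩ | ⟨-, ⟨e⟩⟩ |
    ⟨x, u, d, h1, h3, -⟩
  · have h4 : (stabilizer φ.range x).comap φ.rangeRestrict = ⊤ := eq_top_iff.2 fun g _ => hx _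
    exact .inl ⟨⊤, inferInstance, h4 ▸ hc x, by simp⟩
  · have hi : ((stabilizer φ.range x).comap φ.rangeRestrict).index = 2 := by
      rw [index_comap_of_surjective _ φ.rangeRestrict_surjective, index_eq_two_iff']
      refine ⟨w, fun b => ?_⟩
      have hb : b ∈ pairStab φ.range x y := h1 ▸ mem_top b
      have hw' : w ∈ pairStab φ.range x y := h1 ▸ mem_top w
      simp only [mem_stabilizer_iff, mul_smul]
      rcases hw' with ⟨h3, -⟩ | ⟨-, h4⟩
      · exact absurd (h3.symm.trans hw) hxy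
      rcases hb with ⟨h5, -⟩ | ⟨h5, -⟩
      · rw [h5, hw]; exact Or.inr ⟨rfl, hxy.symm⟩
      · rw [h5, h4]; exact Or.inl ⟨rfl, hxy.symm⟩
    exact .inl ⟨_, normal_of_index_eq_two hi, hc x, hi.le⟩
  · exact .inr (.inl ⟨e₀.trans e⟩)
  · exact .inr (.inr (.inl ⟨e₀.trans e⟩))
  · exact .inr (.inr (.inr ⟨e₀.trans e⟩))
  · rw [h.Q_eq_bot_of_not_dvd hd x, card_bot] at h3
    omega

theorem num_two {p z x t k : ℕ} (hp : p.Prime) (hz : z ≤ p - 1) (hx : x = 12 ∨ x = 24 ∨ x = 60)
    (hpx : ¬ p ∣ x) (h : x * z = (p ^ 2 - 1) * t) (hk : k ≤ z * 5) : k + t < p ^ 2 := by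
  have h2 : p ≠ 2 := by rintro rfl; omega
  have h3 : p ≠ 3 := by rintro rfl; omega
  have h4 : p ≠ 4 := by rintro rfl; norm_num at hp
  have h6 : p ≠ 6 := by rintro rfl; norm_num at hp
  have := hp.two_le
  obtain ⟨r, rfl⟩ : ∃ r, p = r + 1 := ⟨p - 1, by omega⟩
  rw [show (r + 1) ^ 2 - 1 = (r + 2) * r by rw [show (r + 1) ^ 2 = (r + 2) * r + 1 by ring]; rfl]
    at h
  rw [Nat.add_sub_cancel] at hz
  have h5 : (r + 2) * t ≤ x := by
    refine Nat.le_of_mul_le_mul_right ?_ (show 0 < r by omega)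
    nlinarith [Nat.mul_le_mul_left x hz]
  by_cases h7 : r = 4
  · subst h7
    omega
  · have h8 : 8 * t ≤ (r + 2) * t := Nat.mul_le_mul_right _ (by omega)
    have h9 : 6 * r ≤ r * r := Nat.mul_le_mul_right _ (by omega)
    have : (r + 1) ^ 2 = r * r + 2 * r + 1 := by ring
    omega

variable {G : Type u} {V : Type*} [Group G] [AddCommGroup V] [DistribMulAction G V]
  [Finite V] [Finite G] [FaithfulSMul G V]

theorem exists_char {A : Subgroup G} {E : Type*} [Field E] [Finite E] [Module E V] (D : FD V A E)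
    [Nontrivial V] {p : ℕ} (hp : p.Prime) [CharP E p] (hG : ¬ p ∣ Nat.card G) {X : Type u}
    [Group X] (j : X →* G) (hj : Function.Injective j) (hA : ∀ x, j x ∈ centralizer (A : Set G))
    (hirr : ∀ W : AddSubgroup V, (∀ x, ∀ v ∈ W, j x • v ∈ W) → W = ⊥ ∨ W = ⊤) :
    ∃ ψ : X → ℂ, IsIrrCharacter X ψ ∧ charKer ψ = ⊥ ∧ charDegree ψ ≤ finrank E V := by
  have := Fact.mk hp
  have := Finite.of_injective j hj
  have : Module.Finite E V := Module.Finite.of_finite
  refine exists_lift p (fun h => hG (h.trans (card_dvd_of_injective j hj)))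
    { toFun := fun x => D.lin ⟨j x, hA x⟩
      map_one' := LinearMap.ext fun v => by
        change j 1 • v = v
        rw [map_one, one_smul]
      map_mul' := fun x y => LinearMap.ext fun v => by
        change j (x * y) • v = j x • j y • v
        rw [map_mul, mul_smul] } fun N hN v hv h => ?_
  let W : AddSubgroup V :=
    { carrier := {w | ∀ y ∈ N, j y • w = w}
      zero_mem' := fun y _ => smul_zero _
      add_mem' := fun ha hb y hy => by rw [smul_add, ha y hy, hb y hy]
      neg_mem' := fun ha y hy => by rw [smul_neg, ha y hy] }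
  rcases hirr W fun x w hw y hy => by
    conv_rhs => rw [← hw _ (hN.conj_mem' y hy x)]
    simp only [← mul_smul, ← map_mul, mul_assoc, mul_inv_cancel_left] with h1 | h1
  · exact absurd (AddSubgroup.mem_bot.1 (h1 ▸ show v ∈ W from h)) hv
  · refine eq_bot_iff.2 fun y hy => hj ((map_one j).symm ▸ eq_of_smul_eq_smul (α := V) fun w => ?_)
    rw [one_smul]
    exact (show w ∈ W from h1 ▸ AddSubgroup.mem_top w) y hy

namespace Ctx

variable {p n : ℕ} (h : Ctx G V p n)
include h

theorem cases (B : Subgroup G) [B.Normal] [IsMulCommutative B] {v : V} (hv : v ≠ 0) :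
    Good G v ∨ ∃ (A : Subgroup G) (E : Type) (_ : Field E) (_ : Fintype E) (_ : Module E V)
      (_ : FD V A E) (k : ℕ), B ≤ A ∧ MaxAb A ∧ 2 ≤ finrank E V ∧ 0 < k ∧ Nat.card E = p ^ k ∧
        k * finrank E V = n ∧ CharP E p ∧ Nat.card B ∣ p ^ k - 1 := by
  have := h.nontrivial
  obtain ⟨A, hB, hA⟩ := exists_maxAb B
  have := hA.normal
  have := hA.comm
  obtain ⟨E, _, _, _, ⟨D⟩⟩ := h.tr.exists_FD A
  by_cases hd : finrank E V = 1
  · exact .inl (h.semi hA D hd hv)
  obtain ⟨k, h1, h2, h3, h4⟩ := h.field E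
  have : Module.Finite E V := Module.Finite.of_finite
  have := finrank_pos (R := E) (M := V)
  exact .inr ⟨A, E, inferInstance, inferInstance, inferInstance, D, k, hB, hA, by omega, h1, h2,
    h3, h4, (card_dvd_of_le hB).trans (h2 ▸ D.card_dvd)⟩

/-- A faithful character whose degree is bounded by the dimension over the field of the centre. -/
theorem char : ∃ (ψ : G → ℂ) (k d : ℕ), IsIrrCharacter G ψ ∧ charKer ψ = ⊥ ∧ charDegree ψ ≤ d ∧
    0 < k ∧ k * d = n ∧ Nat.card (center G) ∣ p ^ k - 1 := by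
  have := h.nontrivial
  obtain ⟨E, _, _, _, ⟨D⟩⟩ := h.tr.exists_FD (center G)
  obtain ⟨k, h1, h2, h3, h4⟩ := h.field E
  obtain ⟨ψ, h5, h6, h7⟩ := exists_char D h.prime h.cop (MonoidHom.id G) Function.injective_id
    (fun x y hy => (mem_center_iff.1 hy x).symm) fun W hW => or_iff_not_imp_left.2 fun h5 => by
      obtain ⟨⟨u, hu⟩, hu0⟩ := (AddSubgroup.ne_bot_iff_exists_ne_zero).1 h5
      refine eq_top_iff.2 fun w _ => ?_
      by_cases hw : w = 0
      · exact hw ▸ W.zero_mem
      obtain ⟨g, rfl⟩ := h.tr u w (fun e => hu0 (Subtype.ext e)) hw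
      exact hW g u hu
  exact ⟨ψ, k, _, h5, h6, h7, h1, h3, h2 ▸ D.card_dvd⟩

omit h in
theorem two (h : Ctx G V p 2) {v : V} (hv : v ≠ 0) : Good G v := by
  obtain ⟨ψ, k, d, h1, h2, h3, h4, h5, -⟩ := h.char
  have hp := h.prime.two_le
  have key : ∀ (B : Subgroup G) [B.Normal] [IsMulCommutative B],
      Good G v ∨ Nat.card B ≤ p - 1 := fun B _ _ => (h.cases B hv).imp_right (by
    rintro ⟨A, E, _, _, _, D, k, -, -, h6, h7, -, h8, -, h9⟩
    obtain rfl : k = 1 := by nlinarith
    rw [pow_one] at h9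
    exact Nat.le_of_dvd (by omega) h9)
  have fin : ∀ {X : Type} [Group X] [Finite X], (G ⧸ center G ≃* X) →
      (Nat.card X = 12 ∨ Nat.card X = 24 ∨ Nat.card X = 60) → Nat.card (ConjClasses X) ≤ 5 →
      Good G v := fun {X} _ _ e hX hk => (key (center G)).elim id fun hz => .of_lt (by
    have h6 : (center G).index = Nat.card X := Nat.card_congr e.toEquiv
    rw [h.card]
    refine num_two h.prime hz hX (fun h7 => h.cop (h7.trans (h6 ▸ index_dvd_card _)))
      (by rw [← h.card_eq hv, ← h6, index_mul_card])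
      ((H24.card_conjClasses_le_mul (center G)).trans (Nat.mul_le_mul
        (Nat.card_le_card_of_surjective _ ConjClasses.mk_surjective)
        ((cls_congr e.symm).trans hk))))
  rcases deg_two h1 h2 (h3.trans (by nlinarith)) with ⟨A, _, _, hA⟩ | ⟨⟨e⟩⟩ | ⟨⟨e⟩⟩ | ⟨⟨e⟩⟩
  · refine (key A).resolve_right fun h6 => ?_
    have h7 := Nat.le_of_dvd Nat.card_pos h.dvd_card
    rw [← A.index_mul_card] at h7
    have h8 := Nat.mul_le_mul hA h6
    obtain ⟨r, rfl⟩ : ∃ r, p = r + 1 := ⟨p - 1, by omega⟩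
    have : (r + 1) ^ 2 = r * r + 2 * r + 1 := by ring
    have : 0 < r * r := Nat.mul_pos (by omega) (by omega)
    omega
  · exact fin e (.inl card_a4) (by rw [cls_a4]; norm_num)
  · exact fin e (.inr (.inl card_s4)) cls_s4.le
  · exact fin e (.inr (.inr card_a5)) cls_a5.le

end Ctx

end H34.TL
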