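import Cfsg.Agent.H34.WuA2a

/-! Tower WU (S4793), slot A2, part 2: the sum of the Weil character over the unitary elements. -/

set_option autoImplicit false
set_option linter.unusedSectionVars false

namespace H34.WuA

open H59 Module Finset H53.WU

namespace Sa

variable {F V A : Type} [Field F] [AddCommGroup V] [Module F V] [FiniteDimensional F V]
  {σ : F →+* F} [CommRing A] [Algebra F A]
  {B : V →ₛₗ[σ] V →ₗ[F] F} {ρ : A →ₐ[F] End F V} {st : A →+* A} (s : Sa B ρ st)
include s

theorem theta : ∃ θ θ' : A, θ + θ' = 1 ∧ st θ = θ' ∧ st θ' = θ := by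
  obtain ⟨x, hx⟩ := exists_trace_eq s.h.ne_id s.h.invol (map_one σ)
  exact ⟨algebraMap F A x, algebraMap F A (σ x), by rw [← map_add, hx, map_one], s.stc x,
    by rw [s.stc, s.h.invol]⟩

theorem card_skew {p : A} (hp : p ∣ st p) :
    Nat.card {a // p ∣ a} = Nat.card {a // p ∣ a ∧ st a = -a} ^ 2 := by
  obtain ⟨θ, θ', h1, h2, h3⟩ := s.theta
  obtain ⟨d, d0, hd⟩ := exists_trace_zero_ne_zero s.h.ne_id s.h.invol
  obtain ⟨δ, δ', e1, e2, e3⟩ : ∃ δ δ' : A, δ * δ' = 1 ∧ st δ = -δ ∧ st δ' = -δ' :=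
    ⟨algebraMap F A d, algebraMap F A d⁻¹, by rw [← map_mul, mul_inv_cancel₀ d0, map_one],
      by rw [s.stc, ← map_neg, eq_neg_of_add_eq_zero_right hd],
      by rw [s.stc, map_inv₀, eq_neg_of_add_eq_zero_right hd, inv_neg, map_neg]⟩
  rw [pow_two, ← Nat.card_prod]
  refine (Nat.card_eq_of_bijective (fun x => ⟨θ * x.1.1 + δ * x.2.1,
    dvd_add (x.1.2.1.mul_left _) (x.2.2.1.mul_left _)⟩) ⟨?_, ?_⟩).symm
  · rintro ⟨⟨a, ha, a1⟩, b, hb, b1⟩ ⟨⟨a', ha', a2⟩, b', hb', b2⟩ e
    have e4 : θ * a + δ * b = θ * a' + δ * b' := congrArg Subtype.val e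
    have e5 := congrArg st e4
    simp only [map_add, map_mul, h2, e2, a1, a2, b1, b2] at e5
    have e6 : a = a' := by linear_combination e4 - e5 - (a - a') * h1
    subst e6
    exact Prod.ext rfl (Subtype.ext (by linear_combination δ' * e4 - (b - b') * e1))
  · rintro ⟨a, ha⟩
    have ha' : p ∣ st a := hp.trans (map_dvd st ha)
    refine ⟨⟨⟨a - st a, dvd_sub ha ha', by rw [map_sub, s.stst, neg_sub]⟩,
      δ' * (θ' * a + θ * st a), (dvd_add (ha.mul_left _) (ha'.mul_left _)).mul_left _, ?_⟩,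
      Subtype.ext ?_⟩
    · simp only [map_add, map_mul, h2, h3, e3, s.stst]; ring
    · show θ * (a - st a) + δ * (δ' * (θ' * a + θ * st a)) = a
      linear_combination a * h1 + (θ' * a + θ * st a) * e1

open Classical in
theorem sum_zero [Fintype A] [IsPrincipalIdealRing A] {q : ℕ} (hF : Nat.card F = q ^ 2) :
    ∑ u : A with u * st u = 1, (-(q : ℂ)) ^ finrank F (LinearMap.ker (ρ (u - 1))) = 0 := by
  have := s.nontriv
  obtain ⟨π, k, v, k1, πs, lc, bij, ann⟩ := s.exists_unif
  have nu : ∀ a, π ∣ a → ¬ IsUnit a := fun a ha h =>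
    (IsNilpotent.not_isUnit ⟨k + 1, k1⟩) (isUnit_of_dvd_unit ha h)
  have un : ∀ a, π ∣ a → IsUnit (1 + a) := fun a ha => (lc _).resolve_left fun h =>
    nu 1 ((dvd_add_left ha).1 h) isUnit_one
  obtain ⟨r, hr⟩ : ∃ r : ℕ → ℕ, ∀ i, r i = finrank F (LinearMap.range (ρ (π ^ i))) :=
    ⟨_, fun _ => rfl⟩
  obtain ⟨d, hd⟩ : ∃ d, d = finrank F (LinearMap.ker (ρ π)) := ⟨_, rfl⟩
  have cN : ∀ i, #{a : A | π ^ i ∣ a ∧ st a = -a} = q ^ r i := fun i => by
    have h1 := s.card_skew (p := π ^ i) (by rw [map_pow]; exact pow_dvd_pow_of_dvd πs i)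
    have h2 : Nat.card {a // π ^ i ∣ a} = Nat.card (LinearMap.range (ρ (π ^ i))) :=
      Nat.card_eq_of_bijective (fun a => ⟨ρ a.1 v, by
        obtain ⟨_, b, rfl⟩ := a
        exact ⟨_, (rho_mul ρ _ b v).symm⟩⟩)
        ⟨fun a b e => Subtype.ext (bij.1 (congrArg Subtype.val e)), by
          rintro ⟨_, w, rfl⟩
          obtain ⟨b, rfl⟩ := bij.2 w
          exact ⟨⟨_, dvd_mul_right _ b⟩, Subtype.ext (rho_mul ρ _ b v)⟩⟩
    rw [h2, natCard_eq_pow_finrank (K := F), hF, ← hr, ← pow_mul, mul_comm, pow_mul,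
      Nat.card_eq_fintype_card, Fintype.card_subtype] at h1
    exact (Nat.pow_left_injective two_ne_zero h1).symm
  have rs : ∀ i ≤ k, r i = r (i + 1) + d := fun i hi => by
    have h1 := LinearMap.finrank_range_add_finrank_ker
      ((ρ π).domRestrict (LinearMap.range (ρ (π ^ i))))
    have h2 : LinearMap.ker (ρ π) ≤ LinearMap.range (ρ (π ^ i)) := fun w hw => by
      obtain ⟨a, rfl⟩ := bij.2 w
      obtain ⟨b, rfl⟩ := (pow_dvd_pow π hi).trans (ann a (bij.1 (by
        show ρ (π * a) v = ρ 0 v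
        rw [rho_mul, map_zero, LinearMap.zero_apply]; exact hw)))
      exact ⟨_, (rho_mul ρ _ b v).symm⟩
    rw [LinearMap.range_domRestrict, LinearMap.ker_domRestrict,
      (Submodule.comapSubtypeEquivOfLe h2).finrank_eq, ← LinearMap.range_comp, ← hd, ← hr,
      ← End.mul_eq_comp, ← map_mul, ← pow_succ', ← hr] at h1
    exact h1.symm
  have rf : ∀ m i, i + m = k + 1 → r i = d * m := fun m => by
    induction m with
    | zero => rintro i rfl; rw [hr, k1, map_zero, LinearMap.range_zero, finrank_bot]; rfl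
    | succ m ih => intro i hi; rw [rs i (by omega), ih (i + 1) (by omega), mul_add, mul_one]
  have nd : finrank F V = d * (k + 1) := by
    rw [← rf (k + 1) 0 (zero_add _), hr, pow_zero, map_one, End.one_eq_id, LinearMap.range_id,
      finrank_top]
  have od := Nat.odd_mul.1 (nd ▸ s.odd)
  have kr : ∀ i m, i + m = k + 1 → finrank F (LinearMap.ker (ρ (π ^ i))) = d * i := fun i m h => by
    have h1 := LinearMap.finrank_range_add_finrank_ker (ρ (π ^ i))
    rw [← hr, rf m i h, nd, ← h, mul_add, add_comm] at h1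
    exact Nat.add_right_cancel h1
  obtain ⟨Q, hQ⟩ : ∃ Q : ℂ, Q = q ^ d := ⟨_, rfl⟩
  have nq : ∀ i, (-(q : ℂ)) ^ (d * i) = (-1) ^ i * Q ^ i := fun i => by
    rw [pow_mul, od.1.neg_pow, ← hQ, neg_pow]
  obtain ⟨S, hS⟩ : ∃ S : ℕ → ℂ, ∀ i, S i = ∑ a : A with π ^ i ∣ a ∧ st a = -a,
    (-(q : ℂ)) ^ finrank F (LinearMap.ker (ρ a)) := ⟨_, fun _ => rfl⟩
  have Sf : ∀ m i, i + m = k + 1 → 0 < i → 2 * S i = -Q ^ k * (Q + 1 + (-1) ^ m * (Q - 1)) := by
    intro m
    induction m with
    | zero =>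
      rintro i rfl -
      rw [hS, sum_eq_single_of_mem 0 (by simp) fun a ha a0 => absurd
        (by simpa [k1] using (mem_filter.1 ha).2.1) a0, ← k1, kr (k + 1) 0 rfl, nq,
        od.2.neg_one_pow]
      ring
    | succ m ih =>
      intro i hi i0
      have sub : ({a : A | π ^ (i + 1) ∣ a ∧ st a = -a} : Finset A) ⊆
          ({a : A | π ^ i ∣ a ∧ st a = -a} : Finset A) := fun a ha => by
        rw [mem_filter] at ha ⊢
        exact ⟨ha.1, (pow_dvd_pow π i.le_succ).trans ha.2.1, ha.2.2⟩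
      have h1 := card_sdiff_add_card_eq_card sub
      rw [cN, cN, rf (m + 1) i hi, rf m (i + 1) (by omega)] at h1
      have h2 := congrArg (Nat.cast : ℕ → ℂ) h1
      push_cast at h2
      rw [pow_mul, pow_mul, ← hQ] at h2
      have h3 : (-1 : ℂ) ^ i = (-1) ^ m := by
        have : (-1 : ℂ) ^ (i + (m + 1)) = -1 := by rw [hi, od.2.neg_one_pow]
        have h4 : ((-1 : ℂ) ^ m) ^ 2 = 1 := by rw [← pow_mul, mul_comm, pow_mul]; simp
        rw [pow_add, pow_succ] at this
        linear_combination (-(-1) ^ m) * this - (-1) ^ i * h4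
      have h5 : Q ^ k = Q ^ i * Q ^ m := by rw [← pow_add]; congr 1; omega
      have h6 := ih (i + 1) (by omega) i.succ_pos
      rw [hS, ← sum_sdiff sub, ← hS, sum_congr rfl (g := fun _ => (-1) ^ m * Q ^ i) fun a ha => by
        obtain ⟨ha1, ha2⟩ := mem_sdiff.1 ha
        obtain ⟨⟨b, rfl⟩, h7⟩ := (mem_filter.1 ha1).2
        rw [ker_unit ρ _ ((lc b).resolve_left fun ⟨c, hc⟩ => ha2 (mem_filter.2
          ⟨mem_univ _, ⟨c, by rw [hc]; ring⟩, h7⟩)), kr i _ hi, nq, h3], sum_const, nsmul_eq_mul]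
      rw [h5] at h6 ⊢
      linear_combination h6 + 2 * (-1) ^ m * Q ^ i * h2
  have S1 : S 1 = -Q ^ (k + 1) := by
    have := Sf k 1 (add_comm _ _) one_pos
    rw [(Nat.odd_add_one.1 od.2 |> Nat.not_odd_iff_even.1).neg_one_pow] at this
    linear_combination (1 / 2 : ℂ) * this
  obtain ⟨θ, θ', h1, h2, h3⟩ := s.theta
  rw [← sum_filter_add_sum_filter_not _ fun u => π ∣ u - 1, filter_filter, filter_filter]
  have uD : ∀ x, π ∣ x - 1 → IsUnit (θ + θ' * x) := fun x hx => by
    have := un _ (hx.mul_left θ')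
    rwa [show 1 + θ' * (x - 1) = θ + θ' * x by linear_combination -h1] at this
  have T1 : ∑ u : A with u * st u = 1 ∧ π ∣ u - 1,
      (-(q : ℂ)) ^ finrank F (LinearMap.ker (ρ (u - 1))) = S 1 := by
    have e : ∀ x, π ∣ x - 1 → (x - 1) * Ring.inverse (θ + θ' * x) * (θ + θ' * x) = x - 1 :=
      fun x hx => Ring.inverse_mul_cancel_right _ _ (uD x hx)
    rw [hS]
    refine sum_bij (fun x _ => (x - 1) * Ring.inverse (θ + θ' * x)) (fun x hx => ?_)
      (fun x hx y hy exy => ?_) (fun a ha => ?_) fun x hx => ?_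
    · obtain ⟨x1, x2⟩ := (mem_filter.1 hx).2
      refine mem_filter.2 ⟨mem_univ _, by rw [pow_one]; exact x2.mul_right _,
        (uD x x2).mul_right_cancel ?_⟩
      have e1 := e x x2
      generalize (x - 1) * Ring.inverse (θ + θ' * x) = a at e1 ⊢
      have e2 := congrArg st e1
      simp only [map_mul, map_add, map_sub, map_one, h2, h3] at e2
      linear_combination e1 + x * e2 + (1 - st a * θ) * x1
    · have e1 := e x (mem_filter.1 hx).2.2
      have e2 := e y (mem_filter.1 hy).2.2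
      have m : π ∣ (y - 1) * Ring.inverse (θ + θ' * y) := (mem_filter.1 hy).2.2.mul_right _
      rw [exy] at e1
      generalize (y - 1) * Ring.inverse (θ + θ' * y) = a at e1 e2 m
      exact (un _ (m.mul_left (-θ'))).mul_right_cancel (by linear_combination e2 - e1)
    · obtain ⟨a1, a2⟩ := (mem_filter.1 ha).2
      rw [pow_one] at a1
      obtain ⟨E, hE⟩ := (un _ (a1.mul_left (-θ'))).exists_right_inv
      have hE' := congrArg st hE
      simp only [map_mul, map_add, map_neg, map_one, h3, a2] at hE'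
      have m : π ∣ (1 + θ * a) * E - 1 := by
        rw [show (1 + θ * a) * E - 1 = a * E by linear_combination hE + a * E * h1]
        exact a1.mul_right _
      refine ⟨(1 + θ * a) * E, mem_filter.2 ⟨mem_univ _, ?_, m⟩, (uD _ m).mul_right_cancel ?_⟩
      · simp only [map_mul, map_add, map_one, h2, a2]
        linear_combination ((1 + θ * a) * st E) * hE + hE'
      · rw [e _ m]
        linear_combination (1 + θ * a) * hE
    · rw [← e x (mem_filter.1 hx).2.2, ker_unit ρ _ (uD x (mem_filter.1 hx).2.2),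
        e x (mem_filter.1 hx).2.2]
  have T2 : #{u : A | u * st u = 1 ∧ ¬ π ∣ u - 1} = #{a : A | π ^ 0 ∣ a ∧ st a = -a} := by
    have e : ∀ x, ¬ π ∣ x - 1 → Ring.inverse (x - 1) * (x - 1) = 1 :=
      fun x hx => Ring.inverse_mul_cancel _ ((lc _).resolve_left hx)
    refine card_bij (fun x _ => Ring.inverse (x - 1) + θ) (fun x hx => ?_)
      (fun x hx y hy exy => ?_) fun a ha => ?_
    · obtain ⟨x1, x2⟩ := (mem_filter.1 hx).2
      refine mem_filter.2 ⟨mem_univ _, by simp, ?_⟩
      have e1 := e x x2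
      generalize Ring.inverse (x - 1) = y at e1 ⊢
      have e2 := congrArg st e1
      simp only [map_mul, map_add, map_sub, map_one, h2] at e2 ⊢
      linear_combination h1 + y * st y * x1 - (st y * (st x - 1) + st y) * e1 - (1 + y) * e2
    · have e1 := e x (mem_filter.1 hx).2.2
      have e2 := e y (mem_filter.1 hy).2.2
      rw [add_right_cancel exy] at e1
      linear_combination (y - 1) * e1 - (x - 1) * e2
    · have a2 := (mem_filter.1 ha).2.2
      obtain ⟨y, hy⟩ := ((lc (a - θ)).resolve_left fun h => nu 1 (by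
        have := dvd_add h (πs.trans (map_dvd st h))
        rw [map_sub, a2, h2, show a - θ + (-a - θ') = -1 by linear_combination -h1] at this
        exact dvd_neg.1 this) isUnit_one).exists_right_inv
      have hy' := congrArg st hy
      simp only [map_mul, map_sub, map_one, h2, a2] at hy'
      have m : ¬ π ∣ 1 + y - 1 := fun h => nu _ h (by
        rw [add_sub_cancel_left]; exact IsUnit.of_mul_eq_one_right _ hy)
      refine ⟨1 + y, mem_filter.2 ⟨mem_univ _, ?_, m⟩, ?_⟩
      · simp only [map_add, map_one]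
        linear_combination (-(y * st y)) * h1 - st y * hy - y * hy'
      · have e1 := e _ m
        linear_combination (a - θ) * e1 - Ring.inverse (1 + y - 1) * hy
  rw [T1, S1, sum_congr rfl (g := fun _ => 1) fun x hx => by
    rw [← one_mul (x - 1), ker_unit ρ _ ((lc _).resolve_left (mem_filter.1 hx).2.2), map_one,
      End.one_eq_id, LinearMap.ker_id, finrank_bot, pow_zero], sum_const, T2, cN,
    rf (k + 1) 0 (zero_add _), pow_mul, hQ]
  simp

end Sa

theorem jobA2 : JobA2 := by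
  intro S hn g hg
  let T : End S.F S.V := g.1
  let A := Algebra.adjoin S.F ({T} : Set (End S.F S.V))
  have TA : T ∈ A := Algebra.subset_adjoin rfl
  have cm : ∀ a ∈ A, ∀ b ∈ A, a * b = b * a := fun a ha b hb =>
    congrArg Subtype.val (mul_comm (⟨a, ha⟩ : A) ⟨b, hb⟩)
  have iv : ∀ x : S.V ≃ₗ[S.F] S.V, (x : End S.F S.V) ∈ A →
      ((x⁻¹ : S.V ≃ₗ[S.F] S.V) : End S.F S.V) ∈ A := fun x hx => by
      obtain ⟨m, hm⟩ := Nat.exists_eq_succ_of_ne_zero (orderOf_pos x).ne'
      rw [inv_eq_of_mul_eq_one_right (show x * x ^ m = 1 by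
        rw [← pow_succ', ← pow_orderOf_eq_one x, hm])]
      show LinearEquiv.automorphismGroup.toLinearMapMonoidHom (x ^ m) ∈ A
      rw [map_pow]
      exact pow_mem hx m
  have ex : ∀ a : A, ∃ b : A, ∀ v w, S.B (a.1 v) w = S.B v (b.1 w) := by
    rintro ⟨a, ha⟩
    induction ha using Algebra.adjoin_induction with
    | mem x hx =>
      obtain rfl : x = T := hx
      refine ⟨⟨_, iv g.1 TA⟩, fun v w => ?_⟩
      have := g.2 v (g.1.symm w)
      rwa [LinearEquiv.apply_symm_apply] at this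
    | algebraMap c =>
      exact ⟨algebraMap _ A (frob S.hF c), fun v w =>
        (form_smul_left c v w).trans (form_smul_right _ v w).symm⟩
    | add x y _ _ hx hy =>
      obtain ⟨b, hb⟩ := hx
      obtain ⟨c, hc⟩ := hy
      refine ⟨b + c, fun v w => ?_⟩
      show S.B (x v + y v) w = S.B v (b.1 w + c.1 w)
      rw [map_add, map_add, LinearMap.add_apply, ← hb, ← hc]
    | mul x y _ _ hx hy =>
      obtain ⟨b, hb⟩ := hx
      obtain ⟨c, hc⟩ := hy
      exact ⟨c * b, fun v w => (hb (y v) w).trans (hc v (b.1 w))⟩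
  choose f hf using ex
  have uq : ∀ a b : A, (∀ v w, S.B v (a.1 w) = S.B v (b.1 w)) → a = b := fun a b e =>
    Subtype.ext (LinearMap.ext fun w => S.h.ext_right fun v => e v w)
  let st : A →+* A :=
    { toFun := f
      map_one' := uq _ _ fun v w => (hf 1 v w).symm
      map_mul' := fun a b => uq _ _ fun v w => by
        rw [← hf, mul_comm (f a)]
        exact (hf a (b.1 v) w).trans (hf b v ((f a).1 w))
      map_zero' := uq _ _ fun v w => by rw [← hf]; simp
      map_add' := fun a b => uq _ _ fun v w => by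
        rw [← hf]
        show S.B (a.1 v + b.1 v) w = S.B v ((f a).1 w + (f b).1 w)
        rw [map_add, map_add, LinearMap.add_apply, ← hf, ← hf] }
  have s : Sa S.B A.val st := ⟨S.h, Subtype.val_injective, hf, hn,
    fun U hU => hg U (hU ⟨T, TA⟩)⟩
  have : Finite (End S.F S.V) := Module.finite_of_finite S.F
  let _ := Fintype.ofFinite A
  have : IsPrincipalIdealRing A := IsPrincipalIdealRing.of_surjective
    (Polynomial.aeval (R := S.F) (⟨T, TA⟩ : A)) fun a =>
      Algebra.adjoin_singleton_induction _ T (M := fun a => ∃ p, Polynomial.aeval (R := S.F)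
        (⟨T, TA⟩ : A) p = a) a fun p => ⟨p, Subtype.ext (Polynomial.aeval_algHom_apply A.val _ p).symm⟩
  have key := s.sum_zero (q := S.q) (Nat.card_eq_fintype_card.trans S.hF)
  let C : Subgroup S.Γ :=
    { carrier := {x | (x.1 : End S.F S.V) ∈ A}
      one_mem' := one_mem A
      mul_mem' := fun ha hb => A.mul_mem ha hb
      inv_mem' := fun {x} hx => iv x.1 hx }
  refine ⟨C, fun x hx => Subgroup.mem_centralizer_singleton_iff.2 (Subtype.ext
    (LinearEquiv.toLinearMap_injective (cm _ hx _ TA))), ?_⟩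
  classical
  rw [finsum_eq_of_bijective (f := fun x : C => S.zt x.1.1) (g := fun u : {u : A // u * st u = 1} =>
      (-1) ^ S.n * (-(S.q : ℂ)) ^ finrank S.F (LinearMap.ker (A.val (u.1 - 1))))
    (fun x => ⟨⟨_, x.2⟩, by
      rw [mul_comm]
      exact uq _ _ fun v w => (hf ⟨_, x.2⟩ v (x.1.1 w)).symm.trans (x.1.2 v w)⟩)
    ⟨fun x y e => Subtype.ext (Subtype.ext (LinearEquiv.toLinearMap_injective
      (congrArg (fun u => u.1.1) e))), ?_⟩ fun x => rfl, finsum_eq_sum_of_fintype, ← mul_sum,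
    ← sum_subtype {u : A | u * st u = 1} (by simp)
      fun u => (-(S.q : ℂ)) ^ finrank S.F (LinearMap.ker (A.val (u - 1)))]
  · convert mul_zero _
    convert key
  · rintro ⟨u, hu⟩
    have hu' : st u * u = 1 := by rwa [mul_comm]
    exact ⟨⟨⟨LinearEquiv.ofLinearMap u.1 (st u).1 (congrArg Subtype.val hu) (congrArg Subtype.val hu'),
      fun v w => (hf u v (u.1 w)).trans
        (congrArg (fun a : A => S.B v (a.1 w)) hu')⟩, u.2⟩, rfl⟩

end H34.WuA
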