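import Cfsg.Agent.H53.WUSpec

/-! Tower WU (S4793), slot A2, part 1: a commutative `*`-algebra acting indecomposably on a
unitary space of odd dimension is local and uniserial, and the space is free of rank one. -/

set_option autoImplicit false
set_option linter.unusedSectionVars false

namespace H34.WuA

open H59 Module

variable {F V A : Type} [Field F] [AddCommGroup V] [Module F V] [FiniteDimensional F V]
  {σ : F →+* F} [CommRing A] [Algebra F A]

/-- The setting. -/
structure Sa (B : V →ₛₗ[σ] V →ₗ[F] F) (ρ : A →ₐ[F] End F V) (st : A →+* A) : Prop where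
  h : IsHerm B
  inj : Function.Injective ρ
  adj : ∀ a v w, B (ρ a v) w = B v (ρ (st a) w)
  odd : Odd (finrank F V)
  ind : ∀ U : Submodule F V, (∀ a, ∀ v ∈ U, ρ a v ∈ U) → Disjoint U (perp B U) → U = ⊥ ∨ U = ⊤

theorem rho_mul (ρ : A →ₐ[F] End F V) (a b : A) (v : V) : ρ (a * b) v = ρ a (ρ b v) := by
  rw [map_mul]; rfl

theorem ker_unit (ρ : A →ₐ[F] End F V) (a : A) {u : A} (hu : IsUnit u) :
    LinearMap.ker (ρ (a * u)) = LinearMap.ker (ρ a) := by
  obtain ⟨u', e⟩ := hu.exists_left_inv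
  ext v
  rw [LinearMap.mem_ker, LinearMap.mem_ker]
  refine ⟨fun h => ?_, fun h => by rw [mul_comm, rho_mul, h, map_zero]⟩
  rw [show a = u' * (a * u) by rw [mul_left_comm, e, mul_one], rho_mul, h, map_zero]

namespace Sa

variable {B : V →ₛₗ[σ] V →ₗ[F] F} {ρ : A →ₐ[F] End F V} {st : A →+* A} (s : Sa B ρ st)
include s

theorem uniq {a b : A} (e : ∀ v w, B v (ρ a w) = B v (ρ b w)) : a = b :=
  s.inj (LinearMap.ext fun w => s.h.ext_right fun v => e v w)

theorem stst (a : A) : st (st a) = a := s.uniq fun v w => by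
  rw [← s.adj, ← s.h.symm, ← s.adj, s.h.symm]

theorem stc (c : F) : st (algebraMap F A c) = algebraMap F A (σ c) := s.uniq fun v w => by
  rw [← s.adj, AlgHom.commutes, AlgHom.commutes, algebraMap_end_apply, algebraMap_end_apply,
    form_smul_left, form_smul_right]

theorem nontriv : Nontrivial A := by
  have : Nontrivial V := finrank_pos_iff.1 s.odd.pos
  exact (ρ : A →+* End F V).domain_nontrivial

theorem perp_range (a : A) : perp B (LinearMap.range (ρ a)) = LinearMap.ker (ρ (st a)) := by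
  ext w
  refine ⟨fun h => s.h.nondeg' _ fun v => s.adj a v w ▸ h _ ⟨v, rfl⟩, ?_⟩
  rintro h _ ⟨v, rfl⟩
  rw [s.adj, LinearMap.mem_ker.1 h, map_zero]

theorem idem_self {e : A} (he : e * e = e) (hs : st e = e) : e = 0 ∨ e = 1 := by
  refine (s.ind (LinearMap.range (ρ e)) ?_ ?_).imp (fun h => s.inj ?_) fun h => s.inj ?_
  · rintro a _ ⟨v, rfl⟩
    exact ⟨ρ a v, by rw [← rho_mul, ← rho_mul, mul_comm]⟩
  · rw [s.perp_range, hs, Submodule.disjoint_def]
    rintro _ ⟨v, rfl⟩ h
    rwa [LinearMap.mem_ker, ← rho_mul, he] at h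
  · rw [map_zero, LinearMap.range_eq_bot.1 h]
  · refine LinearMap.ext fun v => ?_
    obtain ⟨w, rfl⟩ := LinearMap.range_eq_top.1 h v
    rw [← rho_mul, he, map_one, End.one_apply]

theorem idem {e : A} (he : e * e = e) : e = 0 ∨ e = 1 := by
  have he' : st e * st e = st e := by rw [← map_mul, he]
  rcases s.idem_self (e := e * st e) (by linear_combination (st e * st e) * he + e * he')
    (by rw [map_mul, s.stst, mul_comm]) with h | h
  · rcases s.idem_self (e := e + st e) (by linear_combination he + he' + 2 * h)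
      (by rw [map_add, s.stst, add_comm]) with h1 | h1
    · exact .inl (by linear_combination e * h1 - he - h)
    · exfalso
      have h2 := s.h.finrank_add_finrank_perp (LinearMap.range (ρ e))
      have h3 : LinearMap.ker (ρ (st e)) = LinearMap.range (ρ e) := by
        ext v
        refine ⟨fun hv => ⟨v, ?_⟩, ?_⟩
        · rw [show e = 1 - st e by linear_combination h1, map_sub, map_one, LinearMap.sub_apply,
            LinearMap.mem_ker.1 hv, sub_zero, End.one_apply]
        · rintro ⟨w, rfl⟩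
          rw [LinearMap.mem_ker, ← rho_mul, mul_comm, h, map_zero, LinearMap.zero_apply]
      rw [s.perp_range, h3] at h2
      exact Nat.not_even_iff_odd.2 s.odd ⟨_, h2.symm⟩
  · exact .inr (by linear_combination (1 - e) * h + st e * he)

variable [Finite A]

theorem loc (a : A) : IsNilpotent a ∨ IsUnit a := by
  obtain ⟨n, y, h⟩ := IsArtinian.exists_pow_succ_smul_dvd a (1 : A)
  rw [smul_eq_mul, smul_eq_mul, mul_one, pow_succ] at h
  have key : ∀ k, a ^ n * (a * y) ^ k = a ^ n := fun k => by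
    induction k with
    | zero => simp
    | succ k ih => rw [pow_succ, ← mul_assoc, ih, ← mul_assoc, h]
  rcases s.idem (e := (a * y) ^ (n + 1)) (by
    rw [pow_succ (a * y) n, mul_pow a y n]
    linear_combination (y ^ n * (a * y)) * (key (n + 1)) -
      (a ^ n * y ^ n * (a * y)) * (pow_succ (a * y) n) -
      (a ^ n * y ^ n * (a * y) * (a * y)) * mul_pow a y n) with e | e
  · exact .inl ⟨n, by rw [← key (n + 1), e, mul_zero]⟩
  · exact .inr (isUnit_of_mul_isUnit_left (y := y)
      ((isUnit_pow_iff n.succ_ne_zero).1 (e ▸ isUnit_one)))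

variable [IsPrincipalIdealRing A]

/-- a uniformiser `π`, `π ^ k` spans the socle, `v` is a free generator -/
theorem exists_unif : ∃ (π : A) (k : ℕ) (v : V), π ^ (k + 1) = 0 ∧ π ∣ st π ∧
    (∀ a, π ∣ a ∨ IsUnit a) ∧ Function.Bijective (fun a => ρ a v) ∧
    ∀ a, π * a = 0 → π ^ k ∣ a := by
  have := s.nontriv
  obtain ⟨π, hπ⟩ := (IsPrincipalIdealRing.principal (nilradical A)).principal
  have dv : ∀ a, IsNilpotent a ↔ π ∣ a := fun a => by
    rw [← mem_nilradical, hπ, Ideal.submodule_span_eq, Ideal.mem_span_singleton]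
  have nπ : IsNilpotent π := (dv π).2 dvd_rfl
  classical
  obtain ⟨k, hk⟩ : ∃ k, Nat.find nπ = k + 1 := Nat.exists_eq_succ_of_ne_zero fun h => by
    have := Nat.find_spec nπ
    rw [h, pow_zero] at this
    exact one_ne_zero this
  have k1 : π ^ (k + 1) = 0 := hk ▸ Nat.find_spec nπ
  have k0 : ∀ i ≤ k, π ^ i ≠ 0 := fun i hi => Nat.find_min nπ (by omega)
  have lc : ∀ a, π ∣ a ∨ IsUnit a := fun a => (s.loc a).imp_left (dv a).1
  have val : ∀ m a, π ^ m ∣ a ∨ ∃ i < m, ∃ u, IsUnit u ∧ a = π ^ i * u := fun m a => by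
    induction m with
    | zero => exact .inl (by simp)
    | succ m ih =>
      rcases ih with ⟨b, rfl⟩ | ⟨i, hi, h⟩
      · rcases lc b with ⟨c, rfl⟩ | h
        · exact .inl ⟨c, by ring⟩
        · exact .inr ⟨m, by omega, b, h, rfl⟩
      · exact .inr ⟨i, by omega, h⟩
  have soc : ∀ a, a ≠ 0 → a ∣ π ^ k := fun a ha => by
    rcases val (k + 1) a with h | ⟨i, hi, u, hu, rfl⟩
    · exact absurd (by rwa [k1, zero_dvd_iff] at h) ha
    · exact hu.mul_right_dvd.2 (pow_dvd_pow π (by omega))
  obtain ⟨v, hv⟩ : ∃ v, B v (ρ (π ^ k) v) ≠ 0 := by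
    by_contra! h
    refine k0 k le_rfl (s.uniq fun v w => ?_)
    rw [map_zero, LinearMap.zero_apply, map_zero]
    exact form_eq_zero_of_diag (B := B.compr₂ₛₗ LinearMap.id |>.compl₂ (ρ (π ^ k))) s.h.ne_id
      (W := ⊤) (fun v _ => h v) trivial trivial
  let U : Submodule F V := LinearMap.range (LinearMap.applyₗ v ∘ₗ ρ.toLinearMap)
  have rad : ∀ a, ρ a v ∈ perp B U → a = 0 := fun a ha => by
    by_contra h0
    obtain ⟨c, hc⟩ := soc a h0
    refine hv ?_
    rw [hc, mul_comm, rho_mul, ← s.stst c, ← s.adj]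
    exact ha _ ⟨st c, rfl⟩
  refine ⟨π, k, v, k1, (dv _).1 (nπ.map st), lc, ⟨fun a b e => ?_, fun w => ?_⟩, fun a ha => ?_⟩
  · refine sub_eq_zero.1 (rad _ ?_)
    rw [map_sub, LinearMap.sub_apply, show ρ a v = ρ b v from e, sub_self]
    exact zero_mem _
  · rcases s.ind U (by rintro a _ ⟨b, rfl⟩; exact ⟨a * b, rho_mul ρ a b v⟩)
      (Submodule.disjoint_def.2 (by
        rintro _ ⟨a, rfl⟩ h
        show ρ a v = 0
        rw [rad a h, map_zero, LinearMap.zero_apply])) with h | h
    · exact absurd (rad 1 (h ▸ fun x hx => by simp [(Submodule.mem_bot F).1 hx])) one_ne_zero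
    · exact (h ▸ Submodule.mem_top : w ∈ U)
  · rcases val k a with h | ⟨i, hi, u, hu, rfl⟩
    · exact h
    · rw [← mul_assoc, hu.mul_left_eq_zero, ← pow_succ'] at ha
      exact absurd ha (k0 _ hi)

end Sa

end H34.WuA
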