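/- Transfer of the functions vanishing on regular elements between a block of a subgroup and a
block of the group, and integer coefficient vectors. -/
import Cfsg.Agent.H34.X3Spec

namespace H34.X3

open Subgroup Cfsg H28 H35 H36 H41 Module Finset
open scoped ComplexConjugate

section T
variable {G C : Type*} [Group G] [Fintype G] [Group C] [Fintype C] {p : ℕ} {M : Ideal AlgInt}
  {B : Set (IrrCharacter G)} {α β : C → ℂ} {f : G → ℂ}

/-- The component in `B` of the induced function. -/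
noncomputable def Tf (B : Set (IrrCharacter G)) (φ : C →* G) (α : C → ℂ) : G → ℂ :=
  ∑ χ ∈ bF B, classInner α (fun c => χ.1 (φ c)) • χ.1

theorem Tf_sum (φ : C →* G) (α : C → ℂ) (x : G) :
    Tf B φ α x = ∑ χ ∈ bF B, classInner α (fun c => χ.1 (φ c)) * χ.1 x := by simp [Tf]

theorem Tf_apply (φ : C →* G) (α : C → ℂ) (x : G) :
    Tf B φ α x = (Nat.card C : ℂ)⁻¹ * ∑ y, α y * bker B x (φ y) := by
  simp only [Tf_sum, classInner_def, bker, finsum_mem_eq_bF, mul_sum, sum_mul]
  rw [sum_comm]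
  exact sum_congr rfl fun _ _ => sum_congr rfl fun _ _ => by ring

theorem Tf_id (h : InB B f) : Tf B (MonoidHom.id G) f = f := h.eq_sum.symm

theorem Tf_mem [M.IsMaximal] (hM : IsPModular p M) (hB : IsPBlock M B) (φ : C →* G)
    (hφ : Function.Injective φ) (h : ∀ y, ¬ p ∣ orderOf y → α y = 0) : Tf B φ α ∈ Vb p B := by
  refine mem_Vb.2 ⟨inB_sum_bF _, fun x hx => ?_⟩
  rw [Tf_apply, sum_eq_zero fun y _ => ?_, mul_zero]
  by_cases k : p ∣ orderOf y
  · rw [(mem_Vb.1 (bker_mem hM hB (x := φ y) (by rwa [orderOf_injective φ hφ]))).2 x hx, mul_zero]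
  · rw [h y k, zero_mul]

theorem Tf_inner (φ : C →* G) (α β : C → ℂ) : classInner (fun c => Tf B φ α (φ c)) β =
    ∑ χ ∈ bF B, classInner α (fun c => χ.1 (φ c)) * conj (classInner β fun c => χ.1 (φ c)) := by
  have : (fun c => Tf B φ α (φ c)) =
      ∑ χ ∈ bF B, classInner α (fun c => χ.1 (φ c)) • fun c => χ.1 (φ c) := by
    funext c; simp [Tf]
  simp only [this, classInner_sum_left, classInner_smul_left, classInner_conj_symm]

/-- The integer with the given complex value. -/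
noncomputable def zi (x : ℂ) : ℤ := ⌊x.re⌋

theorem zi_cast {x : ℂ} (h : ∃ n : ℤ, x = n) : (zi x : ℂ) = x := by
  obtain ⟨n, rfl⟩ := h
  simp [zi]

/-- The coefficient vector of `Tf B φ α`. -/
noncomputable def tv (B : Set (IrrCharacter G)) (φ : C →* G) (α : C → ℂ) : bF B → ℤ :=
  fun χ => zi (classInner α fun c => χ.1.1 (φ c))

theorem tv_cast (φ : C →* G) (h : IsGeneralizedCharacter C α) (χ : bF B) :
    (tv B φ α χ : ℂ) = classInner α fun c => χ.1.1 (φ c) :=
  zi_cast (h.classInner_int (χ.1.2.isCharacter.isGeneralizedCharacter.comp φ))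

theorem tv_dot (φ : C →* G) (h : IsGeneralizedCharacter C α) (h' : IsGeneralizedCharacter C β)
    (e : ∀ c, Tf B φ α (φ c) = α c) : ((tv B φ α ⬝ᵥ tv B φ β : ℤ) : ℂ) = classInner α β := by
  nth_rw 2 [← funext e]
  rw [Tf_inner, ← sum_coe_sort, dotProduct, Int.cast_sum]
  refine sum_congr rfl fun χ _ => ?_
  rw [← tv_cast φ h, ← tv_cast φ h', Int.cast_mul, map_intCast]

/-- The degrees. -/
noncomputable def dg (B : Set (IrrCharacter G)) : bF B → ℤ := fun χ => charDegree χ.1.1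

theorem dg_cast (χ : bF B) : (dg B χ : ℂ) = χ.1.1 1 := by
  simp [dg, χ.1.2.cast_charDegree]

theorem dg_ne (χ : bF B) : dg B χ ≠ 0 := fun h =>
  χ.1.2.apply_one_ne_zero (by rw [← dg_cast, h, Int.cast_zero])

theorem tv_dg (hp : p.Prime) (φ : C →* G) (h : IsGeneralizedCharacter C α)
    (e : Tf B φ α ∈ Vb p B) : tv B φ α ⬝ᵥ dg B = 0 := by
  have := (mem_Vb.1 e).2 1 (by simpa using hp.ne_one)
  rw [Tf_sum, ← sum_coe_sort] at this
  rw [← Int.cast_inj (α := ℂ), dotProduct, Int.cast_sum, Int.cast_zero, ← this]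
  exact sum_congr rfl fun χ _ => by rw [Int.cast_mul, tv_cast φ h, dg_cast]

end T

variable {G : Type*} [Group G] [Fintype G] {C : Subgroup G} [Fintype C] {p : ℕ}
  {M : Ideal AlgInt} [M.IsMaximal] {B : Set (IrrCharacter G)} {b : Set (IrrCharacter C)}
  {α : C → ℂ} {f : G → ℂ}

theorem KS.res_Tf (k : KS p C B b) (h : α ∈ Vb p b) (c : C) : Tf B C.subtype α c = α c := by
  nth_rw 2 [← Tf_id (mem_Vb.1 h).1]
  rw [Tf_apply, Tf_apply]
  congr 1
  refine sum_congr rfl fun y _ => ?_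
  by_cases hy : p ∣ orderOf y
  · rw [coe_subtype, k.ker c y hy, MonoidHom.id_apply]
  · rw [(mem_Vb.1 h).2 y hy, zero_mul, zero_mul]

omit [Fintype C] in
theorem KS.eq_zero (k : KS p C B b) (h : f ∈ Vb p B) (h0 : ∀ c : C, f c = 0) : f = 0 := by
  funext y
  by_cases hy : p ∣ orderOf y
  · obtain ⟨y', -, e⟩ := k.sec y hy
    rw [(mem_Vb.1 h).1.apply_eq_sum, sum_congr rfl fun χ hχ => by rw [e χ (mem_bF.1 hχ)],
      ← (mem_Vb.1 h).1.apply_eq_sum, h0, Pi.zero_apply]
  · exact (mem_Vb.1 h).2 y hy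

theorem KS.res_mem (k : KS p C B b) (hM : IsPModular p M) (hb : IsPBlock M b) (h : f ∈ Vb p B) :
    (fun c : C => f c) ∈ Vb p b := by
  have : (fun c : C => f c) = (Nat.card G : ℂ)⁻¹ • ∑ y, f y • fun c : C => bker B c y := by
    funext c
    nth_rw 1 [← Tf_id (mem_Vb.1 h).1]
    simp [Tf_apply]
  rw [this]
  refine Submodule.smul_mem _ _ (Submodule.sum_mem _ fun y _ => ?_)
  by_cases hy : p ∣ orderOf y
  · obtain ⟨y', h1, e⟩ := k.sec y hy
    convert Submodule.smul_mem _ (f y) (bker_mem hM hb h1) using 3 with c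
    rw [← k.ker c y' h1, bker, bker, finsum_mem_eq_bF, finsum_mem_eq_bF]
    exact sum_congr rfl fun χ hχ => by rw [e χ (mem_bF.1 hχ)]
  · rw [(mem_Vb.1 h).2 y hy, zero_smul]
    exact Submodule.zero_mem _

theorem KS.finrank_eq (k : KS p C B b) (hM : IsPModular p M) (hB : IsPBlock M B)
    (hb : IsPBlock M b) : finrank ℂ (Vb p B) = finrank ℂ (Vb p b) := by
  refine (LinearEquiv.ofBijective ((LinearMap.funLeft ℂ ℂ C.subtype).restrict
    (p := Vb p B) (q := Vb p b) fun f h => k.res_mem hM hb h) ⟨?_, fun α => ?_⟩).finrank_eq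
  · rw [injective_iff_map_eq_zero]
    exact fun f h => Subtype.ext (k.eq_zero f.2 (congrFun (congrArg Subtype.val h)))
  · exact ⟨⟨_, Tf_mem hM hB C.subtype C.subtype_injective (mem_Vb.1 α.2).2⟩,
      Subtype.ext (funext (k.res_Tf α.2))⟩

theorem KS.coef (k : KS p C B b) (hM : IsPModular p M) (hB : IsPBlock M B) (hb : IsPBlock M b)
    {y : C} (hy : p ∣ orderOf y) {χ : IrrCharacter G} (hχ : χ ∈ B) :
    classInner (fun x => bker b x y) (fun c => χ.1 (C.subtype c)) = conj (χ.1 y) := by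
  have h1 := bker_mem hM hb hy
  have h2 := k.eq_zero (Submodule.sub_mem _
    (Tf_mem hM hB C.subtype C.subtype_injective (mem_Vb.1 h1).2)
    (bker_mem hM hB (x := (y : G)) (by rwa [orderOf_coe]))) fun c => by
      rw [Pi.sub_apply, k.res_Tf h1, k.ker c y hy, sub_self]
  have h3 := congrArg (classInner · χ.1) (sub_eq_zero.1 h2)
  simpa only [Tf, bker_fun, classInner_sum_bF _ hχ] using h3

end H34.X3
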