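/- The functions vanishing on regular elements for the central extension. -/
import Cfsg.Agent.H34.X3T

namespace H34.X3

open Subgroup Cfsg H28 H35 H36 H41 Module Finset
open scoped ComplexConjugate

universe u

section gen
variable {G C : Type*} [Group G] [Fintype G] [Group C] [Fintype C] {M : Ideal AlgInt}
  [M.IsMaximal] {n m : ℕ}

/-- The trivial character as a member of the principal block. -/
noncomputable def oo (M : Ideal AlgInt) [M.IsMaximal] (G : Type*) [Group G] [Fintype G] :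
    bF (principalBlock M G) := ⟨_, mem_bF.2 (one_mem_principalBlock (G := G) (M := M))⟩

/-- Generalized characters that are the restrictions of their transfers. -/
def Gd (B : Set (IrrCharacter G)) (φ : C →* G) (α : C → ℂ) : Prop :=
  IsGeneralizedCharacter C α ∧ (∀ c, Tf B φ α (φ c) = α c)

/-- The complex form of `Fm`. -/
structure FmC (c r : ℤ) (g : Fin n → ℤ) (w : Fin n → C → ℂ) (a : Fin m → C → ℂ) : Prop where
  self : ∀ j, classInner (a j) (a j) = c + r
  gram : ∀ j k, j ≠ k → classInner (a j) (a k) = c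
  prod : ∀ j O, classInner (a j) (w O) = g O

variable {B : Set (IrrCharacter G)} {φ : C →* G} {α β : C → ℂ} {w : Fin n → C → ℂ}
  {a : Fin m → C → ℂ} {c r : ℤ} {g : Fin n → ℤ}

theorem Gd.dot (h : Gd B φ α) (h' : Gd B φ β) {k : ℤ} (e : classInner α β = k) :
    tv B φ α ⬝ᵥ tv B φ β = k := by
  rw [← Int.cast_inj (α := ℂ), tv_dot φ h.1 h'.1 h.2, e]

theorem FmC.fm (h : FmC c r g w a) (hw : ∀ O, Gd B φ (w O)) (ha : ∀ j, Gd B φ (a j)) :
    Fm c r g (fun O => tv B φ (w O)) fun j => tv B φ (a j) :=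
  ⟨fun j => (ha j).dot (ha j) (by rw [h.self, Int.cast_add]),
    fun j k e => (ha j).dot (ha k) (h.gram j k e), fun j O => (ha j).dot (hw O) (h.prod j O)⟩

theorem w0_of {e : ℕ} (hw : ∀ O, Gd (principalBlock M G) φ (w O))
    (hv : ∀ O, Tf (principalBlock M G) φ (w O) ∈ Vb 3 (principalBlock M G))
    (h1 : ∀ O, classInner (w O) (w O) = e + 1)
    (h2 : ∀ O O', O ≠ O' → classInner (w O) (w O') = e)
    (h3 : ∀ O, classInner (w O) (fun _ => 1) = -1) :
    W0 e (fun O => tv (principalBlock M G) φ (w O)) (dg _) (oo M G) :=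
  ⟨fun O => (hw O).dot (hw O) (by rw [h1]; simp), fun O O' e => (hw O).dot (hw O') (h2 O O' e),
    fun O => by
      rw [← Int.cast_inj (α := ℂ), tv_cast φ (hw O).1]
      exact (h3 O).trans (by simp),
    fun O => tv_dg Nat.prime_three φ (hw O).1 (hv O), by simp [dg, oo, H28.charDegree_one], dg_ne⟩

end gen

section Q
variable {Q : Type u} [Group Q] [Fintype Q] {M : Ideal AlgInt} [M.IsMaximal] {e n : ℕ}
  {w : Fin n → Q → ℂ} {A : Q → ℂ}

theorem gd_id {B : Set (IrrCharacter Q)} (h : IsGeneralizedCharacter Q A) (h' : InB B A) :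
    Gd B (MonoidHom.id Q) A := ⟨h, fun c => by rw [Tf_id h', MonoidHom.id_apply]⟩

omit [M.IsMaximal] in
theorem QD.gd (h : QD M e w) (O : Fin n) : Gd (principalBlock M Q) (MonoidHom.id Q) (w O) :=
  gd_id (h.gen O) (mem_Vb.1 (h.vb O)).1

theorem QD.w0 (h : QD M e w) :
    W0 e (fun O => tv (principalBlock M Q) (MonoidHom.id Q) (w O)) (dg _) (oo M Q) :=
  w0_of h.gd (fun O => by rw [Tf_id (mem_Vb.1 (h.vb O)).1]; exact h.vb O) h.self h.gram h.one

omit [M.IsMaximal] in
theorem QD.full (h : QD M e w) (i : bF (principalBlock M Q)) :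
    ∃ O, tv (principalBlock M Q) (MonoidHom.id Q) (w O) i ≠ 0 :=
  (h.supp i (mem_bF.1 i.2)).imp fun O k k' => k (by
    have := tv_cast (B := principalBlock M Q) (MonoidHom.id Q) (h.gen O) i
    rw [k', Int.cast_zero] at this
    exact this.symm)

omit [M.IsMaximal] in
theorem QD.rank (h : QD M e w) : finrank ℂ (Vb 3 (principalBlock M Q)) = n := by
  have h1 : Vb 3 (principalBlock M Q) = Submodule.span ℂ (Set.range w) :=
    le_antisymm (fun f hf => by
      obtain ⟨s, rfl⟩ := h.span f hf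
      exact Submodule.sum_mem _ fun O _ => Submodule.smul_mem _ _ (Submodule.subset_span ⟨O, rfl⟩))
      (Submodule.span_le.2 (Set.range_subset_iff.2 h.vb))
  rw [h1, finrank_span_eq_card, Fintype.card_fin]
  refine Fintype.linearIndependent_iff.2 fun s hs => ?_
  have h2 : ∀ O, s O + e * ∑ O', s O' = 0 := fun O => by
    have := congrArg (classInner · (w O)) hs
    simp only [classInner_sum_left, classInner_smul_left, classInner_zero_left] at this
    rw [← add_sum_erase _ _ (mem_univ O), h.self,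
      sum_congr rfl fun O' k => by rw [h.gram O' O (ne_of_mem_erase k)], ← sum_mul] at this
    rw [← this, ← add_sum_erase _ _ (mem_univ O)]
    ring
  have h3 := sum_congr rfl fun O (_ : O ∈ univ) => h2 O
  have h4 : (n : ℂ) * e = 8 := by exact_mod_cast h.ne
  rw [sum_add_distrib, sum_const, sum_const_zero, card_univ, Fintype.card_fin, nsmul_eq_mul,
    ← mul_assoc, h4] at h3
  have h5 : ∑ O, s O = 0 := by linear_combination h3 / 9
  exact fun O => by simpa [h5] using h2 O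

end Q

variable {H Q : Type u} [Group H] [Fintype H] [Group Q] [Fintype Q] {z : H} {π : H →* Q}
  {M : Ideal AlgInt} [M.IsMaximal] {e n m : ℕ} {w : Fin n → Q → ℂ} {g : Fin n → ℤ} {c : ℤ}
  {ζ ω : ℂ}

omit [Fintype H] [Fintype Q] in
theorem CE.ev (h : CE π z) (A : Q → ℂ) : Ev z 1 fun x => A (π x) := fun x => by simp [h.map]

/-- The normalised integral expression of a character on the regular elements. -/
theorem exists_A (ja : JobCa.{u}) (jb : JobCb.{u}) (jn : JobN.{u}) (hM : IsPModular 3 M)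
    (h : CE π z) (hv : HV M π z) (k : QD M e w) (h3 : 3 ∣ ∑ O, g O) (h9 : ¬ 9 ∣ ∑ O, g O)
    (h1 : ζ ≠ 1) (hζ : ζ * conj ζ = 1) {ψ : IrrCharacter H} (hψ : ψ ∈ Iz M z ζ) :
    ∃ (A : Q → ℂ) (ε : ℤ), (ε = 1 ∨ ε = -1) ∧ IsGeneralizedCharacter Q A ∧
      InB (principalBlock M Q) A ∧ (∀ O, classInner A (w O) = g O) ∧
      ∀ y, ¬ 3 ∣ orderOf y → ε * ψ.1 y = A (π y) := by
  obtain ⟨A, a1, a2, a3⟩ := ja H Q z π M e n w ψ.1 hM h k
    ψ.2.isCharacter.isGeneralizedCharacter (inB_irr hψ.1)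
  have b1 := jb.1 H Q z π ζ ψ.1 ψ.1 A A h hζ hψ.2 hψ.2 (fun x hx => hv.zero h1 hψ hx) a3 a3
  have b2 := jb.2 Q M e n w A A hM k a2
  have gA := gd_id a1 a2
  have c1 : ∀ O, classInner A (w O) = _ := fun O => (tv_dot _ a1 (k.gen O) gA.2).symm
  have c2 : ∀ O, classInner (w O) A = _ := fun O => classInner_comm_of_int (c1 O)
  rw [← b1, ψ.2.classInner_self, ← tv_dot _ a1 a1 gA.2] at b2
  simp only [c1, c2] at b2
  obtain ⟨ε, s, hε, hs⟩ := jn _ n e _ g (tv (principalBlock M Q) (MonoidHom.id Q) A)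
    (by exact_mod_cast k.ne) k.w0.self k.w0.gram k.full h3 h9 (by
      rw [← Int.cast_inj (α := ℂ)]
      simp only [sq]
      push_cast at b2 ⊢
      linear_combination -b2)
  refine ⟨(ε : ℂ) • A + ∑ O, (s O : ℂ) • w O, ε, hε, (a1.intCast_smul ε).add
    (isGeneralizedCharacter_sum _ fun O _ => (k.gen O).intCast_smul _), (a2.smul _).add
    (inB_sum _ fun O _ => (mem_Vb.1 (k.vb O)).1.smul _), fun O => ?_, fun y hy => ?_⟩
  · rw [← hs O]
    simp only [classInner_add_left, classInner_smul_left, classInner_sum_left, add_dotProduct,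
      smul_dotProduct, sum_dotProduct, smul_eq_mul, c1, Int.cast_add, Int.cast_mul, Int.cast_sum,
      tv_dot _ (k.gen _) (k.gen O) (k.gd _).2]
  · simp [a3 y hy, fun O => (mem_Vb.1 (k.vb O)).2 _ (not_dvd_map (π := π) hy)]

/-- The data of the central extension. -/
structure CD (M : Ideal AlgInt) (π : H →* Q) (e : ℕ) (c : ℤ) (g : Fin n → ℤ)
    (α : Fin n → H → ℂ) (p q : Fin m → H → ℂ) : Prop where
  gα : ∀ O, IsGeneralizedCharacter H (α O) ∧ α O ∈ Vb 3 (principalBlock M H)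
  gp : ∀ j, IsGeneralizedCharacter H (p j) ∧ p j ∈ Vb 3 (principalBlock M H)
  gq : ∀ j, IsGeneralizedCharacter H (q j) ∧ q j ∈ Vb 3 (principalBlock M H)
  self : ∀ O, classInner (α O) (α O) = e + 1
  gram : ∀ O O', O ≠ O' → classInner (α O) (α O') = e
  one : ∀ O, classInner (α O) (fun _ => 1) = -1
  fp : FmC c 2 g α p
  fq : FmC c 2 g α q
  pq : ∀ j, classInner (p j) (q j) = c + 1
  pq' : ∀ j k, j ≠ k → classInner (p j) (q k) = c
  span : ∀ f ∈ Vb 3 (principalBlock M H), ∀ θ, (∀ O, classInner (α O) θ = 0) →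
    (∀ j, classInner (p j) θ = 0) → (∀ j, classInner (q j) θ = 0) → classInner f θ = 0
  spanu : ∀ u, 3 ∣ orderOf (π u) → ∀ θ, (∀ O, classInner (α O) θ = 0) →
    classInner (fun x => bker (principalBlock M H) x u) θ = 0
  rank : finrank ℂ (Vb 3 (principalBlock M H)) = n + 2 * m

/-- A function in the block that is orthogonal to the faithful characters is inflated. -/
theorem span_infl (hM : IsPModular 3 M) (h : CE π z) (k : QD M e w) (hω : ω ^ 2 + ω + 1 = 0)
    {f : H → ℂ} (hf : f ∈ Vb 3 (principalBlock M H))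
    (h1 : ∀ ψ ∈ Iz M z ω, classInner f ψ.1 = 0) (h2 : ∀ ψ ∈ Iz M z (ω ^ 2), classInner f ψ.1 = 0)
    {θ : H → ℂ} (h0 : ∀ O, classInner (fun x => w O (π x)) θ = 0) : classInner f θ = 0 := by
  have : f ∈ (spanB (principalBlock M Q)).map (LinearMap.funLeft ℂ ℂ π) := by
    rw [(mem_Vb.1 hf).1.eq_sum]
    refine Submodule.sum_mem _ fun ψ hψ => ?_
    rcases h.tri hM hω (mem_bF.1 hψ) with ⟨χ, hχ, rfl⟩ | t | t
    · exact Submodule.smul_mem _ _ ⟨χ.1, mem_spanB.2 (inB_irr hχ), (coe_infl h.surj χ).symm⟩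
    · simp [h1 ψ t]
    · simp [h2 ψ t]
  obtain ⟨F, hF, rfl⟩ := this
  obtain ⟨s, rfl⟩ := k.span F (mem_Vb.2 ⟨mem_spanB.1 hF, fun x hx => by
    obtain ⟨y, hy, rfl⟩ := exists_pReg_lift Nat.prime_three h.surj hx
    exact (mem_Vb.1 hf).2 y hy⟩)
  rw [map_sum, classInner_sum_left]
  exact sum_eq_zero fun O _ => by
    rw [map_smul, classInner_smul_left]
    exact mul_eq_zero_of_right _ (h0 O)

section fam
variable {φ φ' : IrrCharacter H} {ξ a a' : ℂ} {A A' : Q → ℂ}

omit [M.IsMaximal] [Fintype Q] in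
theorem pin_irr (h : CE π z) (hφ' : φ' ∈ Iz M z ξ) (h1 : ξ ≠ 1) :
    classInner ((fun x => A (π x)) - a • φ.1) φ'.1 = -a * classInner φ.1 φ'.1 := by
  rw [classInner_sub_left, classInner_smul_left,
    (h.ev A).orth hφ'.2 fun e => h1 (by simpa using congrArg conj e)]
  ring

omit [M.IsMaximal] in
theorem pin_infl (h : CE π z) (hφ : φ ∈ Iz M z ζ) (h1 : ζ ≠ 1) :
    classInner ((fun x => A (π x)) - a • φ.1) (fun x => A' (π x)) = classInner A A' := by
  rw [classInner_sub_left, classInner_smul_left, hφ.2.orth (h.ev A') (by simpa using h1),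
    classInner_comp_surjective π h.surj, mul_zero, sub_zero]

omit [M.IsMaximal] in
theorem pin (h : CE π z) (hφ : φ ∈ Iz M z ζ) (h1 : ζ ≠ 1) (hφ' : φ' ∈ Iz M z ξ) (h2 : ξ ≠ 1) :
    classInner ((fun x => A (π x)) - a • φ.1) ((fun x => A' (π x)) - a' • φ'.1) =
      classInner A A' + a * conj a' * classInner φ.1 φ'.1 := by
  rw [classInner_sub_right, classInner_smul_right, pin_infl h hφ h1, pin_irr h hφ' h2]
  ring

theorem pmem (h : CE π z) (hφ : φ ∈ Iz M z ζ) {ε : ℤ} (a1 : IsGeneralizedCharacter Q A)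
    (a2 : InB (principalBlock M Q) A) (a4 : ∀ y, ¬ 3 ∣ orderOf y → ε * φ.1 y = A (π y)) :
    IsGeneralizedCharacter H ((fun x => A (π x)) - (ε : ℂ) • φ.1) ∧
      (fun x => A (π x)) - (ε : ℂ) • φ.1 ∈ Vb 3 (principalBlock M H) :=
  ⟨(a1.comp π).sub (φ.2.isCharacter.isGeneralizedCharacter.intCast_smul ε),
    mem_Vb.2 ⟨(H29.InB.comp_surj h.surj a2).sub ((inB_irr hφ.1).smul _), fun y hy => by
      simp [a4 y hy]⟩⟩

end fam

theorem exists_CD (ja : JobCa.{u}) (jb : JobCb.{u}) (jc : JobCc.{u}) (jd : JobCd.{u})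
    (jn : JobN.{u}) {l : ℕ} (jl : JobL.{u} n e c g l) (hM : IsPModular 3 M) (h : CE π z)
    (hv : HV M π z) (k : QD M e w) (h3 : 3 ∣ ∑ O, g O) (h9 : ¬ 9 ∣ ∑ O, g O)
    (hc : 9 * c = 9 * ∑ O, g O * g O - e * ((∑ O, g O) * ∑ O, g O)) :
    ∃ p q : Fin l → H → ℂ, CD M π e c g (fun O x => w O (π x)) p q := by
  obtain ⟨ω, hω⟩ : ∃ ω : ℂ, ω ^ 2 + ω + 1 = 0 := by
    obtain ⟨s, hs⟩ := IsAlgClosed.exists_pow_nat_eq (-3 : ℂ) two_pos
    exact ⟨(s - 1) / 2, by linear_combination hs / 4⟩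
  obtain ⟨o1, o3, oc⟩ := om_norm hω
  obtain ⟨o2, -, oc'⟩ := om_norm (ω := ω ^ 2) (by linear_combination hω + ω * o3)
  have on : ω * conj ω = 1 := by rw [oc]; linear_combination o3
  have x1 : ω * conj (ω ^ 2) ≠ 1 := fun e => o2 (by
    rw [oc'] at e; linear_combination e - ω ^ 2 * o3)
  have x2 : ω ^ 2 * conj ω ≠ 1 := fun e => o1 (by rw [oc] at e; linear_combination e - ω * o3)
  obtain ⟨⟨σ, hσ⟩, hcard⟩ := jd H Q z π M ω hM h hω
  have hr := jc H Q z π M ω hM h hv hω
  rw [← Nat.card_congr σ] at hcard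
  obtain ⟨m, hm⟩ : ∃ m, Nat.card (Iz M z ω) = m := ⟨_, rfl⟩
  obtain ⟨ψ⟩ : Nonempty (Fin m ≃ Iz M z ω) := ⟨(Finite.equivFinOfCardEq hm).symm⟩
  choose A ε hε a1 a2 a3 a4 using fun j => exists_A ja jb jn hM h hv k h3 h9 o1 on (ψ j).2
  have e2 : ∀ j, (ε j : ℂ) * ε j = 1 := fun j => by rcases hε j with t | t <;> simp [t]
  have d1 : ∀ i j, classInner (ψ i).1.1 (ψ j).1.1 = if i = j then 1 else 0 := fun i j => by
    simp [classInner_irr, Subtype.val_inj]
  have d2 : ∀ i j, classInner (σ (ψ i)).1.1 (σ (ψ j)).1.1 = if i = j then 1 else 0 :=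
    fun i j => by simp [classInner_irr, Subtype.val_inj]
  have d3 : ∀ i j, (ε i : ℂ) * ε j * (if i = j then 1 else 0) = if i = j then 1 else 0 :=
    fun i j => by split_ifs with t <;> simp [t, e2]
  have hA : ∀ i j, classInner (A i) (A j) = c + if i = j then 1 else 0 := fun i j => by
    have ev : ∀ j, Ev z ω ((ε j : ℂ) • (ψ j).1.1) := fun j x => by
      simp [(ψ j).2.2 x, mul_left_comm]
    have b1 := jb.1 H Q z π ω _ _ (A i) (A j) h on (ev i) (ev j)
      (fun x hx => by simp [hv.zero o1 (ψ i).2 hx]) (a4 i) (a4 j)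
    have b2 := jb.2 Q M e n w (A i) (A j) hM k (a2 i)
    rw [classInner_smul_left, classInner_smul_right, map_intCast, d1, ← mul_assoc, d3] at b1
    simp only [← b1, a3, fun O => classInner_comm_of_int (a3 j O)] at b2
    have hc' := congrArg (Int.cast : ℤ → ℂ) hc
    push_cast at hc'
    linear_combination (-b2 - hc') / 9
  have r1 := finrank_Vb (p := 3) (B := principalBlock M Q)
  have r2 := finrank_Vb (p := 3) (B := principalBlock M H)
  rw [k.rank, ← h.pcq.qb_principalBlock hM, h.pcq.blockRank_qb hM isPBlock_principalBlock,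
    h.pcq.qb_principalBlock hM, hr, hm] at r1
  rw [hcard, hr, hm, ← r1] at r2
  obtain rfl : m = l := by
    simpa using jl _ (Fin m) _ _ _ _ k.w0 k.full (FmC.fm (r := 1)
      ⟨fun j => by simp [hA], fun i j t => by simp [hA, t], a3⟩ k.gd fun j => gd_id (a1 j) (a2 j))
      (by simp [card_bF, r1])
  have a5 : ∀ j y, ¬ 3 ∣ orderOf y → ε j * (σ (ψ j)).1.1 y = A j (π y) := fun j y hy => by
    rw [hσ _ y hy, a4 j y hy]
  have gp := fun j => pmem h (ψ j).2 (a1 j) (a2 j) (a4 j)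
  have gq := fun j => pmem h (σ (ψ j)).2 (a1 j) (a2 j) (a5 j)
  have ci := classInner_comp_surjective π h.surj
  refine ⟨_, _, fun O => ⟨(k.gen O).comp π, mem_Vb.2 ⟨H29.InB.comp_surj h.surj
    (mem_Vb.1 (k.vb O)).1, fun y hy => (mem_Vb.1 (k.vb O)).2 _ (not_dvd_map hy)⟩⟩, gp, gq,
    fun O => (ci _ _).trans (k.self O), fun O O' t => (ci _ _).trans (k.gram O O' t),
    fun O => (ci _ fun _ => 1).trans (k.one O), ⟨fun j => ?_, fun i j t => ?_, fun j O => ?_⟩,
    ⟨fun j => ?_, fun i j t => ?_, fun j O => ?_⟩, fun j => ?_, fun i j t => ?_,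
    fun f hf θ t0 t1 t2 => ?_, fun u hu θ t0 => ?_, by omega⟩
  · rw [pin h (ψ j).2 o1 (ψ j).2 o1, map_intCast, d1, d3, hA]; simp [add_assoc, one_add_one_eq_two]
  · rw [pin h (ψ i).2 o1 (ψ j).2 o1, d1, hA]; simp [t]
  · rw [pin_infl h (ψ j).2 o1, a3]
  · rw [pin h (σ _).2 o2 (σ _).2 o2, map_intCast, d2, d3, hA]; simp [add_assoc, one_add_one_eq_two]
  · rw [pin h (σ _).2 o2 (σ _).2 o2, d2, hA]; simp [t]
  · rw [pin_infl h (σ _).2 o2, a3]
  · rw [pin h (ψ j).2 o1 (σ _).2 o2, (ψ j).2.2.orth (σ _).2.2 x1, hA]; simp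
  · rw [pin h (ψ i).2 o1 (σ _).2 o2, (ψ i).2.2.orth (σ _).2.2 x1, hA]; simp [t]
  · have := span_infl hM h k hω (Submodule.add_mem _ (Submodule.add_mem _ hf
      (Submodule.sum_mem _ fun j (_ : j ∈ univ) => Submodule.smul_mem _
        (ε j * classInner f (ψ j).1.1) (gp j).2))
      (Submodule.sum_mem _ fun j (_ : j ∈ univ) => Submodule.smul_mem _
        (ε j * classInner f (σ (ψ j)).1.1) (gq j).2)) (fun χ hχ => ?_) (fun χ hχ => ?_) t0
    · simpa only [classInner_add_left, classInner_sum_left, classInner_smul_left, t1, t2, mul_zero,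
        sum_const_zero, add_zero] using this
    · obtain ⟨i, hi⟩ := ψ.surjective ⟨χ, hχ⟩
      obtain rfl : (ψ i).1 = χ := congrArg Subtype.val hi
      simp only [classInner_add_left, classInner_sum_left, classInner_smul_left, pin_irr h hχ o1,
        d1, fun j => (σ (ψ j)).2.2.orth hχ.2 x2]
      simp
      linear_combination (-classInner f (ψ i).1.1) * e2 i
    · obtain ⟨i, hi⟩ := (ψ.trans σ).surjective ⟨χ, hχ⟩
      obtain rfl : (σ (ψ i)).1 = χ := congrArg Subtype.val hi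
      simp only [classInner_add_left, classInner_sum_left, classInner_smul_left, pin_irr h hχ o2,
        d2, fun j => (ψ j).2.2.orth hχ.2 x1]
      simp
      linear_combination (-classInner f (σ (ψ i)).1.1) * e2 i
  · refine span_infl hM h k hω (bker_mem hM isPBlock_principalBlock
      (by_contra fun t => not_dvd_map t hu)) (fun χ hχ => ?_) (fun χ hχ => ?_) t0
    · rw [bker_fun, classInner_sum_bF _ hχ.1, hv.zero o1 hχ hu, map_zero]
    · rw [bker_fun, classInner_sum_bF _ hχ.1, hv.zero o2 hχ hu, map_zero]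

end H34.X3
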