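import Cfsg.Agent.H53.SimXASpec

/-! Tower SIM, chapter XA: the span of an abelian group of matrices of order prime to the
characteristic is a reduced commutative ring. -/

set_option autoImplicit false

namespace H34.XARed

open Subgroup Cfsg H98 Matrix H0.Sim H53.XA

theorem common {G : Type} [Group G] [Finite G] (E : Subgroup G) (r : ℕ)
    (h : ∀ e ∈ E, (orderOf e).Coprime r) :
    ∃ N : ℕ, 0 < N ∧ (∀ e ∈ E, orderOf e ∣ N) ∧ r.Coprime N := by
  classical
  have : Fintype G := Fintype.ofFinite _
  refine ⟨∏ e ∈ Finset.univ.filter (· ∈ E), orderOf e, Finset.prod_pos fun e _ => orderOf_pos _,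
    fun e he => Finset.dvd_prod_of_mem _ (by simpa using he),
    Nat.Coprime.prod_right fun e he => (h e (by simpa using he)).symm⟩

theorem job : H53.XA.RED := by
  classical
  intro n F _ _ u q E fq hE
  have sub : ∀ e ∈ E, (e : Mt n F) ∈ Sp E := fun e he => Submodule.subset_span ⟨e, he, rfl⟩
  have mulc : ∀ a ∈ Sp E, ∀ b ∈ Sp E, a * b ∈ Sp E ∧ a * b = b * a := by
    intro a ha b hb
    induction ha using Submodule.span_induction with
    | mem x hx =>
      obtain ⟨e, he, rfl⟩ := hx
      induction hb using Submodule.span_induction with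
      | mem y hy =>
        obtain ⟨d, hd, rfl⟩ := hy
        refine ⟨by rw [← Units.val_mul]; exact sub _ (mul_mem he hd), ?_⟩
        rw [← Units.val_mul, hE.ab e he d hd, Units.val_mul]
      | zero => exact ⟨by rw [mul_zero]; exact zero_mem _, by rw [mul_zero, zero_mul]⟩
      | add y z _ _ h1 h2 =>
        exact ⟨by rw [mul_add]; exact add_mem h1.1 h2.1, by rw [mul_add, add_mul, h1.2, h2.2]⟩
      | smul c y _ h1 =>
        exact ⟨by rw [mul_smul_comm]; exact Submodule.smul_mem _ c h1.1,
          by rw [mul_smul_comm, smul_mul_assoc, h1.2]⟩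
    | zero => exact ⟨by rw [zero_mul]; exact zero_mem _, by rw [mul_zero, zero_mul]⟩
    | add y z _ _ h1 h2 =>
      exact ⟨by rw [add_mul]; exact add_mem h1.1 h2.1, by rw [mul_add, add_mul, h1.2, h2.2]⟩
    | smul c y _ h1 =>
      exact ⟨by rw [smul_mul_assoc]; exact Submodule.smul_mem _ c h1.1,
        by rw [mul_smul_comm, smul_mul_assoc, h1.2]⟩
  refine ⟨mulc, by simpa using sub 1 (one_mem _), ?_, ?_⟩
  · rintro rfl a ha
    have hF : Fintype.card F = q ^ 2 := by simpa [Fq] using fq
    induction ha using Submodule.span_induction with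
    | mem x hx =>
      obtain ⟨e, he, rfl⟩ := hx
      have h1 := (mem_gu hF).1 (hE.le he)
      have h2 : ad q (e : Mt n F) = ((e⁻¹ : GL (Fin n) F) : Mt n F) := by
        rw [← mul_one (ad q (e : Mt n F)), ← Units.mul_inv e, ← mul_assoc, h1, one_mul]
      rw [h2]
      exact sub _ (inv_mem he)
    | zero => rw [ad_zero hF]; exact zero_mem _
    | add y z _ _ h1 h2 => rw [ad_add hF]; exact add_mem h1 h2
    | smul c y _ h1 => rw [ad_smul hF]; exact Submodule.smul_mem _ _ h1
  · rcases Nat.eq_zero_or_pos n with rfl | hn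
    · exact ⟨1, le_rfl, fun m _ => Subsingleton.elim _ _⟩
    have : Nonempty (Fin n) := ⟨⟨0, hn⟩⟩
    obtain ⟨k, hr, hk⟩ := FiniteField.card F (ringChar F)
    have : Fact (ringChar F).Prime := ⟨hr⟩
    obtain ⟨N, N0, hN, cop⟩ : ∃ N : ℕ, 0 < N ∧ (∀ e ∈ E, orderOf e ∣ N) ∧
        (Fintype.card F).Coprime N := by
      obtain ⟨N, h1, h2, h3⟩ := common E (ringChar F) hE.rp
      exact ⟨N, h1, h2, by rw [hk]; exact h3.pow_left _⟩
    have t0 : 0 < N.totient := Nat.totient_pos.2 N0
    have h2 : 2 ≤ Fintype.card F ^ N.totient :=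
      Nat.one_lt_pow t0.ne' Fintype.one_lt_card
    refine ⟨Fintype.card F ^ N.totient - 1, by omega, fun m hm => ?_⟩
    rw [Nat.sub_add_cancel (by omega)]
    induction hm using Submodule.span_induction with
    | mem x hx =>
      obtain ⟨e, he, rfl⟩ := hx
      have h3 : e ^ (Fintype.card F ^ N.totient) = e ^ 1 :=
        pow_eq_pow_iff_modEq.2 ((Nat.ModEq.pow_totient cop).of_dvd (hN e he))
      rw [← Units.val_pow_eq_pow_val, h3, pow_one]
    | zero => exact zero_pow (by omega)
    | add y z hy hz h1 h2 =>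
      have hc : Commute y z := (mulc y hy z hz).2
      rw [hk, ← pow_mul] at h1 h2 ⊢
      rw [add_pow_char_pow_of_commute _ _ hc, h1, h2]
    | smul c y _ h1 => rw [smul_pow, h1, FiniteField.pow_card_pow]

end H34.XARed
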